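import Cfsg.Agent.H7.ZassIdent
import Cfsg.Agent.H7.ZassNotSimple
import Cfsg.Agent.H37.Zassenhaus

/-!
Sharply triply transitive groups of degree `p^f + 1`, `p` odd and `f` odd, are `PGL₂(p^f)`.
-/

set_option autoImplicit false
set_option linter.style.haveILetI false

namespace Cfsg.Agent.H7

open MulAction OnePoint

/-- An additive map commuting up to scalars with the squares, whose square is a scalar, is a scalar when the degree of
the field is odd. -/
theorem semilinear_linear {F : Type*} [Field F] [Finite F] {p f : ℕ} [Fact p.Prime] [CharP F p]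
    (hp2 : p ≠ 2) (hf : Odd f) (hcard : Nat.card F = p ^ f) (φ : F → F) (hadd : ∀ x y, φ (x + y) = φ x + φ y)
    (hinj : Function.Injective φ) (hsemi : ∀ c : F, c ≠ 0 → IsSquare c → ∃ m : F, ∀ x, φ (c * x) = m * φ x)
    (hsq : ∃ c : F, ∀ x, φ (φ x) = c * x) : ∀ x, φ x = φ 1 * x := by
  have h0 : φ 0 = 0 := by
    have := hadd 0 0
    rw [add_zero] at this
    exact left_eq_add.1 this
  set c1 := φ 1 with hc1
  have hc1' : c1 ≠ 0 := fun e => one_ne_zero (hinj (e.trans h0.symm))
  set ψ : F → F := fun x => φ x / c1 with hψ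
  have hψadd : ∀ x y, ψ (x + y) = ψ x + ψ y := fun x y => by simp only [hψ, hadd, add_div]
  have hφψ : ∀ x, φ x = c1 * ψ x := fun x => by simp only [hψ]; field_simp
  have hψ1 : ψ 1 = 1 := div_self hc1'
  have h2 : (2 : F) ≠ 0 := Ring.two_ne_zero (by rw [ringChar.eq F p]; exact hp2)
  have hψsq : ∀ c x : F, IsSquare c → ψ (c * x) = ψ c * ψ x := by
    intro c x hc
    rcases eq_or_ne c 0 with rfl | hc0
    · simp [hψ, h0]
    obtain ⟨m, hm⟩ := hsemi c hc0 hc
    have e1 := hm 1
    rw [mul_one] at e1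
    simp only [hψ, hm x, e1, ← hc1]
    field_simp
  -- `ψ` is multiplicative
  have hmul : ∀ y x : F, ψ (y * x) = ψ y * ψ x := by
    intro y x
    have hy : y = ((y + 1) / 2) * ((y + 1) / 2) + -(((y - 1) / 2) * ((y - 1) / 2)) := by field_simp; ring
    have hneg : ∀ z, ψ (-z) = -ψ z := fun z => by
      have := hψadd z (-z)
      rw [add_neg_cancel] at this
      have h00 : ψ 0 = 0 := by simp [hψ, h0]
      rw [h00] at this
      exact eq_neg_of_add_eq_zero_right this.symm
    rw [hy, add_mul, hψadd, hψadd, neg_mul, hneg, hneg, hψsq _ x ⟨_, rfl⟩, hψsq _ x ⟨_, rfl⟩]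
    ring
  let Ψ : F →+* F :=
    { toFun := ψ
      map_one' := hψ1
      map_mul' := hmul
      map_zero' := by simp [hψ, h0]
      map_add' := hψadd }
  have hbij : Function.Bijective Ψ := Finite.injective_iff_bijective.1 Ψ.injective
  obtain ⟨c, hc⟩ := hsq
  -- `ψ` is an involution
  have hψψ : ∀ x, ψ (ψ x) = x := by
    have key : ∀ x, c1 * ψ (c1) * ψ (ψ x) = c * x := fun x => by
      rw [← hc x, hφψ x, hφψ (c1 * ψ x), hmul]; ring
    have h1 := key 1
    rw [hψ1, hψ1, mul_one, mul_one] at h1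
    intro x
    have h3 := key x
    rw [h1] at h3
    have hcne : c ≠ 0 := by
      intro e
      have := hc 1
      rw [e, zero_mul] at this
      exact one_ne_zero (hinj (hinj (this.trans (show (0 : F) = φ (φ 0) by rw [h0, h0]))))
    exact mul_left_cancel₀ hcne h3
  letI : Algebra (ZMod p) F := ZMod.algebra F p
  let A : F ≃ₐ[ZMod p] F := AlgEquiv.ofRingEquiv (f := RingEquiv.ofBijective Ψ hbij) fun x => by
    exact congrFun (congrArg DFunLike.coe (Subsingleton.elim (Ψ.comp (algebraMap (ZMod p) F)) (algebraMap (ZMod p) F))) x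
  have hA2 : A ^ 2 = 1 := AlgEquiv.ext fun x => by rw [pow_two]; exact hψψ x
  haveI : Module.Finite (ZMod p) F := Module.Finite.of_finite
  haveI : Finite (F ≃ₐ[ZMod p] F) := Finite.of_injective (fun e : F ≃ₐ[ZMod p] F => (e : F → F)) fun e e' h =>
    AlgEquiv.ext (congrFun h)
  have hA1 : A = 1 := by
    by_contra hne
    have ho : orderOf A = 2 := orderOf_eq_prime hA2 hne
    have h3 := orderOf_dvd_natCard A
    rw [ho, IsGalois.card_aut_eq_finrank] at h3
    have h4 : Nat.card F = p ^ Module.finrank (ZMod p) F := by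
      rw [Module.natCard_eq_pow_finrank (K := ZMod p), Nat.card_zmod]
    rw [hcard] at h4
    rw [← Nat.pow_right_injective (Fact.out : p.Prime).two_le h4] at h3
    exact hf.not_two_dvd_nat h3
  intro x
  have hx : ψ x = x := congrFun (congrArg DFunLike.coe hA1) x
  rw [hφψ, hx]

variable {G Ω : Type*} [Group G] [MulAction G Ω] [Fintype Ω] {a b : Ω}

/-- Sharply triply transitive of degree `p^f + 1 ≥ 6`, `p`, `f` odd: `PGL₂(p^f)`. -/
theorem ZHyp.pgl_of_sharp (Z : ZHyp G Ω) (hab : a ≠ b) {p f : ℕ} (hp : p.Prime) (hp2 : p ≠ 2) (hf : Odd f)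
    (hΩ : Fintype.card Ω = p ^ f + 1) (h6 : 6 ≤ Fintype.card Ω)
    (hcard : Fintype.card Ω = Nat.card ↥(stabilizer G a ⊓ stabilizer G b) + 2) :
    ∃ (F : Type) (_ : Field F) (_ : Fintype F), Fintype.card F = p ^ f ∧
      Nonempty (G ≃* Matrix.ProjGenLinGroup (Fin 2) F) := by
  classical
  haveI := Z.finite
  haveI : Fact p.Prime := ⟨hp⟩
  set H := stabilizer G a ⊓ stabilizer G b with hH
  set d := Nat.card H with hd
  have hpodd : Odd (p ^ f) := (hp.odd_of_ne_two hp2).pow
  have hdeven : Even d := by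
    obtain ⟨k, hk⟩ := hpodd
    exact ⟨k, by omega⟩
  obtain ⟨U, K, -⟩ := Z.exists_ZK hab
  obtain ⟨-, z, hz, z1, zz, huniq, -, -⟩ := K.exists_central_involution hdeven
  obtain ⟨χ, y, hy, hχy⟩ := Z.sharp_sign_hom hab hdeven hcard
  set G₀ := χ.ker with hG₀
  have hUcard : Nat.card U + 1 = Fintype.card Ω := by rw [← Nat.card_eq_fintype_card]; exact K.card_U
  have hUG₀ : U ≤ G₀ := by
    intro u hu
    show χ u = 1
    have h1 : (χ u) ^ Nat.card U = 1 := by
      rw [← map_pow, show u ^ Nat.card U = 1 from congrArg Subtype.val (pow_card_eq_one' (x := (⟨u, hu⟩ : U))),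
        map_one]
    rcases Int.units_eq_one_or (χ u) with e | e
    · exact e
    · rw [e, Odd.neg_one_pow (by rwa [show Nat.card U = p ^ f by omega])] at h1
      exact absurd h1 (by decide)
  -- the kernel on `H`
  let χH : H →* ℤˣ := χ.comp H.subtype
  have hidx : χH.ker.index = 2 := by
    rw [Subgroup.index_ker]
    have : χH.range = ⊤ := by
      rw [eq_top_iff]
      intro e _
      rcases Int.units_eq_one_or e with rfl | rfl
      · exact one_mem _
      · exact ⟨⟨y, hy⟩, hχy⟩
    rw [this, Subgroup.card_top, Nat.card_eq_fintype_card, Fintype.card_units_int]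
  obtain ⟨d₀, hd₀⟩ : ∃ d₀, d₀ = Nat.card χH.ker := ⟨_, rfl⟩
  have hdd₀ : d = 2 * d₀ := by rw [hd₀, hd, ← χH.ker.card_mul_index, hidx, mul_comm]
  -- the axial involution
  obtain ⟨S, hS, hScard⟩ := Z.exists_axial hab hdeven
  have hSpos : 0 < S.card := by omega
  obtain ⟨s, hsS⟩ := Finset.card_pos.1 hSpos
  obtain ⟨ss, sa, sb, c, hsc⟩ := hS s hsS
  have hSconj : ∀ x ∈ S, χ x = χ z := by
    intro x hx
    obtain ⟨xx, xa, -, e₁, he₁⟩ := hS x hx
    have hmod := H37.card_fixedBy_mod_two (Ω := Ω) (g := x) xx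
    obtain ⟨e₂, he₂, hne⟩ : ∃ e₂, x • e₂ = e₂ ∧ e₂ ≠ e₁ := by
      by_contra hcon
      push Not at hcon
      have h1 : Nat.card (fixedBy Ω x) = 1 :=
        Nat.card_eq_one_iff_unique.2 ⟨⟨fun v w => Subtype.ext ((hcon v.1 v.2).trans (hcon w.1 w.2).symm)⟩, ⟨⟨e₁, he₁⟩⟩⟩
      rw [h1, hΩ, Nat.add_mod, Nat.odd_iff.1 hpodd] at hmod
      norm_num at hmod
    obtain ⟨g, ga, gb⟩ := Z.two hab hne.symm
    have hm : g⁻¹ * x * g ∈ H :=
      ⟨(show (g⁻¹ * x * g) • a = a by rw [mul_smul, ga, mul_smul, he₁, inv_smul_eq_iff, ga]),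
       (show (g⁻¹ * x * g) • b = b by rw [mul_smul, gb, mul_smul, he₂, inv_smul_eq_iff, gb])⟩
    have x1 : x ≠ 1 := fun e => hab (by rw [e, one_smul] at xa; exact xa)
    have e : g⁻¹ * x * g = z := by
      refine huniq _ hm (fun e => x1 ?_) ?_
      · calc x = g * (g⁻¹ * x * g) * g⁻¹ := by group
          _ = 1 := by rw [e]; group
      · rw [show g⁻¹ * x * g * (g⁻¹ * x * g) = g⁻¹ * (x * x) * g by group, xx]; group
    rw [← e, map_mul, map_mul, map_inv, mul_comm (χ g)⁻¹, inv_mul_cancel_right]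
  have si : s⁻¹ = s := inv_eq_of_mul_eq_one_right ss
  have hswapH : ∀ g : G, g • a = b → g • b = a → ∀ h ∈ H, g * h * g⁻¹ ∈ H := fun g ga gb h hh =>
    ⟨(show (g * h * g⁻¹) • a = a by rw [mul_smul, mul_smul, inv_smul_eq_iff.2 gb.symm, hh.2, gb]),
     (show (g * h * g⁻¹) • b = b by rw [mul_smul, mul_smul, inv_smul_eq_iff.2 ga.symm, hh.1, ga])⟩
  have hsz : s * z = z * s := by
    have : s * z * s⁻¹ = z := huniq _ (hswapH s sa sb z hz) (fun e => z1 (conj_eq_one_iff.1 e))
      (by rw [show s * z * s⁻¹ * (s * z * s⁻¹) = s * (z * z) * s⁻¹ by group, zz]; group)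
    exact mul_inv_eq_iff_eq_mul.1 this
  -- an element of the kernel exchanging the points and inverting the kernel part
  obtain ⟨t, htχ, tt, ta, tb, htinv, htfix⟩ : ∃ t : G, χ t = 1 ∧ t * t = 1 ∧ t • a = b ∧ t • b = a ∧
      (∀ h ∈ H, χ h = 1 → t * h * t = h⁻¹) ∧
      (Even d₀ → ∀ x : G, χ x = 1 → x * x = 1 → x • a = b → ∃ e : Ω, x • e = e) := by
    rcases Int.units_eq_one_or (χ z) with hχz | hχz
    · have hsχ : χ s = 1 := (hSconj s hsS).trans hχz
      have hall : ∀ x : G, χ x = 1 → x • a = b → x • b = a → x ∈ S := by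
        intro x hx xa xb
        let φ : S → χH.ker := fun v => ⟨⟨x⁻¹ * v.1,
          (show (x⁻¹ * v.1) • a = a by rw [mul_smul, (hS v.1 v.2).2.1, inv_smul_eq_iff, xa]),
          (show (x⁻¹ * v.1) • b = b by rw [mul_smul, (hS v.1 v.2).2.2.1, inv_smul_eq_iff, xb])⟩,
          show χ (x⁻¹ * v.1) = 1 by rw [map_mul, map_inv, hx, hSconj v.1 v.2, hχz, inv_one, mul_one]⟩
        have hφ : Function.Bijective φ := by
          refine Function.Injective.bijective_of_nat_card_le
            (fun v w e => Subtype.ext (mul_left_cancel (congrArg Subtype.val (congrArg Subtype.val e)))) ?_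
          rw [← hd₀, Nat.card_eq_finsetCard]
          omega
        obtain ⟨v, hv⟩ := hφ.2 1
        rw [show x = v.1 from inv_mul_eq_one.1 (congrArg Subtype.val (congrArg Subtype.val hv))]
        exact v.2
      refine ⟨s, hsχ, ss, sa, sb, fun h hh hχh => ?_, fun _ x hx xx xa => ?_⟩
      · have h2 := (hS _ (hall (s * h) (by rw [map_mul, hsχ, hχh, mul_one])
          (by rw [mul_smul, show h • a = a from hh.1, sa]) (by rw [mul_smul, show h • b = b from hh.2, sb]))).1
        exact eq_inv_of_mul_eq_one_left (by rw [← h2]; group)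
      · exact (hS x (hall x hx xa (by rw [← xa, ← mul_smul, xx, one_smul]))).2.2.2
    · have hodd : ¬ Even d₀ := by
        intro he
        obtain ⟨h, hh⟩ := exists_prime_orderOf_dvd_card' (G := χH.ker) 2 (hd₀ ▸ even_iff_two_dvd.1 he)
        have h2 : h.1.1 * h.1.1 = 1 := by
          have := pow_orderOf_eq_one h
          rw [hh, pow_two] at this
          exact congrArg Subtype.val (congrArg Subtype.val this)
        have h1 : h.1.1 ≠ 1 := fun e => by
          rw [show h = 1 from Subtype.ext (Subtype.ext e), orderOf_one] at hh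
          omega
        have e : χ h.1.1 = 1 := h.2
        rw [huniq _ h.1.2 h1 h2, hχz] at e
        exact absurd e (by decide)
      refine ⟨s * z, by rw [map_mul, hSconj s hsS, hχz]; decide, ?_, ?_, ?_, ?_, fun he => absurd he hodd⟩
      · rw [show s * z * (s * z) = s * z * s * z by group, hsz, mul_assoc z s s, ss, mul_one, zz]
      · rw [mul_smul, show z • a = a from hz.1, sa]
      · rw [mul_smul, show z • b = b from hz.2, sb]
      · -- fixed-point-free on the kernel part
        have hzcomm : ∀ h ∈ H, h * z = z * h := by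
          intro h hh
          have : h * z * h⁻¹ = z := huniq _ (mul_mem (mul_mem hh hz) (inv_mem hh))
            (fun e => z1 (conj_eq_one_iff.1 e))
            (by rw [show h * z * h⁻¹ * (h * z * h⁻¹) = h * (z * z) * h⁻¹ by group, zz]; group)
          exact mul_inv_eq_iff_eq_mul.1 this
        have hconjχ : ∀ h : χH.ker, (⟨s * h.1.1 * s⁻¹, hswapH s sa sb _ h.1.2⟩ : H) ∈ χH.ker := by
          intro h
          show χ (s * h.1.1 * s⁻¹) = 1
          rw [map_mul, map_mul, map_inv, show χ h.1.1 = 1 from h.2, mul_one, mul_inv_cancel]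
        let σ : χH.ker →* χH.ker :=
          { toFun := fun h => ⟨_, hconjχ h⟩
            map_one' := Subtype.ext (Subtype.ext (by show s * (1 : G) * s⁻¹ = 1; group))
            map_mul' := fun u v => Subtype.ext (Subtype.ext (by
              show s * (u.1.1 * v.1.1) * s⁻¹ = (s * u.1.1 * s⁻¹) * (s * v.1.1 * s⁻¹); group)) }
        have hσσ : Function.Involutive σ := fun h => Subtype.ext (Subtype.ext (by
          show s * (s * h.1.1 * s⁻¹) * s⁻¹ = h.1.1
          rw [show s * (s * h.1.1 * s⁻¹) * s⁻¹ = (s * s) * h.1.1 * (s * s)⁻¹ by group, ss]; group))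
        have hfpf : MonoidHom.FixedPointFree σ := by
          intro h hh
          have e : s * h.1.1 * s⁻¹ = h.1.1 := congrArg Subtype.val (congrArg Subtype.val hh)
          have hsh : s * h.1.1 = h.1.1 * s := mul_inv_eq_iff_eq_mul.1 e
          have hfix2 : ∀ w : Ω, s • w = w → s • (h.1.1 • w) = h.1.1 • w := fun w hw => by
            rw [← mul_smul, hsh, mul_smul, hw]
          have hca : c ≠ a := fun e' => hab (by rw [e', sa] at hsc; exact hsc.symm)
          have hcb : c ≠ b := fun e' => hab (by rw [e', sb] at hsc; exact hsc)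
          have h22 : h.1.1 * h.1.1 = 1 := by
            refine Z.three _ a b c hab hcb.symm hca.symm ?_ ?_ ?_
            · rw [mul_smul, h.1.2.1, h.1.2.1]
            · rw [mul_smul, h.1.2.2, h.1.2.2]
            · rw [mul_smul]
              by_contra hne
              refine (fun e' : s = 1 => hab (by rw [e', one_smul] at sa; exact sa))
                (Z.three s c (h.1.1 • c) (h.1.1 • h.1.1 • c) ?_ ?_ (Ne.symm hne) hsc (hfix2 c hsc)
                  (hfix2 _ (hfix2 c hsc)))
              · intro e'; exact hne (by rw [← e', ← e'])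
              · intro e'; exact hne (by have h1 := (smul_left_cancel h.1.1 e').symm; rw [h1, h1])
          rcases eq_or_ne h.1.1 1 with h1 | h1
          · exact Subtype.ext (Subtype.ext h1)
          · have e' : χ h.1.1 = 1 := h.2
            rw [huniq _ h.1.2 h1 h22, hχz] at e'
            exact absurd e' (by decide)
        intro h hh hχh
        have := congrArg Subtype.val (congrArg Subtype.val
          (congrFun (MonoidHom.FixedPointFree.coe_eq_inv_of_involutive hfpf hσσ) ⟨⟨h, hh⟩, hχh⟩))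
        change s * h * s⁻¹ = h⁻¹ at this
        rw [si] at this
        calc s * z * h * (s * z) = s * (z * h) * (s * z) := by group
          _ = s * (z * h) * (z * s) := by rw [hsz]
          _ = s * (h * z) * (z * s) := by rw [hzcomm h hh]
          _ = s * h * (z * z) * s := by group
          _ = h⁻¹ := by rw [zz, mul_one, this]
  -- the kernel as a Zassenhaus configuration
  have htG₀ : t ∈ G₀ := htχ
  haveI := Z.faithful
  have Z₀ : ZHyp G₀ Ω := by
    refine ⟨⟨fun {g k} h => Subtype.ext (FaithfulSMul.eq_of_smul_eq_smul (α := Ω) h)⟩, ?_,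
      fun g u v w h1 h2 h3 e1 e2 e3 => Subtype.ext (Z.three g.1 u v w h1 h2 h3 e1 e2 e3), ?_⟩
    · have key : ∀ u v : Ω, u ≠ v → ∃ g : G₀, g • u = a ∧ g • v = b := by
        have step : ∀ v, v ≠ a → ∃ g : G₀, g • a = a ∧ g • v = b := by
          intro v hv
          obtain ⟨w, hw, e⟩ := K.reach hv
          refine ⟨⟨w⁻¹, inv_mem (hUG₀ hw)⟩, ?_, ?_⟩
          · exact inv_smul_eq_iff.2 (K.smul_a hw).symm
          · exact inv_smul_eq_iff.2 e.symm
        intro u v huv
        by_cases hu : u = a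
        · rw [hu] at huv ⊢; exact step v huv.symm
        · obtain ⟨w, hw, e⟩ := K.reach hu
          set g₁ : G₀ := ⟨t * w⁻¹, mul_mem htG₀ (inv_mem (hUG₀ hw))⟩
          have g1u : g₁ • u = a := by
            show (t * w⁻¹) • u = a
            rw [mul_smul, inv_smul_eq_iff.2 e.symm, tb]
          obtain ⟨g₂, h1, h2⟩ := step (g₁ • v) (fun e' => huv (smul_left_cancel g₁ (g1u.trans e'.symm)))
          exact ⟨g₂ * g₁, by rw [mul_smul, g1u, h1], by rw [mul_smul, h2]⟩
      intro u v x w huv hxw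
      obtain ⟨g, g1, g2⟩ := key u v huv
      obtain ⟨k, k1, k2⟩ := key x w hxw
      exact ⟨k⁻¹ * g, by rw [mul_smul, g1, inv_smul_eq_iff, k1], by rw [mul_smul, g2, inv_smul_eq_iff, k2]⟩
    · have h1 : 1 < Nat.card χH.ker := by omega
      obtain ⟨h, hh, hh1⟩ := (Subgroup.bot_or_exists_ne_one _).resolve_left ((Subgroup.one_lt_card_iff_ne_bot _).1 h1)
      refine ⟨⟨h.1, hh⟩, fun e => hh1 (Subtype.ext (show h.1 = 1 from congrArg Subtype.val e)), a, b, hab, h.2.1, h.2.2⟩
  have hstab₀ : Nat.card ↥(stabilizer G₀ a ⊓ stabilizer G₀ b) = d₀ := by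
    rw [hd₀]
    exact Nat.card_congr
      { toFun := fun g => ⟨⟨g.1.1, g.2.1, g.2.2⟩, g.1.2⟩
        invFun := fun h => ⟨⟨h.1.1, h.2⟩, h.1.2.1, h.1.2.2⟩
        left_inv := fun g => rfl
        right_inv := fun h => rfl }
  have K₀ : ZK G₀ a b (U.subgroupOf G₀) := by
    refine ⟨Z₀, hab, fun g hg => K.le hg, fun g hg u hu => K.conj g.1 hg u.1 hu, fun v w hv hw => ?_⟩
    obtain ⟨u, hu, hu'⟩ := K.reg v w hv hw
    exact ⟨⟨⟨u.1, hUG₀ u.2⟩, u.2⟩, hu, fun u' h' => Subtype.ext (Subtype.ext (show u'.1.1 = u.1 from congrArg Subtype.val (hu' ⟨u'.1.1, u'.2⟩ h')))⟩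
  have hcomm₀ : ∀ h ∈ stabilizer G₀ a ⊓ stabilizer G₀ b, ∀ k ∈ stabilizer G₀ a ⊓ stabilizer G₀ b, h * k = k * h := by
    intro h hh k hk
    have e1 := htinv h.1 ⟨hh.1, hh.2⟩ h.2
    have e2 := htinv k.1 ⟨hk.1, hk.2⟩ k.2
    have e3 := htinv (h.1 * k.1) ⟨(mul_mem hh hk).1, (mul_mem hh hk).2⟩ (mul_mem h.2 k.2)
    have h3 : t * (h.1 * k.1) * t = (t * h.1 * t) * (t * k.1 * t) := by
      rw [show (t * h.1 * t) * (t * k.1 * t) = t * h.1 * (t * t) * k.1 * t by group, tt]; group
    rw [e3, e1, e2, ← mul_inv_rev] at h3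
    exact Subtype.ext (inv_injective h3)
  obtain ⟨F, _, _, _, e, ρ₀, hρ₀, heI, he0, hline⟩ := K₀.exists_lineRep (by rw [hstab₀]; omega) hcomm₀
  open H31 in
  have hrange : ρ₀.range = (mobius (F := F)).range := by
    refine LineWeyl.range_eq_of hline ⟨⟨t, htG₀⟩, e.injective ?_, e.injective ?_, Subtype.ext tt, ?_, ?_⟩ ?_
    · rw [hρ₀, heI, he0]; exact ta
    · rw [hρ₀, heI, he0]; exact tb
    · intro e'
      have e'' : t = 1 := congrArg Subtype.val e'
      rw [e'', one_smul] at ta
      exact hab ta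
    · intro g hg
      obtain ⟨g1, g2⟩ := IsLineRep.mem_torus.1 hg
      refine Subtype.ext (htinv g.1 ⟨?_, ?_⟩ g.2)
      · show g.1 • a = a
        rw [← heI]; exact (hρ₀ g _).symm.trans (congrArg e g1)
      · show g.1 • b = b
        rw [← he0]; exact (hρ₀ g _).symm.trans (congrArg e g2)
    · intro hm x hx hxi
      obtain ⟨w, hw⟩ := htfix (by rwa [hstab₀] at hm) x.1 x.2 (congrArg Subtype.val hx)
        (by rw [← heI, ← he0, ← hxi]; exact (hρ₀ x _).symm)
      exact ⟨e.symm w, e.injective (by rw [hρ₀, Equiv.apply_symm_apply]; exact hw)⟩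
  -- the whole group on the line
  let ρ : G →* Equiv.Perm (OnePoint F) :=
    { toFun := fun g => (e.trans (MulAction.toPerm g)).trans e.symm
      map_one' := by ext x; simp
      map_mul' := fun g k => by ext x; simp [mul_smul] }
  have hρ : ∀ g x, e (ρ g x) = g • e x := fun g x => e.apply_symm_apply _
  have hρeq : ∀ g : G₀, ρ g.1 = ρ₀ g := fun g => Equiv.ext fun x => e.injective (by rw [hρ, hρ₀]; rfl)
  have hρinj : Function.Injective ρ := by
    rw [injective_iff_map_eq_one]
    intro g hg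
    refine FaithfulSMul.eq_of_smul_eq_smul (α := Ω) fun w => ?_
    rw [← e.apply_symm_apply w, ← hρ, hg, one_smul]; rfl
  have hfcard : Fintype.card F = p ^ f := by
    have := hline.fintype_card
    rw [hstab₀] at this
    omega
  haveI : CharP F p := charP_of_card_eq_prime_pow hfcard
  -- the torus acts by scalars
  choose T hT1 hT2 using hline.transl
  have hTU : ∀ x, (T x).1 ∈ U := by
    intro x
    have hga : (T x).1 • a = a := by rw [← heI]; exact ((hρ₀ (T x) ∞).symm.trans (congrArg e (hT1 x)))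
    by_cases hx : x = 0
    · have : T x = 1 := hline.ext_eval (by rw [hT1, map_one]; rfl) fun v => by rw [hT2, hx, add_zero, map_one]; rfl
      rw [this]; exact one_mem U
    · have hgb : (T x).1 • b ≠ a := fun e' => hab (smul_left_cancel (T x).1 (hga.trans e'.symm))
      obtain ⟨u, hu, hub⟩ := K.reach hgb
      by_contra hnU
      have hm : u⁻¹ * (T x).1 ∈ H :=
        ⟨(show (u⁻¹ * (T x).1) • a = a by rw [mul_smul, hga, inv_smul_eq_iff, K.smul_a hu]),
         (show (u⁻¹ * (T x).1) • b = b by rw [mul_smul, inv_smul_eq_iff, hub])⟩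
      -- the difference has a fixed point outside, as translations do
      obtain ⟨ac, bc, hac, habc⟩ := hline.affine ⟨u, hUG₀ hu⟩ (e.injective (by
        rw [hρ₀, heI]; exact K.smul_a hu))
      have hac1 : ac = 1 := by
        by_contra hne
        have hfx : ρ₀ ⟨u, hUG₀ hu⟩ ((bc / (1 - ac) : F) : OnePoint F) = ((bc / (1 - ac) : F) : OnePoint F) := by
          rw [habc]; congr 1
          have : (1 - ac) ≠ 0 := sub_ne_zero.2 (Ne.symm hne)
          field_simp
          ring
        have hu1 : u = 1 := K.free hu (y := e ((bc / (1 - ac) : F) : OnePoint F))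
          (fun e' => OnePoint.coe_ne_infty _ (e.injective (e'.trans heI.symm)))
          ((hρ₀ ⟨u, hUG₀ hu⟩ _).symm.trans (congrArg e hfx))
        have h1 := habc 1
        have h0 := habc 0
        rw [show (⟨u, hUG₀ hu⟩ : G₀) = 1 from Subtype.ext hu1, map_one, Equiv.Perm.one_apply,
          OnePoint.coe_eq_coe] at h1 h0
        exact hne (by linear_combination h0 - h1)
      have hbc : bc = x := by
        have h1 : ρ₀ ⟨u, hUG₀ hu⟩ ((0 : F) : OnePoint F) = ρ₀ (T x) ((0 : F) : OnePoint F) :=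
          e.injective (by rw [hρ₀, hρ₀, he0]; exact hub)
        rw [habc, hT2, OnePoint.coe_eq_coe, mul_zero, zero_add, zero_add] at h1
        exact h1
      have : (⟨u, hUG₀ hu⟩ : G₀) = T x := hline.ext_eval
        ((e.injective (by rw [hρ₀, heI]; exact K.smul_a hu) : ρ₀ _ ∞ = ∞).trans (hT1 x).symm)
        fun v => by rw [habc, hT2, hac1, hbc, one_mul]
      exact hnU (by rw [← this]; exact hu)
  have hρT : ∀ x v : F, ρ (T x).1 v = ↑(v + x) := fun x v => by rw [hρeq, hT2]
  have hmult : ∀ h ∈ H, ∃ l : F, l ≠ 0 ∧ ∀ v : F, ρ h v = ↑(l * v) := by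
    intro h hh
    have hhI : ρ h ∞ = ∞ := e.injective (by rw [hρ, heI]; exact hh.1)
    have hh0 : ρ h ((0 : F) : OnePoint F) = ((0 : F) : OnePoint F) := e.injective (by rw [hρ, he0]; exact hh.2)
    have hfin : ∀ v : F, ∃ v' : F, ρ h v = ↑v' := by
      intro v
      cases hc : ρ h (v : OnePoint F) with
      | infty => exact absurd ((ρ h).injective (hc.trans hhI.symm)) (OnePoint.coe_ne_infty v)
      | coe v' => exact ⟨v', rfl⟩
    choose φ hφ using hfin
    have hconjT : ∀ x, h * (T x).1 * h⁻¹ = (T (φ x)).1 := by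
      intro x
      refine K.injective (K.conj h hh.1 _ (hTU x)) (hTU _) ?_
      rw [K.conj_smul hh.2, ← he0, ← hρ, ← hρ, ← hρ]
      rw [hρT, hρT, zero_add, zero_add, hφ]
    have hadd : ∀ v w, φ (v + w) = φ v + φ w := by
      intro v w
      rw [← OnePoint.coe_eq_coe, ← hφ, add_comm v w, add_comm (φ v)]
      have e1 : ρ (h * (T v).1) (w : OnePoint F) = ρ ((T (φ v)).1 * h) (w : OnePoint F) := by
        rw [← hconjT, inv_mul_cancel_right]
      rw [map_mul, map_mul, Equiv.Perm.mul_apply, Equiv.Perm.mul_apply, hρT, hφ w, hρT] at e1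
      exact e1
    have hinj : Function.Injective φ := fun v w e' =>
      OnePoint.coe_eq_coe.1 ((ρ h).injective ((hφ v).trans ((congrArg _ e').trans (hφ w).symm)))
    have hsemi : ∀ k : F, k ≠ 0 → IsSquare k → ∃ m : F, ∀ v, φ (k * v) = m * φ v := by
      intro k hk hk2
      obtain ⟨g, hg⟩ := hline.exists_torus_mult hk hk2
      obtain ⟨g1, g2⟩ := H31.IsLineRep.mem_torus.1 g.2
      have hgc : h * g.1.1 * h⁻¹ ∈ G₀ := by
        show χ _ = 1
        rw [map_mul, map_mul, show χ g.1.1 = 1 from g.1.2, map_inv, mul_one, mul_inv_cancel]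
      obtain ⟨m, bm, -, hm⟩ := hline.affine ⟨_, hgc⟩ (by
        rw [← hρeq, map_mul, map_mul, map_inv, Equiv.Perm.mul_apply, Equiv.Perm.mul_apply,
          Equiv.Perm.inv_eq_iff_eq.2 hhI.symm, hρeq, g1, hhI])
      have key : ∀ v, φ (k * v) = m * φ v + bm := fun v => by
        rw [← OnePoint.coe_eq_coe, ← hφ, ← hm, ← hρeq, ← hg, ← hline.apply_torus g v, ← hρeq, ← Equiv.Perm.mul_apply,
          ← map_mul, ← hφ v, ← Equiv.Perm.mul_apply, ← map_mul, inv_mul_cancel_right]
      refine ⟨m, fun v => ?_⟩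
      have hb0 := key 0
      have h00 : φ 0 = 0 := by rw [← OnePoint.coe_eq_coe, ← hφ, hh0]
      rw [mul_zero, h00, mul_zero, zero_add] at hb0
      rw [key, ← hb0, add_zero]
    have hsq : ∃ k : F, ∀ v, φ (φ v) = k * v := by
      have hhh : h * h ∈ G₀ := by
        show χ _ = 1
        rw [map_mul]
        rcases Int.units_eq_one_or (χ h) with e' | e' <;> rw [e'] <;> decide
      have ht : (⟨h * h, hhh⟩ : G₀) ∈ H31.IsLineRep.torus ρ₀ := by
        rw [H31.IsLineRep.mem_torus, ← hρeq, map_mul, Equiv.Perm.mul_apply, Equiv.Perm.mul_apply, hhI, hhI, hh0, hh0]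
        exact ⟨rfl, rfl⟩
      refine ⟨hline.mult ⟨_, ht⟩, fun v => ?_⟩
      rw [← OnePoint.coe_eq_coe, ← hline.apply_torus ⟨_, ht⟩ v, ← hρeq, map_mul, Equiv.Perm.mul_apply, hφ, hφ]
    have hlin := semilinear_linear hp2 hf (by rw [Nat.card_eq_fintype_card, hfcard]) φ hadd hinj hsemi hsq
    refine ⟨φ 1, fun e' => one_ne_zero (hinj (e'.trans ?_)), fun v => by rw [hφ, hlin]⟩
    rw [hlin 0, mul_zero]
  choose! L hL0 hL using hmult
  -- every nonzero scalar occurs
  have hLsurj : ∀ k : F, k ≠ 0 → ∃ h ∈ H, L h = k := by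
    let Φ : H → Fˣ := fun h => Units.mk0 (L h.1) (hL0 h.1 h.2)
    have hΦ : Function.Bijective Φ := by
      refine Function.Injective.bijective_of_nat_card_le (fun h h' e' => Subtype.ext (hρinj (Equiv.ext fun v => ?_))) ?_
      · have hh' : L h.1 = L h'.1 := congrArg Units.val e'
        cases v with
        | infty => exact e.injective (by rw [hρ, hρ, heI]; exact (h.2.1).trans h'.2.1.symm)
        | coe v => rw [hL h.1 h.2, hL h'.1 h'.2, hh']
      · rw [Nat.card_units, Nat.card_eq_fintype_card (α := F), hfcard, ← hd]; omega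
    intro k hk
    obtain ⟨h, hh⟩ := hΦ.2 (Units.mk0 k hk)
    exact ⟨h.1, h.2, congrArg Units.val hh⟩
  let μ : GL (Fin 2) F →* Equiv.Perm (OnePoint F) := MulAction.toPermHom (GL (Fin 2) F) (OnePoint F)
  have hker : μ.ker = Subgroup.center (GL (Fin 2) F) := by
    refine le_antisymm (fun g hg => ?_) (fun g hg => ?_)
    · rw [MonoidHom.mem_ker] at hg
      have hall : ∀ v, g • v = v := fun v => congrFun (congrArg DFunLike.coe hg) v
      have h1 := hall (∞ : OnePoint F)
      rw [OnePoint.smul_infty_eq_ite] at h1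
      have hc0 : g 1 0 = 0 := by
        by_contra hc
        rw [if_neg hc] at h1
        exact OnePoint.coe_ne_infty _ h1
      have hd0 : g 1 1 ≠ 0 := by
        intro e'
        have := Matrix.GeneralLinearGroup.det_ne_zero g
        rw [Matrix.det_fin_two, hc0, e', mul_zero, mul_zero, sub_zero] at this
        exact this rfl
      have h2 : ∀ v : F, (g 0 0 * v + g 0 1) / g 1 1 = v := fun v => by
        have := hall (v : OnePoint F)
        rw [OnePoint.smul_some_eq_ite, hc0, zero_mul, zero_add, if_neg hd0] at this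
        exact OnePoint.coe_eq_coe.1 this
      have hb0 : g 0 1 = 0 := by
        have := h2 0; rw [mul_zero, zero_add, div_eq_iff hd0, zero_mul] at this; exact this
      have hdd : g 0 0 = g 1 1 := by
        have := h2 1; rw [hb0, add_zero, mul_one, div_eq_iff hd0, one_mul] at this; exact this
      rw [Matrix.GeneralLinearGroup.mem_center_iff_val_mem_range_scalar]
      refine ⟨g 0 0, ?_⟩
      ext i j
      fin_cases i <;> fin_cases j <;> simp [hb0, hc0, hdd]
    · rw [Matrix.GeneralLinearGroup.mem_center_iff_val_mem_range_scalar] at hg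
      obtain ⟨r, hr⟩ := hg
      have hr0 : r ≠ 0 := fun e' => by
        have := Matrix.GeneralLinearGroup.det_ne_zero g
        rw [← hr, e'] at this
        simp at this
      rw [MonoidHom.mem_ker]
      ext v
      cases v with
      | infty =>
        show g • (∞ : OnePoint F) = ∞
        rw [OnePoint.smul_infty_eq_ite, ← hr]; simp
      | coe v =>
        show g • (v : OnePoint F) = v
        rw [OnePoint.smul_some_eq_ite, ← hr]; simp [hr0]
  let D : ∀ k : F, k ≠ 0 → GL (Fin 2) F := fun k hk => Matrix.GeneralLinearGroup.mkOfDetNeZero !![k, 0; 0, 1]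
    (by rw [Matrix.det_fin_two_of]; simpa using hk)
  have hD : ∀ h ∈ H, ∀ k (hk : k ≠ 0), L h = k → μ (D k hk) = ρ h := by
    intro h hh k hk hLk
    ext v
    cases v with
    | infty =>
      show D k hk • (∞ : OnePoint F) = _
      rw [OnePoint.smul_infty_eq_ite, if_pos (by rfl)]
      exact (e.injective (by rw [hρ, heI]; exact hh.1) : ρ h ∞ = ∞).symm
    | coe v =>
      show D k hk • (v : OnePoint F) = _
      rw [OnePoint.smul_some_eq_ite, hL h hh, hLk]
      simp [D, Matrix.GeneralLinearGroup.mkOfDetNeZero]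
  have hμ0 : (H31.mobius (F := F)).range ≤ μ.range := by
    rintro _ ⟨A, rfl⟩
    exact ⟨Matrix.SpecialLinearGroup.toGL A, rfl⟩
  have hρrange : ρ.range = μ.range := by
    refine le_antisymm ?_ ?_
    · rintro _ ⟨g, rfl⟩
      have hyμ : ρ y ∈ μ.range := ⟨D (L y) (hL0 y hy), hD y hy (L y) (hL0 y hy) rfl⟩
      rcases Int.units_eq_one_or (χ g) with hg | hg
      · rw [hρeq ⟨g, hg⟩]
        exact hμ0 (hrange ▸ ⟨⟨g, hg⟩, rfl⟩)
      · have hgy : g * y ∈ G₀ := by show χ _ = 1; rw [map_mul, hg, hχy]; decide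
        have h1 : ρ (g * y) ∈ μ.range := by rw [hρeq ⟨_, hgy⟩]; exact hμ0 (hrange ▸ ⟨⟨_, hgy⟩, rfl⟩)
        rw [map_mul] at h1
        exact (Subgroup.mul_mem_cancel_right _ hyμ).1 h1
    · rintro _ ⟨A, rfl⟩
      have hdet := Matrix.GeneralLinearGroup.det_ne_zero A
      obtain ⟨h, hh, hLh⟩ := hLsurj _ hdet
      let S : Matrix.SpecialLinearGroup (Fin 2) F := ⟨(A * (D _ hdet)⁻¹ : GL (Fin 2) F).1, by
        have h3 : Matrix.det (D _ hdet).1 = Matrix.det A.1 := by
          show Matrix.det !![Matrix.det A.1, 0; 0, 1] = _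
          rw [Matrix.det_fin_two_of]; simp
        have h4 := congrArg (fun M : GL (Fin 2) F => Matrix.det M.1) (inv_mul_cancel_right A (D _ hdet))
        simp only [Units.val_mul, Matrix.det_mul, h3] at h4
        rw [Units.val_mul, Matrix.det_mul]
        exact mul_right_cancel₀ hdet (h4.trans (one_mul _).symm)⟩
      have hS : Matrix.SpecialLinearGroup.toGL S = A * (D _ hdet)⁻¹ := Units.ext rfl
      obtain ⟨g, hg⟩ : H31.mobius S ∈ ρ₀.range := hrange ▸ ⟨S, rfl⟩
      refine ⟨g.1 * h, ?_⟩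
      rw [map_mul, hρeq, hg, ← hD h hh _ hdet hLh]
      conv_rhs => rw [← inv_mul_cancel_right A (D _ hdet), map_mul, ← hS]
      rfl
  exact ⟨F, inferInstance, inferInstance, hfcard,
    ⟨((MonoidHom.ofInjective hρinj).trans (MulEquiv.subgroupCongr hρrange)).trans
      ((QuotientGroup.quotientKerEquivRange μ).symm.trans (QuotientGroup.quotientMulEquivOfEq hker))⟩⟩

end Cfsg.Agent.H7
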