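import Cfsg.Agent.H7.PrimeDegree
import Cfsg.Agent.H7.ZassIdent
import Cfsg.Agent.H6.FieldEquiv
import Cfsg.Agent.H6.PSL
import Cfsg.Agent.S0730

/-!
Transitive permutation groups on 18 points with a normal subgroup of order 17 in a point stabiliser: they are
`PSL(2, 17)` or `PGL(2, 17)`; the numbers of Sylow 2- and 3-subgroups.
-/

set_option autoImplicit false
set_option linter.style.haveILetI false

namespace Cfsg.Agent.H7

open MulAction

universe v

variable {Ω : Type v}

/-- The point stabiliser has order `p d` with `d ∣ p - 1`. -/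
theorem card_of_normal_prime [Fintype Ω] {p : ℕ} (hp : p.Prime) (hΩ : Fintype.card Ω = p + 1)
    (X : Subgroup (Equiv.Perm Ω)) [IsPretransitive X Ω] {a : Ω} {x : X} (hxo : orderOf x = p) (hxa : x • a = a)
    (hn : ∀ g : X, g • a = a → g * x * g⁻¹ ∈ Subgroup.zpowers x) :
    ∃ d : ℕ, d ∣ p - 1 ∧ Nat.card X = (p + 1) * p * d := by
  classical
  haveI : Fact p.Prime := ⟨hp⟩
  set U := Subgroup.zpowers x with hU
  set A := stabilizer X a with hA
  have hUle : U ≤ A := Subgroup.zpowers_le.2 hxa
  have hUc : Nat.card U = p := by rw [Nat.card_zpowers, hxo]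
  haveI hnU : (U.subgroupOf A).Normal := ⟨fun u hu g => by
    rw [Subgroup.mem_subgroupOf] at hu ⊢
    obtain ⟨i, hi⟩ := hu
    show g.1 * u.1 * g.1⁻¹ ∈ U
    rw [← hi, show g.1 * x ^ i * g.1⁻¹ = (g.1 * x * g.1⁻¹) ^ i from (conj_zpow ..).symm]
    exact zpow_mem (hn g.1 g.2) i⟩
  set U' := U.subgroupOf A with hU'
  haveI : IsCyclic U' := isCyclic_of_prime_card (p := p)
    (by rw [Nat.card_congr (Subgroup.subgroupOfEquivOfLe hUle).toEquiv, hUc])
  let ψ : A →* MulAut U' := MulAut.conjNormal
  have hx1 : x ≠ 1 := fun e => hp.ne_one (by rw [← hxo, e, orderOf_one])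
  obtain ⟨b, hb⟩ : ∃ b : Ω, x • b ≠ b := by
    by_contra hc
    push Not at hc
    exact hx1 (FaithfulSMul.eq_of_smul_eq_smul (α := Ω) fun y => by rw [hc y, one_smul])
  have hab : b ≠ a := fun e => hb (e ▸ hxa)
  have hbfree : ∀ u ∈ U, u • b = b → u = 1 := fun u hu e => by
    by_contra u1
    refine hb ?_
    have hzu : Subgroup.zpowers u = U := by
      refine Subgroup.eq_of_le_of_card_ge (Subgroup.zpowers_le.2 hu) ?_
      rw [hUc, Nat.card_zpowers]
      rcases hp.eq_one_or_self_of_dvd _ (hUc ▸ Subgroup.orderOf_dvd_natCard U hu) with h | h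
      · exact absurd (orderOf_eq_one_iff.1 h) u1
      · exact h.ge
    have h : Subgroup.zpowers u ≤ stabilizer X b := Subgroup.zpowers_le.2 e
    rw [hzu] at h
    exact h (Subgroup.mem_zpowers x)
  have hreach : ∀ y : Ω, y ≠ a → ∃ u ∈ U, u • b = y := by
    let f : U → {y : Ω // y ≠ a} := fun u => ⟨u.1 • b, fun e => hab (smul_left_cancel u.1
      (e.trans (show u.1 • a = a from hUle u.2).symm))⟩
    have hf : Function.Injective f := by
      intro u v e
      have e' : u.1 • b = v.1 • b := congrArg Subtype.val e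
      exact Subtype.ext (inv_mul_eq_one.1 (hbfree _ (mul_mem (inv_mem v.2) u.2)
        (by rw [mul_smul, e', inv_smul_smul]))).symm
    haveI : Fintype U := Fintype.ofFinite U
    have hc : Fintype.card U = Fintype.card {y : Ω // y ≠ a} := by
      rw [← Nat.card_eq_fintype_card, hUc, Fintype.card_subtype_compl, Fintype.card_subtype_eq, hΩ,
        Nat.add_sub_cancel]
    have hsurj := ((Fintype.bijective_iff_injective_and_card f).2 ⟨hf, hc⟩).2
    intro y hy
    obtain ⟨u, hu⟩ := hsurj ⟨y, hy⟩
    exact ⟨u, u.2, congrArg Subtype.val hu⟩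
  have hker : ψ.ker = U' := by
    ext g
    rw [MonoidHom.mem_ker]
    constructor
    · intro hg
      have hcomm : ∀ u ∈ U, g.1 * u = u * g.1 := fun u hu => by
        have h := congrArg (fun w : U' => (w.1 : X)) (DFunLike.congr_fun hg ⟨⟨u, hUle hu⟩, hu⟩)
        exact mul_inv_eq_iff_eq_mul.1 h
      have hga : g.1 • a = a := g.2
      obtain ⟨v, hv, hvb⟩ := hreach (g.1 • b) (fun e => hab (smul_left_cancel g.1 (e.trans hga.symm)))
      have h1 : v⁻¹ * g.1 = 1 := by
        refine FaithfulSMul.eq_of_smul_eq_smul (α := Ω) fun y => ?_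
        rw [one_smul, mul_smul, inv_smul_eq_iff]
        rcases eq_or_ne y a with rfl | hy
        · rw [hga]; exact (hUle hv).symm
        obtain ⟨u, hu, rfl⟩ := hreach y hy
        rw [← mul_smul, hcomm u hu, mul_smul, ← hvb, ← mul_smul, ← mul_smul]
        congr 1
        obtain ⟨i, rfl⟩ := hu
        obtain ⟨j, rfl⟩ := hv
        exact (Commute.zpow_zpow_self x i j).eq
      show g.1 ∈ U
      rw [← inv_mul_eq_one.1 h1]
      exact hv
    · intro hg
      refine MulEquiv.ext fun w => Subtype.ext (Subtype.ext ?_)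
      show g.1 * (w.1 : X) * g.1⁻¹ = w.1
      obtain ⟨i, hi⟩ := (show g.1 ∈ U from hg)
      obtain ⟨j, hj⟩ := (show (w.1 : X) ∈ U from w.2)
      rw [← hi, ← hj, mul_inv_eq_iff_eq_mul]
      exact (Commute.zpow_zpow_self x i j).eq
  refine ⟨Nat.card ψ.range, ?_, ?_⟩
  · have h := Subgroup.card_subgroup_dvd_card ψ.range
    rwa [IsCyclic.card_mulAut, Nat.card_congr (Subgroup.subgroupOfEquivOfLe hUle).toEquiv, hUc,
      Nat.totient_prime hp] at h
  · have h1 := ψ.ker.card_mul_index
    rw [Subgroup.index_ker, hker, Nat.card_congr (Subgroup.subgroupOfEquivOfLe hUle).toEquiv, hUc] at h1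
    have h2 := A.card_mul_index
    rw [index_stabilizer_of_transitive, Nat.card_eq_fintype_card (α := Ω), hΩ, ← h1] at h2
    rw [← h2]
    ring

/-- The exponent of a prime in a product. -/
theorem factorization_aux {n p : ℕ} (k m : ℕ) (hp : p.Prime) (hn : n = p ^ k * m) (hm : ¬ p ∣ m) :
    n.factorization p = k := by
  have hm0 : m ≠ 0 := fun e => hm (e ▸ dvd_zero p)
  rw [hn, Nat.factorization_mul (pow_ne_zero _ hp.ne_zero) hm0, Finsupp.add_apply,
    Nat.factorization_eq_zero_of_not_dvd hm, hp.factorization_pow, Finsupp.single_eq_same, add_zero]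

variable {G : Type*} [Group G] [MulAction G Ω] {a b : Ω} {U : Subgroup G}

/-- In degree 18 with two-point stabilisers of order 8 or 16 there are at least 153 Sylow 2-subgroups and, if the
Sylow 3-subgroups are cyclic, at least 136 Sylow 3-subgroups. -/
theorem sylow_numbers_eighteen [Finite G] [Fintype Ω] [FaithfulSMul G Ω] [IsPretransitive G Ω] {d : ℕ}
    (hΩ : Fintype.card Ω = 18) (P : PDeg G 17 d a b U) (hd : d = 8 ∨ d = 16)
    (hG : Nat.card G = 18 * 17 * d) (hcyc : ∀ Q : Sylow 3 G, IsCyclic Q) :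
    153 ≤ Nat.card (Sylow 2 G) ∧ 136 ≤ Nat.card (Sylow 3 G) := by
  classical
  haveI : Fact (Nat.Prime 17) := ⟨by norm_num⟩
  haveI : Fact (Nat.Prime 2) := ⟨Nat.prime_two⟩
  haveI : Fact (Nat.Prime 3) := ⟨Nat.prime_three⟩
  set H := stabilizer G a ⊓ stabilizer G b with hH
  -- the two-point stabiliser is cyclic
  haveI : IsCyclic U := isCyclic_of_prime_card (p := 17) P.cardU
  let ψ : H →* MulAut U :=
    { toFun := fun h =>
        { toFun := fun u => ⟨h.1 * u.1 * h.1⁻¹, P.conj h.1 h.2.1 u.1 u.2⟩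
          invFun := fun u => ⟨h.1⁻¹ * u.1 * h.1⁻¹⁻¹, P.conj h.1⁻¹ (H.inv_mem h.2).1 u.1 u.2⟩
          left_inv := fun u => Subtype.ext (by show h.1⁻¹ * (h.1 * u.1 * h.1⁻¹) * h.1⁻¹⁻¹ = u.1; group)
          right_inv := fun u => Subtype.ext (by show h.1 * (h.1⁻¹ * u.1 * h.1⁻¹⁻¹) * h.1⁻¹ = u.1; group)
          map_mul' := fun u v => Subtype.ext (by
            show h.1 * (u.1 * v.1) * h.1⁻¹ = h.1 * u.1 * h.1⁻¹ * (h.1 * v.1 * h.1⁻¹); group) }
      map_one' := MulEquiv.ext fun u => Subtype.ext (by show (1 : G) * u.1 * 1⁻¹ = u.1; group)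
      map_mul' := fun h k => MulEquiv.ext fun u => Subtype.ext (by
        show h.1 * k.1 * u.1 * (h.1 * k.1)⁻¹ = h.1 * (k.1 * u.1 * k.1⁻¹) * h.1⁻¹; group) }
  have hψ : Function.Injective ψ := by
    rw [injective_iff_map_eq_one]
    intro h h1
    refine Subtype.ext (FaithfulSMul.eq_of_smul_eq_smul (α := Ω) fun y => ?_)
    rw [OneMemClass.coe_one, one_smul]
    rcases eq_or_ne y a with rfl | hy
    · exact h.2.1
    obtain ⟨u, hu, rfl⟩ := P.reach y hy
    have hc : h.1 * u = u * h.1 :=
      mul_inv_eq_iff_eq_mul.1 (congrArg Subtype.val (DFunLike.congr_fun h1 ⟨u, hu⟩))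
    rw [← mul_smul, hc, mul_smul, show h.1 • b = b from h.2.2]
  haveI : IsCyclic H := by
    haveI : IsCyclic (MulAut U) := by
      haveI : Fact (Nat.card U).Prime := ⟨by rw [P.cardU]; norm_num⟩
      exact isCyclic_of_surjective (IsCyclic.mulAutMulEquiv U).symm.toMonoidHom (MulEquiv.surjective _)
    exact isCyclic_of_injective ψ hψ
  obtain ⟨⟨h, hhm⟩, hgen⟩ := IsCyclic.exists_generator (α := H)
  have ho : orderOf h = d := by
    have := orderOf_eq_card_of_forall_mem_zpowers hgen
    rwa [P.cardH, Subgroup.orderOf_mk] at this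
  obtain ⟨j, hj, hj1⟩ : ∃ j, d = 2 * j ∧ 1 < j := by
    rcases hd with rfl | rfl
    · exact ⟨4, rfl, by norm_num⟩
    · exact ⟨8, rfl, by norm_num⟩
  set z := h ^ j with hz
  have z1 : z ≠ 1 := fun e => by
    have := Nat.le_of_dvd (by omega) (orderOf_dvd_of_pow_eq_one e)
    omega
  have za : z • a = a := (H.pow_mem hhm j).1
  have zb : z • b = b := (H.pow_mem hhm j).2
  -- elements commuting with `z` have two-power order
  have hcent : ∀ x : G, x * z = z * x → x ^ (2 * d) = 1 := by
    intro x hx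
    have hfix : ∀ y : Ω, z • y = y → y = a ∨ y = b := fun y hy => by
      by_contra hc
      rw [not_or] at hc
      exact z1 (P.three z a b y P.ne (Ne.symm hc.2) (Ne.symm hc.1) za zb hy)
    have hperm : ∀ y : Ω, z • y = y → x • y = a ∨ x • y = b := fun y hy =>
      hfix _ (by rw [← mul_smul, ← hx, mul_smul, hy])
    have hx2 : x ^ 2 ∈ H := by
      have h2 : ∀ y : Ω, (y = a ∨ y = b) → x • x • y = y := by
        have hne : x • a ≠ x • b := fun e => P.ne (smul_left_cancel x e)
        rcases hperm a za with ha | ha <;> rcases hperm b zb with hb | hb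
        · exact absurd (ha.trans hb.symm) hne
        · rintro y (rfl | rfl)
          · rw [ha, ha]
          · rw [hb, hb]
        · rintro y (rfl | rfl)
          · rw [ha, hb]
          · rw [hb, ha]
        · exact absurd (ha.trans hb.symm) hne
      constructor
      · show x ^ 2 • a = a
        rw [pow_two, mul_smul]; exact h2 a (Or.inl rfl)
      · show x ^ 2 • b = b
        rw [pow_two, mul_smul]; exact h2 b (Or.inr rfl)
    have := Subgroup.orderOf_dvd_natCard H hx2
    rw [P.cardH] at this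
    rw [pow_mul]
    exact orderOf_dvd_iff_pow_eq_one.1 this
  obtain ⟨k, hk⟩ : ∃ k, 2 * d = 2 ^ k := by
    rcases hd with rfl | rfl
    · exact ⟨4, rfl⟩
    · exact ⟨5, rfl⟩
  have hodd : ∀ x : G, x * z = z * x → ∀ q : ℕ, q.Prime → q ≠ 2 → q ∣ orderOf x → False := by
    intro x hx q hq hq2 hqx
    have h1 := hqx.trans (orderOf_dvd_of_pow_eq_one (hcent x hx))
    rw [hk] at h1
    exact hq2 ((Nat.prime_dvd_prime_iff_eq hq Nat.prime_two).1 (hq.dvd_of_dvd_pow h1))
  have hd8 : 8 ≤ d := by omega
  have hzp : IsPGroup 2 (Subgroup.zpowers h) := IsPGroup.of_card (n := k - 1) (by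
    rw [Nat.card_zpowers, ho]
    have hk0 : k = k - 1 + 1 := by
      rcases k with _ | k
      · simp at hk
      · rfl
    rw [hk0, pow_succ'] at hk
    omega)
  obtain ⟨S, hS⟩ := hzp.exists_le_sylow
  have hhS : h ∈ (S : Subgroup G) := hS (Subgroup.mem_zpowers h)
  have hSc : Nat.card S = 2 * d := by
    rw [S.card_eq_multiplicity, hG]
    rcases hd with rfl | rfl
    · rw [factorization_aux 4 153 Nat.prime_two (by norm_num) (by norm_num)]; norm_num
    · rw [factorization_aux 5 153 Nat.prime_two (by norm_num) (by norm_num)]; norm_num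
  set C := (Subgroup.zpowers h).subgroupOf S with hC
  have hCi : C.index = 2 := by
    have h1 := C.card_mul_index
    rw [Nat.card_congr (Subgroup.subgroupOfEquivOfLe hS).toEquiv, Nat.card_zpowers, ho, hSc, mul_comm 2 d] at h1
    exact Nat.eq_of_mul_eq_mul_left (by omega) h1
  -- every element of order `d` of `S` has `j`-th power `z`
  have hj' : ∀ s : S, orderOf (s : G) = d → (s : G) ^ j = z := by
    intro s hs
    obtain ⟨i, hi⟩ := Subgroup.mem_zpowers_iff.1 (Subgroup.sq_mem_of_index_two hCi s)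
    have hi' : h ^ i = (s : G) ^ 2 := hi
    obtain ⟨l, hl⟩ : 2 ∣ j := by rcases hd with rfl | rfl <;> omega
    have hsj : (s : G) ^ j = h ^ (i * l) := by
      rw [hl, pow_mul, ← hi', zpow_mul, zpow_natCast]
    have h2 : h ^ (i * l * 2) = 1 := by
      rw [zpow_mul, ← hsj, show ((2 : ℤ)) = ((2 : ℕ) : ℤ) from rfl, zpow_natCast, ← pow_mul, mul_comm, ← hj, ← hs,
        pow_orderOf_eq_one]
    have h3 := orderOf_dvd_iff_zpow_eq_one.2 h2
    rw [ho, hj] at h3
    push_cast at h3
    rw [mul_comm (2 : ℤ), Int.mul_dvd_mul_iff_right (by norm_num)] at h3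
    obtain ⟨m, hm⟩ := h3
    rcases Int.even_or_odd m with ⟨r, hr⟩ | ⟨r, hr⟩
    · exfalso
      have hs1 : (s : G) ^ j = 1 := by
        rw [hsj, show i * l = (d : ℤ) * r by rw [hm, hr, hj]; push_cast; ring, zpow_mul, zpow_natCast, ← ho,
          pow_orderOf_eq_one, one_zpow]
      have := Nat.le_of_dvd (by omega) (orderOf_dvd_of_pow_eq_one hs1)
      omega
    · rw [hsj, show i * l = (d : ℤ) * r + (j : ℤ) by rw [hm, hr, hj]; push_cast; ring, zpow_add, zpow_mul,
        zpow_natCast, zpow_natCast, ← ho, pow_orderOf_eq_one, one_zpow, one_mul]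
  constructor
  · -- Sylow 2
    have hNp : IsPGroup 2 (Subgroup.normalizer ((S : Subgroup G) : Set G)) := by
      rintro ⟨x, hx⟩
      have hxm : x * h * x⁻¹ ∈ (S : Subgroup G) := (Subgroup.mem_normalizer_iff.1 hx h).1 hhS
      have hord : orderOf (x * h * x⁻¹) = d := by
        rw [show x * h * x⁻¹ = MulAut.conj x h from rfl, (MulAut.conj x).orderOf_eq, ho]
      have hzx : x * z * x⁻¹ = z := by
        have h1 := hj' ⟨_, hxm⟩ hord
        rwa [conj_pow] at h1
      refine ⟨k, Subtype.ext ?_⟩
      show x ^ 2 ^ k = 1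
      rw [← hk]
      exact hcent x (mul_inv_eq_iff_eq_mul.1 hzx)
    have hNS : Subgroup.normalizer ((S : Subgroup G) : Set G) = (S : Subgroup G) :=
      S.3 hNp Subgroup.le_normalizer
    rw [show Nat.card (Sylow 2 G) = (Subgroup.normalizer ((S : Subgroup G) : Set G)).index by
      rw [Sylow.coe_coe]; exact S.card_eq_index_normalizer, hNS]
    have h1 := (S : Subgroup G).card_mul_index
    rw [hG] at h1
    have h2 : Nat.card (S : Subgroup G) * 153 = Nat.card (S : Subgroup G) * (S : Subgroup G).index := by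
      rw [h1, show Nat.card (S : Subgroup G) = 2 * d from hSc]; ring
    exact (Nat.eq_of_mul_eq_mul_left Nat.card_pos h2).le
  · -- Sylow 3
    obtain ⟨Q⟩ := Sylow.nonempty (p := 3) (G := G)
    have hQ : Nat.card Q = 9 := by
      rw [Q.card_eq_multiplicity, hG]
      rcases hd with rfl | rfl
      · rw [factorization_aux 2 272 Nat.prime_three (by norm_num) (by norm_num)]; norm_num
      · rw [factorization_aux 2 544 Nat.prime_three (by norm_num) (by norm_num)]; norm_num
    set N := Subgroup.normalizer ((Q : Subgroup G) : Set G) with hN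
    have hn : Nat.card (Sylow 3 G) = N.index := by rw [hN, Sylow.coe_coe]; exact Q.card_eq_index_normalizer
    haveI := hcyc Q
    haveI : IsCyclic (Q : Subgroup G) := hcyc Q
    let φ : N →* MulAut (Q : Subgroup G) := Subgroup.normalizerMonoidHom (Q : Subgroup G)
    have haut : Nat.card (MulAut (Q : Subgroup G)) = 6 := by
      rw [IsCyclic.card_mulAut, show Nat.card (Q : Subgroup G) = 9 from hQ]; rfl
    have hφcomm : ∀ x : N, φ x = 1 → ∀ q ∈ (Q : Subgroup G), x.1 * q = q * x.1 := fun x hx q hq => by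
      have h1 : x ∈ φ.ker := hx
      rw [Subgroup.normalizerMonoidHom_ker, Subgroup.mem_subgroupOf, Subgroup.mem_centralizer_iff] at h1
      exact (h1 q hq).symm
    obtain ⟨q, hq, hqo⟩ : ∃ q ∈ (Q : Subgroup G), orderOf q = 3 := by
      obtain ⟨q, hq⟩ := exists_prime_orderOf_dvd_card' 3 (show 3 ∣ Nat.card (Q : Subgroup G) by
        rw [show Nat.card (Q : Subgroup G) = 9 from hQ]; norm_num)
      exact ⟨q.1, q.2, by rwa [Subgroup.orderOf_coe]⟩
    -- no element of order 17 normalises `Q`
    have h17 : ¬ 17 ∣ Nat.card N := by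
      intro h17
      obtain ⟨y, hy⟩ := exists_prime_orderOf_dvd_card' 17 h17
      have hy1 : φ y = 1 := by
        rw [← orderOf_eq_one_iff]
        refine Nat.eq_one_of_dvd_coprimes (show Nat.Coprime 17 6 by norm_num) ?_ (haut ▸ orderOf_dvd_natCard _)
        exact hy ▸ orderOf_map_dvd φ y
      have hcm := hφcomm y hy1 q hq
      have hyo : orderOf y.1 = 17 := by rwa [Subgroup.orderOf_coe]
      have hyp : IsPGroup 17 (Subgroup.zpowers y.1) := IsPGroup.of_card (n := 1) (by
        rw [Nat.card_zpowers, hyo, pow_one])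
      obtain ⟨w, hw'⟩ := hyp.nonempty_fixed_point_of_prime_not_dvd_card Ω
        (by rw [Nat.card_eq_fintype_card, hΩ]; norm_num)
      have hw : y.1 • w = w := hw' ⟨y.1, Subgroup.mem_zpowers _⟩
      have huniq : ∀ w' : Ω, y.1 • w' = w' → w' = w := by
        intro w' hw'
        by_contra hne
        obtain ⟨g, ga, gb⟩ := P.two (w := w) (x := w') (Ne.symm hne) P.ne
        have hm : g * y.1 * g⁻¹ ∈ H :=
          ⟨by show (g * y.1 * g⁻¹) • a = a; rw [← ga, mul_smul, inv_smul_smul, mul_smul, hw],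
           by show (g * y.1 * g⁻¹) • b = b; rw [← gb, mul_smul, inv_smul_smul, mul_smul, hw']⟩
        have h1 := Subgroup.orderOf_dvd_natCard H hm
        rw [show g * y.1 * g⁻¹ = MulAut.conj g y.1 from rfl, (MulAut.conj g).orderOf_eq, hyo, P.cardH] at h1
        have := Nat.le_of_dvd (by omega) h1
        omega
      have hqw : q • w = w := huniq _ (by rw [← mul_smul, hcm, mul_smul, hw])
      have hst : Nat.card (stabilizer G w) = 17 * d := by
        have h1 := (stabilizer G w).card_mul_index
        rw [index_stabilizer_of_transitive, Nat.card_eq_fintype_card (α := Ω), hΩ, hG] at h1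
        omega
      have h4 := Subgroup.orderOf_dvd_natCard (stabilizer G w) hqw
      rw [hqo, hst] at h4
      rcases hd with rfl | rfl <;> norm_num at h4
    -- no subgroup of index two of a Sylow 2-subgroup normalises `Q`
    have h2 : ¬ d ∣ Nat.card N := by
      intro hdN
      obtain ⟨T⟩ := Sylow.nonempty (p := 2) (G := N)
      set T' := (T : Subgroup N).map N.subtype with hT'
      have hT'p : IsPGroup 2 T' := T.2.map _
      obtain ⟨S', hTS⟩ := hT'p.exists_le_sylow
      obtain ⟨g, rfl⟩ := exists_smul_eq G S S'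
      have hdT : d ∣ Nat.card T' := by
        rw [hT', Subgroup.card_map_of_injective N.subtype_injective, T.card_eq_multiplicity]
        have hd2 : d = 2 ^ (k - 1) := by
          rcases k with _ | k
          · simp at hk
          · rw [pow_succ'] at hk; simp only [Nat.add_sub_cancel]; omega
        rw [hd2] at hdN ⊢
        exact Nat.pow_dvd_pow 2 ((Nat.prime_two.pow_dvd_iff_le_factorization Nat.card_pos.ne').1 hdN)
      have hmem : ∀ s ∈ (S : Subgroup G), g * (s * s) * g⁻¹ ∈ N := by
        intro s hs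
        have hconj : ∀ t : G, t ∈ ((g • S : Sylow 2 G) : Subgroup G) ↔ g⁻¹ * t * g ∈ (S : Subgroup G) := by
          intro t
          rw [Sylow.coe_subgroup_smul, Subgroup.mem_smul_pointwise_iff_exists]
          constructor
          · rintro ⟨u, hu, rfl⟩
            simpa [mul_assoc] using hu
          · intro ht
            exact ⟨_, ht, by simp [mul_assoc]⟩
        set S'' := ((g • S : Sylow 2 G) : Subgroup G)
        have hS''c : Nat.card S'' = 2 * d := by
          show Nat.card (g • S : Sylow 2 G) = 2 * d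
          rw [← hSc, Sylow.card_eq_multiplicity, Sylow.card_eq_multiplicity]
        have hi : (T'.subgroupOf S'').index ∣ 2 := by
          have h1 := (T'.subgroupOf S'').card_mul_index
          rw [Nat.card_congr (Subgroup.subgroupOfEquivOfLe hTS).toEquiv, hS''c] at h1
          obtain ⟨e, he⟩ := hdT
          refine ⟨e, Nat.eq_of_mul_eq_mul_left (show 0 < d by omega) ?_⟩
          rw [he] at h1
          rw [mul_comm d 2, ← h1]; ring
        have hss : g * s * g⁻¹ ∈ S'' := (hconj _).2 (by simpa [mul_assoc] using hs)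
        have h2' : (⟨_, hss⟩ : S'') ^ 2 ∈ T'.subgroupOf S'' := by
          rcases (Nat.dvd_prime Nat.prime_two).1 hi with h | h
          · rw [Subgroup.index_eq_one.1 h]; trivial
          · exact Subgroup.sq_mem_of_index_two h _
        have h3 : (g * s * g⁻¹) ^ 2 ∈ T' := h2'
        obtain ⟨w, -, hw⟩ := h3
        rw [show g * (s * s) * g⁻¹ = (g * s * g⁻¹) ^ 2 by rw [pow_two]; group, ← hw]
        exact w.2
      obtain ⟨l, hl⟩ : 2 ∣ j := by rcases hd with rfl | rfl <;> omega
      set w : N := ⟨_, hmem h hhS⟩ with hw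
      have hzN : (w ^ l : N).1 = g * z * g⁻¹ := by
        show (g * (h * h) * g⁻¹) ^ l = g * z * g⁻¹
        rw [conj_pow, hz, hl, pow_mul, pow_two]
      obtain ⟨l', hl'⟩ : 2 ∣ l := by rcases hd with rfl | rfl <;> omega
      have h6 : φ w ^ 2 = 1 := by
        rw [← orderOf_dvd_iff_pow_eq_one]
        have h1 : orderOf (φ w) ∣ 2 ^ k := by
          refine (orderOf_map_dvd φ w).trans ?_
          rw [← Subgroup.orderOf_coe, ← hk]
          show orderOf (MulAut.conj g (h * h)) ∣ 2 * d
          rw [(MulAut.conj g).orderOf_eq, ← pow_two]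
          exact dvd_mul_of_dvd_right (ho ▸ orderOf_pow_dvd 2) 2
        have h2 : orderOf (φ w) ∣ 2 * 3 := (orderOf_dvd_natCard (φ w)).trans (haut ▸ dvd_rfl)
        exact (Nat.Coprime.dvd_of_dvd_mul_right
          (Nat.Coprime.coprime_dvd_left h1 (Nat.Coprime.pow_left k (by norm_num))) h2)
      have hφ : φ (w ^ l) = 1 := by rw [map_pow, hl', pow_mul, h6, one_pow]
      have hc := hφcomm _ hφ q hq
      rw [hzN] at hc
      refine hodd (g⁻¹ * q * g) ?_ 3 Nat.prime_three (by norm_num) ?_
      · rw [show g⁻¹ * q * g * z = g⁻¹ * (q * (g * z * g⁻¹)) * g by group, ← hc]; group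
      · rw [show g⁻¹ * q * g = MulAut.conj g⁻¹ q by rw [MulAut.conj_apply, inv_inv], (MulAut.conj g⁻¹).orderOf_eq,
          hqo]
    -- arithmetic
    have hmul := N.card_mul_index
    rw [hG] at hmul
    have hmod := card_sylow_modEq_one 3 G
    rw [hn] at hmod ⊢
    by_contra hlt
    push Not at hlt
    obtain ⟨m, hm⟩ : 17 ∣ N.index := by
      have h1 : 17 ∣ Nat.card N * N.index := ⟨18 * d, by rw [hmul]; ring⟩
      exact ((show Nat.Prime 17 by norm_num).dvd_mul.1 h1).resolve_left h17
    rw [hm] at hmul hlt hmod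
    have hm8 : m < 8 := by omega
    have hmul' : Nat.card N * m = 18 * d := by
      refine Nat.eq_of_mul_eq_mul_left (show 0 < 17 by norm_num) ?_
      calc 17 * (Nat.card N * m) = Nat.card N * (17 * m) := by ring
        _ = 18 * 17 * d := hmul
        _ = 17 * (18 * d) := by ring
    have hm2 : m % 3 = 2 := by
      unfold Nat.ModEq at hmod
      omega
    rcases (show m = 2 ∨ m = 5 by omega) with rfl | rfl
    · exact h2 ⟨9, by omega⟩
    · rcases hd with rfl | rfl <;> omega

end Cfsg.Agent.H7
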