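import Cfsg.Agent.H7.SzUnique.Main
import Cfsg.Agent.H28.TwoRankOne
import Cfsg.Agent.H50.StronglyEmbedded
import Cfsg.Agent.H21.FrobeniusStructure
import Cfsg.Agent.H88.CentralInSolvableOvergroups
import Cfsg.Agent.S0205
import Cfsg.Agent.S0338
import Cfsg.Agent.H6.Basic

/-!
# Groups with a Frobenius system

If every maximal solvable subgroup `M` carries a normal subgroup `F M` as in a Frobenius group which
meets its conjugates outside `M` trivially, then the group is solvable, `SL₂(2^n)` or a Suzuki group.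
-/

set_option autoImplicit false
set_option linter.style.haveILetI false

namespace Cfsg.Agent.H7.FrobSys

open MulAction
open scoped Pointwise

variable {G : Type*} [Group G] [Finite G]

/-- A maximal solvable subgroup. -/
def IsMaxSolv (M : Subgroup G) : Prop :=
  Group.IsSolvable M ∧ ∀ M' : Subgroup G, M < M' → ¬ Group.IsSolvable M'

/-- The hypothesis on the map `F`. -/
def Sys (F : Subgroup G → Subgroup G) : Prop :=
  ∀ M : Subgroup G, IsMaxSolv M →
    F M ≤ M ∧ M ≤ Subgroup.normalizer (F M : Set G) ∧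
    (∀ a ∈ M, a ∉ F M → ∀ x ∈ F M, x * a = a * x → x = 1) ∧
    (∀ g : G, g ∉ M → F M ⊓ (MulAut.conj g • F M) = ⊥) ∧
    (F M ≠ ⊥ ∨ IsMulCommutative M)

lemma mem_conj {H : Subgroup G} {g x : G} : x ∈ MulAut.conj g • H ↔ g⁻¹ * x * g ∈ H := by
  rw [Subgroup.mem_pointwise_smul_iff_inv_smul_mem]
  simp [← map_inv]

omit [Finite G] in
lemma orderOf_conj_inv (g x : G) : orderOf (g⁻¹ * x * g) = orderOf x := by
  simpa using H50.orderOf_conj g⁻¹ x

lemma exists_maxSolv {H : Subgroup G} (hH : Group.IsSolvable H) :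
    ∃ M : Subgroup G, IsMaxSolv M ∧ H ≤ M := by
  obtain ⟨M, ⟨hMs, hHM⟩, hmax⟩ :=
    (Set.toFinite {M : Subgroup G | Group.IsSolvable M ∧ H ≤ M}).exists_maximal ⟨H, hH, le_rfl⟩
  exact ⟨M, ⟨hMs, fun M' h hs => h.not_ge (hmax ⟨hs, hHM.trans h.le⟩ h.le)⟩, hHM⟩

lemma solvable_of_normal_le {M A : Subgroup G} (hM : IsMaxSolv M) [A.Normal]
    (hA : Group.IsSolvable A) : A ≤ M := by
  by_contra hle
  have hlt : M < A ⊔ M := lt_of_le_of_ne le_sup_right fun e => hle (e ▸ le_sup_left)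
  exact hM.2 _ hlt (H88.CentralInSolvableOvergroups.isSolvable_sup A M hA hM.1)

variable {F : Subgroup G → Subgroup G}

section Member

variable (hF : Sys F) (hns : ¬ Group.IsSolvable G) {M : Subgroup G} (hM : IsMaxSolv M) (hne : F M ≠ ⊥)
include hF hns hM hne

omit [Finite G] hF hne in
lemma ne_top : M ≠ ⊤ := fun e => by
  subst e
  haveI := hM.1
  exact hns (Group.isSolvable_of_isSolvable_injective (f := (Subgroup.topEquiv (G := G)).symm.toMonoidHom)
    (Subgroup.topEquiv (G := G)).symm.injective)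

omit hns in
lemma mem_of_conj {g x : G} (hx : x ∈ F M) (hx1 : x ≠ 1) (hg : g⁻¹ * x * g ∈ F M) : g ∈ M := by
  by_contra hgM
  have h := (hF M hM).2.2.2.1 g hgM
  exact hx1 (Subgroup.mem_bot.1 (h ▸ ⟨hx, mem_conj.2 hg⟩))

omit hns in
lemma centralizer_le {x c : G} (hx : x ∈ F M) (hx1 : x ≠ 1) (hc : c * x = x * c) : c ∈ F M := by
  have hcM : c ∈ M := mem_of_conj hF hM hne hx hx1 (by
    rw [mul_assoc, ← hc, inv_mul_cancel_left]; exact hx)
  by_contra hcF
  exact hx1 ((hF M hM).2.2.1 c hcM hcF x hx hc.symm)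

omit hns in
lemma conj_mem {g x : G} (hg : g ∈ M) (hx : x ∈ F M) : g * x * g⁻¹ ∈ F M :=
  (Subgroup.mem_normalizer_iff.1 ((hF M hM).2.1 hg) x).1 hx

lemma lt_self : F M < M := by
  refine lt_of_le_of_ne (hF M hM).1 fun e => hns ?_
  have hfc : Cfsg.IsFrobeniusComplement M :=
    ⟨e ▸ hne, ne_top hns hM, fun g hg => by
      have h := (hF M hM).2.2.2.1 g hg
      rwa [e] at h⟩
  obtain ⟨N, -, hNn, hc, hnil⟩ := H21.exists_kernel_nilpotent hfc
  haveI := hnil
  haveI := hM.1
  haveI : Group.IsSolvable N := inferInstance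
  haveI : Group.IsSolvable (G ⧸ N) :=
    Group.isSolvable_of_isSolvable_injective (f := hc.symm.QuotientMulEquiv.toMonoidHom)
      hc.symm.QuotientMulEquiv.injective
  exact Group.isSolvable_of_ker_le_range N.subtype (QuotientGroup.mk' N)
    (by rw [QuotientGroup.ker_mk', Subgroup.range_subtype])

omit hns in
lemma coprime_index : (Nat.card (F M)).Coprime ((F M).relIndex M) := by
  refine Nat.coprime_of_dvd fun p hp h1 h2 => ?_
  haveI := Fact.mk hp
  haveI : ((F M).subgroupOf M).Normal :=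
    (Subgroup.normal_subgroupOf_iff (hF M hM).1).2 fun x g hx hg => conj_mem hF hM hne hg hx
  obtain ⟨P, -⟩ := (IsPGroup.of_bot (p := p) (G := M)).exists_le_sylow
  set N := (F M).subgroupOf M with hN
  have hPN : (N.subgroupOf (P : Subgroup M)) ≠ ⊥ := by
    intro hb
    have hd := (P : Subgroup M).card_mul_index
    have hNc : Nat.card N = Nat.card (F M) := Nat.card_congr (Subgroup.subgroupOfEquivOfLe (hF M hM).1).toEquiv
    obtain ⟨x, hx⟩ := exists_prime_orderOf_dvd_card' (G := N) p (hNc ▸ h1)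
    obtain ⟨Q, hQ⟩ := (IsPGroup.of_card (p := p) (G := Subgroup.zpowers (x : M)) (n := 1)
      (by rw [Nat.card_zpowers, Subgroup.orderOf_coe, hx, pow_one])).exists_le_sylow
    obtain ⟨g, hg⟩ := MulAction.exists_smul_eq M Q P
    have hmem : g * (x : M) * g⁻¹ ∈ (P : Subgroup M) := by
      rw [← hg, Sylow.coe_subgroup_smul]
      exact Subgroup.smul_mem_pointwise_smul _ _ _ (hQ (Subgroup.mem_zpowers _))
    have h0 : (⟨_, hmem⟩ : (P : Subgroup M)) ∈ N.subgroupOf (P : Subgroup M) :=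
      (inferInstance : N.Normal).conj_mem _ x.2 g
    rw [hb, Subgroup.mem_bot] at h0
    have h0' : g * (x : M) * g⁻¹ = 1 := congrArg Subtype.val h0
    rw [conj_eq_one_iff] at h0'
    rw [← Subgroup.orderOf_coe, h0', orderOf_one] at hx
    exact hp.ne_one hx.symm
  obtain ⟨z, hzN, hzc, hz⟩ := H24.exists_central_orderOf P.isPGroup' hPN
  have hle : (P : Subgroup M) ≤ N := fun y hy => by
    have hc : y * (z : M) = (z : M) * y := congrArg Subtype.val (Subgroup.mem_center_iff.1 hzc ⟨y, hy⟩)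
    refine centralizer_le hF hM hne (x := ((z : M) : G)) hzN (fun e => ?_) (congrArg Subtype.val hc)
    rw [show z = 1 from Subtype.ext (Subtype.ext e), orderOf_one] at hz
    exact hp.ne_one hz.symm
  exact P.not_dvd_index (h2.trans (Subgroup.index_dvd_of_le hle))

omit hns in
lemma normal_solvable_eq_bot (hMtop : M ≠ ⊤) :
    ∀ (n : ℕ) (A : Subgroup G), Nat.card A = n → A.Normal → Group.IsSolvable A → A = ⊥ := by
  intro n
  induction n using Nat.strong_induction_on with
  | _ n ih =>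
  intro A hn hA hs
  by_contra hA0
  haveI := hA
  haveI := hs
  haveI : Nontrivial A := (Subgroup.nontrivial_iff_ne_bot A).2 hA0
  -- the derived subgroup is smaller
  set D := ⁅A, A⁆ with hD
  have hDA : D ≤ A := Subgroup.commutator_le_right A A
  have hlt : D < A := lt_of_le_of_ne hDA fun e => by
    have h1 : commutator A = ⊤ := by
      refine eq_top_iff.2 fun x _ => ?_
      have hx : (x : G) ∈ (commutator A).map A.subtype := by
        rw [commutator_def, Subgroup.map_commutator, ← MonoidHom.range_eq_map, Subgroup.range_subtype,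
          ← hD, e]
        exact x.2
      obtain ⟨y, hy, hyx⟩ := hx
      rwa [← Subtype.ext hyx]
    exact (Group.IsSolvable.commutator_lt_top_of_nontrivial (G := A)).ne h1
  have hD0 : D = ⊥ := by
    refine ih _ ?_ D rfl inferInstance
      (Group.isSolvable_of_isSolvable_injective (Subgroup.inclusion_injective hDA))
    rw [← hn]
    exact Set.ncard_lt_ncard hlt (Set.toFinite _)
  have hab : ∀ a ∈ A, ∀ b ∈ A, a * b = b * a := fun a ha b hb => by
    rw [← commutatorElement_eq_one_iff_mul_comm, ← Subgroup.mem_bot, ← hD0, hD]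
    exact Subgroup.commutator_mem_commutator ha hb
  have hAM := solvable_of_normal_le hM hs
  have hAF : ∀ x ∈ A, x ∈ F M → x = 1 := by
    intro x hxA hxF
    by_contra hx1
    have hle : A ≤ F M := fun a ha => centralizer_le hF hM hne hxF hx1 (hab a ha x hxA)
    obtain ⟨g, hg⟩ : ∃ g, g ∉ M := by
      by_contra hc
      push Not at hc
      exact hMtop (eq_top_iff.2 fun g _ => hc g)
    refine hg (mem_of_conj hF hM hne hxF hx1 (hle ?_))
    simpa using hA.conj_mem x hxA g⁻¹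
  obtain ⟨⟨f, hf⟩, hf1⟩ := (Subgroup.bot_or_exists_ne_one (F M)).resolve_left hne |> fun h =>
    (⟨⟨h.choose, h.choose_spec.1⟩, h.choose_spec.2⟩ : ∃ f : F M, (f : G) ≠ 1)
  obtain ⟨a, ha, ha1⟩ := (Subgroup.bot_or_exists_ne_one A).resolve_left hA0
  have hc : a * f * a⁻¹ * f⁻¹ = 1 := by
    refine hAF _ ?_ (mul_mem (conj_mem hF hM hne (hAM ha) hf) (inv_mem hf))
    have : f * a⁻¹ * f⁻¹ ∈ A := hA.conj_mem _ (inv_mem ha) f
    have h2 := mul_mem ha this
    rwa [show a * (f * a⁻¹ * f⁻¹) = a * f * a⁻¹ * f⁻¹ by group] at h2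
  rw [mul_inv_eq_one, mul_inv_eq_iff_eq_mul] at hc
  exact ha1 (hAF a ha (centralizer_le hF hM hne hf hf1 hc))

lemma no_solvable_normal (A : Subgroup G) [hA : A.Normal] (hs : Group.IsSolvable A) : A = ⊥ :=
  normal_solvable_eq_bot hF hM hne (ne_top hns hM) _ A rfl hA hs

lemma odd_normal_eq_bot (A : Subgroup G) [A.Normal] (hodd : Odd (Nat.card A)) : A = ⊥ :=
  no_solvable_normal hF hns hM hne A (Cfsg.Agent.S0205.result hodd)

lemma even_card (S : Sylow 2 G) (hS : (S : Subgroup G) ≤ M) (hS1 : (S : Subgroup G) ≠ ⊥) :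
    2 ∣ Nat.card (F M) := by
  haveI : Fact (Nat.Prime 2) := ⟨Nat.prime_two⟩
  by_contra hodd
  have hdisj : ∀ x ∈ (S : Subgroup G), x ∈ F M → x = 1 := by
    intro x hxS hxF
    obtain ⟨k, hk⟩ := IsPGroup.iff_orderOf.1 S.isPGroup' ⟨x, hxS⟩
    rw [Subgroup.orderOf_mk] at hk
    refine orderOf_eq_one_iff.1 (Nat.eq_one_of_dvd_coprimes (Nat.Coprime.pow_left k
      (Nat.prime_two.coprime_iff_not_dvd.2 hodd)) (hk ▸ dvd_rfl) (Subgroup.orderOf_dvd_natCard _ hxF))
  obtain ⟨f, hf, hf1⟩ := (Subgroup.bot_or_exists_ne_one (F M)).resolve_left hne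
  -- involutions of `S` invert the kernel
  have hinv : ∀ s ∈ (S : Subgroup G), orderOf s = 2 → s * f * s⁻¹ = f⁻¹ := by
    intro s hs hs2
    have hss : s * s = 1 := by rw [← pow_two, ← hs2, pow_orderOf_eq_one]
    let ψ : F M →* F M :=
      { toFun := fun u => ⟨s * u * s⁻¹, conj_mem hF hM hne (hS hs) u.2⟩
        map_one' := Subtype.ext (by simp)
        map_mul' := fun u w => Subtype.ext (by simp [mul_assoc]) }
    have hfpf : MonoidHom.FixedPointFree ψ := by
      intro u hu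
      have hu' : s * u * s⁻¹ = u := congrArg Subtype.val hu
      by_contra hu1
      have := centralizer_le hF hM hne (x := (u : G)) u.2 (fun e => hu1 (Subtype.ext e))
        (mul_inv_eq_iff_eq_mul.1 hu')
      rw [hdisj s hs this, orderOf_one] at hs2
      omega
    have hinvo : Function.Involutive ψ := fun u => Subtype.ext (by
      show s * (s * u * s⁻¹) * s⁻¹ = u
      rw [show s * (s * u * s⁻¹) * s⁻¹ = (s * s) * u * (s * s)⁻¹ by group, hss]
      group)
    exact congrArg Subtype.val (congrFun (hfpf.coe_eq_inv_of_involutive hinvo) ⟨f, hf⟩)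
  obtain ⟨z, hzS, hz⟩ : ∃ z ∈ (S : Subgroup G), orderOf z = 2 := by
    haveI : Nontrivial (S : Subgroup G) := (Subgroup.nontrivial_iff_ne_bot _).2 hS1
    obtain ⟨z, hz⟩ := exists_prime_orderOf_dvd_card' (G := (S : Subgroup G)) 2
      ((S.isPGroup'.card_eq_or_dvd).resolve_left Finite.one_lt_card.ne')
    exact ⟨z, z.2, by rwa [Subgroup.orderOf_coe]⟩
  have huniq : ∀ x ∈ (S : Subgroup G), orderOf x = 2 → x = z := by
    intro x hx hx2
    have h1 : (x * z) * f = f * (x * z) := by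
      rw [← mul_inv_eq_iff_eq_mul]
      calc x * z * f * (x * z)⁻¹ = x * (z * f * z⁻¹) * x⁻¹ := by group
        _ = (x * f * x⁻¹)⁻¹ := by rw [hinv z hzS hz]; group
        _ = f := by rw [hinv x hx hx2, inv_inv]
    have h2 := hdisj _ (mul_mem hx hzS) (centralizer_le hF hM hne hf hf1 h1)
    rw [eq_inv_of_mul_eq_one_left h2, H50.inv_eq_self hz]
  have hcen := H28.central_mod_core_of_unique_involution S hz hzS huniq f
  haveI := H19.pPrimeCore_normal 2 G
  rw [odd_normal_eq_bot hF hns hM hne (Cfsg.pPrimeCore 2 G)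
    (Nat.coprime_two_right.1 (H19.pPrimeCore_coprime 2)), Subgroup.mem_bot, mul_inv_eq_one,
    mul_inv_eq_iff_eq_mul] at hcen
  rw [hdisj z hzS (centralizer_le hF hM hne hf hf1 hcen), orderOf_one] at hz
  omega

end Member

/-- The member containing a Sylow 2-subgroup has even kernel. -/
theorem exists_even (hF : Sys F) (hns : ¬ Group.IsSolvable G) :
    ∃ M, IsMaxSolv M ∧ F M ≠ ⊥ ∧ 2 ∣ Nat.card (F M) := by
  haveI : Fact (Nat.Prime 2) := ⟨Nat.prime_two⟩
  obtain ⟨S⟩ : Nonempty (Sylow 2 G) := inferInstance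
  haveI : Group.IsNilpotent (S : Subgroup G) := S.isPGroup'.isNilpotent
  set N := Subgroup.normalizer ((S : Subgroup G) : Set G) with hN
  have hS1 : (S : Subgroup G) ≠ ⊥ := by
    intro e
    refine hns (Cfsg.Agent.S0205.result ?_)
    have h := S.card_eq_multiplicity
    rw [e, Subgroup.card_bot] at h
    by_contra hev
    have h2 := even_iff_two_dvd.1 (Nat.not_odd_iff_even.1 hev)
    have := Nat.prime_two.factorization_pos_of_dvd Nat.card_pos.ne' h2
    have h3 := Nat.one_lt_pow (n := (Nat.card G).factorization 2) this.ne' one_lt_two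
    omega
  have hNs : Group.IsSolvable N := by
    set S' := (S : Subgroup G).subgroupOf N
    haveI : S'.Normal := Subgroup.normal_in_normalizer
    have hodd : Odd (Nat.card (N ⧸ S')) := by
      rw [← Subgroup.index_eq_card, Nat.odd_iff, ← Nat.two_dvd_ne_zero]
      exact fun h => S.not_dvd_index (h.trans (Subgroup.relIndex_dvd_index_of_le Subgroup.le_normalizer))
    haveI : Group.IsSolvable (N ⧸ S') := Cfsg.Agent.S0205.result hodd
    haveI : Group.IsSolvable S' := Group.isSolvable_of_isSolvable_injective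
      (f := (Subgroup.subgroupOfEquivOfLe (Subgroup.le_normalizer (H := (S : Subgroup G)))).toMonoidHom)
      (Subgroup.subgroupOfEquivOfLe _).injective
    exact Group.isSolvable_of_ker_le_range S'.subtype (QuotientGroup.mk' S')
      (by rw [QuotientGroup.ker_mk', Subgroup.range_subtype])
  obtain ⟨M, hM, hNM⟩ := exists_maxSolv hNs
  by_cases hne : F M = ⊥
  · exfalso
    have hab := (hF M hM).2.2.2.2.resolve_left (fun h => h hne)
    have hcen : N ≤ Subgroup.centralizer ((S : Subgroup G) : Set G) := fun n hn =>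
      Subgroup.mem_centralizer_iff.2 fun s hs => congrArg Subtype.val
        (hab.is_comm.comm ⟨s, hNM (Subgroup.le_normalizer hs)⟩ ⟨n, hNM hn⟩)
    set K := (MonoidHom.transferSylow S hcen).ker
    have hKodd : Odd (Nat.card K) := Nat.odd_iff.2 (Nat.two_dvd_ne_zero.1
      (MonoidHom.not_dvd_card_ker_transferSylow S hcen))
    haveI : Group.IsSolvable K := Cfsg.Agent.S0205.result hKodd
    refine hns ?_
    exact Group.isSolvable_of_ker_le_range K.subtype (MonoidHom.transferSylow S hcen)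
      (by rw [Subgroup.range_subtype])
  · exact ⟨M, hM, hne, even_card hF hns hM hne S (Subgroup.le_normalizer.trans hNM) hS1⟩

section Even

variable (hF : Sys F) (hns : ¬ Group.IsSolvable G) {M : Subgroup G} (hM : IsMaxSolv M) (hne : F M ≠ ⊥)
  (h2 : 2 ∣ Nat.card (F M))
include hF hM hne

lemma mem_of_coprime {x : G} (hx : x ∈ M) (hco : (orderOf x).Coprime ((F M).relIndex M)) : x ∈ F M := by
  haveI : ((F M).subgroupOf M).Normal :=
    (Subgroup.normal_subgroupOf_iff (hF M hM).1).2 fun x g hx hg => conj_mem hF hM hne hg hx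
  have h : QuotientGroup.mk' ((F M).subgroupOf M) ⟨x, hx⟩ = 1 :=
    orderOf_eq_one_iff.1 (Nat.eq_one_of_dvd_coprimes hco
      ((orderOf_map_dvd _ _).trans (dvd_of_eq (Subgroup.orderOf_mk x hx))) (orderOf_dvd_natCard _))
  exact (QuotientGroup.eq_one_iff (N := (F M).subgroupOf M) ⟨x, hx⟩).1 h

lemma mem_of_conj_order {x g : G} (hx : x ∈ F M) (hM' : g⁻¹ * x * g ∈ M) : g⁻¹ * x * g ∈ F M := by
  refine mem_of_coprime hF hM hne hM' ?_
  rw [orderOf_conj_inv g x]
  exact (coprime_index hF hM hne).coprime_dvd_left (Subgroup.orderOf_dvd_natCard _ hx)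

include h2

lemma involution_mem {t : G} (ht : orderOf t = 2) (htM : t ∈ M) : t ∈ F M :=
  mem_of_coprime hF hM hne htM (ht ▸ (coprime_index hF hM hne).coprime_dvd_left h2)

include hns

lemma stronglyEmbedded : Cfsg.IsStronglyEmbedded M := by
  refine ⟨ne_top hns hM, even_iff_two_dvd.2 (h2.trans (Subgroup.card_dvd_of_le (hF M hM).1)),
    fun g hg => ?_⟩
  by_contra hev
  obtain ⟨t, ht, ht2⟩ := H28.exists_involution_mem (Nat.not_odd_iff_even.1 hev)
  obtain ⟨htM, hconj⟩ := Subgroup.mem_inf.1 ht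
  obtain ⟨s, hs, hst⟩ := Subgroup.mem_map.1 hconj
  have hst' : g * s * g⁻¹ = t := hst
  have hs' : g⁻¹ * t * g = s := by rw [← hst']; group
  refine hg (mem_of_conj hF hM hne (involution_mem hF hM hne h2 ht2 htM) (fun e => ?_)
    (involution_mem hF hM hne h2 (by rw [orderOf_conj_inv, ht2]) (hs' ▸ hs)))
  rw [e, orderOf_one] at ht2
  omega

/-- The centraliser of an involution of `M` is the kernel. -/
lemma commute_involution {t f : G} (ht : orderOf t = 2) (htM : t ∈ M) (hf : f ∈ F M) :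
    f * t = t * f := by
  haveI : Fact (Nat.Prime 2) := ⟨Nat.prime_two⟩
  obtain ⟨hle, hN, -⟩ := hF M hM
  -- the kernel is nilpotent
  haveI hn : ((F M).subgroupOf M).Normal :=
    (Subgroup.normal_subgroupOf_iff hle).2 fun x g hx hg => conj_mem hF hM hne hg hx
  have hco : (Nat.card ((F M).subgroupOf M)).Coprime ((F M).subgroupOf M).index := by
    rw [Nat.card_congr (Subgroup.subgroupOfEquivOfLe hle).toEquiv]
    exact coprime_index hF hM hne
  obtain ⟨C, hC⟩ := Subgroup.exists_right_complement'_of_coprime hco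
  have hne' : (F M).subgroupOf M ≠ ⊥ := by
    rw [Ne, Subgroup.subgroupOf_eq_bot, disjoint_iff, inf_eq_left.2 hle]
    exact hne
  have hC0 : C ≠ ⊥ := by
    rintro rfl
    have h := Subgroup.isComplement'_bot_right.1 hC
    rw [Subgroup.subgroupOf_eq_top] at h
    exact (lt_self hF hns hM hne).not_ge h
  haveI : Nontrivial C := (Subgroup.nontrivial_iff_ne_bot C).2 hC0
  haveI hnil : Group.IsNilpotent ((F M).subgroupOf M) := by
    refine H21.isNilpotent_of_fpf_group (A := C)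
      ((MulAut.conjNormal (H := (F M).subgroupOf M)).comp C.subtype) fun e he k hk => ?_
    have hk' : (e : M) * (k : M) * (e : M)⁻¹ = k := by simpa using congrArg Subtype.val hk
    by_contra hk1
    have hd : (e : M) ∈ (F M).subgroupOf M := centralizer_le hF hM hne (x := ((k : M) : G))
      k.2 (fun e' => hk1 (Subtype.ext (Subtype.ext e')))
      (congrArg Subtype.val (mul_inv_eq_iff_eq_mul.1 hk'))
    exact he (Subtype.ext (Subgroup.disjoint_def.1 hC.disjoint hd e.2))
  haveI : Group.IsNilpotent (F M) :=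
    Group.nilpotent_of_mulEquiv (Subgroup.subgroupOfEquivOfLe hle)
  obtain ⟨S⟩ : Nonempty (Sylow 2 (F M)) := inferInstance
  have hS1 : (S : Subgroup (F M)) ≠ ⊥ := S.ne_bot_of_dvd_card h2
  haveI hSn : (S : Subgroup (F M)).Normal :=
    (Group.isNilpotent_of_finite_tfae.out 0 3 rfl rfl).mp ‹Group.IsNilpotent (F M)› 2 inferInstance S
  obtain ⟨z, -, hzc, hz⟩ := H24.exists_central_orderOf S.isPGroup'
    (N := (⊤ : Subgroup (S : Subgroup (F M)))) (by
      rw [Ne, Subgroup.eq_bot_iff_forall]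
      intro h
      exact hS1 ((Subgroup.eq_bot_iff_forall _).2 fun x hx => congrArg Subtype.val (h ⟨x, hx⟩ trivial)))
  have hzcomm : ∀ f : F M, f * (z : F M) = (z : F M) * f := by
    set C := Subgroup.centralizer ({(z : F M)} : Set (F M)) with hCdef
    suffices htop : C = ⊤ by
      intro f
      exact Subgroup.mem_centralizer_singleton_iff.1 (htop ▸ Subgroup.mem_top f : f ∈ C)
    refine Subgroup.eq_top_of_card_eq C (Nat.dvd_antisymm (Subgroup.card_subgroup_dvd_card C) ?_)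
    refine (Nat.factorization_le_iff_dvd Nat.card_pos.ne' Nat.card_pos.ne').1 (Finsupp.le_def.2 fun p => ?_)
    by_cases hp : p.Prime
    swap
    · simp [Nat.factorization_eq_zero_of_not_prime _ hp]
    haveI := Fact.mk hp
    obtain ⟨P⟩ : Nonempty (Sylow p (F M)) := inferInstance
    have hPC : (P : Subgroup (F M)) ≤ C := by
      intro y hy
      rw [hCdef, Subgroup.mem_centralizer_singleton_iff]
      rcases eq_or_ne p 2 with rfl | hp2
      · haveI := Sylow.unique_of_normal S hSn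
        have hPS : P = S := Subsingleton.elim _ _
        subst hPS
        exact congrArg Subtype.val (Subgroup.mem_center_iff.1 hzc ⟨y, hy⟩)
      · refine (H21.commute_of_coprime_of_nilpotent ?_).eq
        obtain ⟨k, hk⟩ := IsPGroup.iff_orderOf.1 P.isPGroup' ⟨y, hy⟩
        rw [Subgroup.orderOf_mk] at hk
        rw [hk, Subgroup.orderOf_coe, hz]
        exact Nat.Coprime.pow_left k ((Nat.coprime_primes hp Nat.prime_two).2 hp2)
    rw [← hp.pow_dvd_iff_le_factorization Nat.card_pos.ne', ← P.card_eq_multiplicity]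
    exact Subgroup.card_dvd_of_le hPC
  obtain ⟨g, hg⟩ := isConj_iff.1 (H50.se_isConj (stronglyEmbedded hF hns hM hne h2)
    (a := ((z : F M) : G)) (b := t) (by rw [Subgroup.orderOf_coe, Subgroup.orderOf_coe, hz]) ht)
  have htF := involution_mem hF hM hne h2 ht htM
  have hgz : g⁻¹ * t * g = ((z : F M) : G) := by rw [← hg]; group
  have hgM : g ∈ M := mem_of_conj hF hM hne htF (fun e => by rw [e, orderOf_one] at ht; omega)
    (hgz ▸ (z : F M).2)
  have hf' : g⁻¹ * f * g ∈ F M := by simpa using conj_mem hF hM hne (inv_mem hgM) hf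
  have hc := congrArg Subtype.val (hzcomm ⟨_, hf'⟩)
  simp only [Subgroup.coe_mul] at hc
  rw [← hg]
  calc f * (g * (z : F M) * g⁻¹) = g * ((g⁻¹ * f * g) * (z : F M)) * g⁻¹ := by group
    _ = _ := by rw [hc]; group

/-- There are as many involutions in `M` as cosets of the kernel. -/
lemma card_invs : Nat.card {t : G // orderOf t = 2 ∧ t ∈ M} = (F M).relIndex M := by
  haveI : Fact (Nat.Prime 2) := ⟨Nat.prime_two⟩
  obtain ⟨hle, -⟩ := hF M hM
  obtain ⟨z, hz⟩ := exists_prime_orderOf_dvd_card' (G := F M) 2 h2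
  rw [← Subgroup.orderOf_coe] at hz
  have hzM : (z : G) ∈ M := hle z.2
  have hwd : ∀ a b : M, QuotientGroup.leftRel ((F M).subgroupOf M) a b →
      (a : G) * z * (a : G)⁻¹ = (b : G) * z * (b : G)⁻¹ := by
    intro a b hab
    rw [QuotientGroup.leftRel_apply] at hab
    have hf : (a : G)⁻¹ * b ∈ F M := hab
    have hc := commute_involution hF hns hM hne h2 hz hzM hf
    have e : (b : G) = a * ((a : G)⁻¹ * b) := by group
    calc (a : G) * z * (a : G)⁻¹
        = a * (((a : G)⁻¹ * b) * z * ((a : G)⁻¹ * b)⁻¹) * (a : G)⁻¹ := by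
          rw [hc, mul_inv_cancel_right]
      _ = _ := by group
  let φ : M ⧸ (F M).subgroupOf M → {t : G // orderOf t = 2 ∧ t ∈ M} := fun q =>
    Quotient.liftOn' q
      (fun a => ⟨(a : G) * z * (a : G)⁻¹, by rw [H50.orderOf_conj, hz],
        mul_mem (mul_mem a.2 hzM) (inv_mem a.2)⟩)
      fun a b hab => Subtype.ext (hwd a b hab)
  refine (Nat.card_eq_of_bijective φ ⟨?_, ?_⟩).symm
  · intro p q h
    induction p using Quotient.inductionOn' with
    | h a =>
      induction q using Quotient.inductionOn' with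
      | h b =>
        have h' : (a : G) * z * (a : G)⁻¹ = (b : G) * z * (b : G)⁻¹ := congrArg Subtype.val h
        refine Quotient.sound' ?_
        rw [QuotientGroup.leftRel_apply]
        show (a : G)⁻¹ * b ∈ F M
        refine centralizer_le hF hM hne z.2 (fun e => by rw [e, orderOf_one] at hz; omega) ?_
        calc (a : G)⁻¹ * b * z = (a : G)⁻¹ * (b * z * (b : G)⁻¹) * b := by group
          _ = z * ((a : G)⁻¹ * b) := by rw [← h']; group
  · rintro ⟨t, ht, htM⟩
    obtain ⟨g, hg⟩ := isConj_iff.1 (H50.se_isConj (stronglyEmbedded hF hns hM hne h2) hz ht)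
    have hgz : g⁻¹ * t * g = (z : G) := by rw [← hg]; group
    have hgM : g ∈ M := mem_of_conj hF hM hne (involution_mem hF hM hne h2 ht htM)
      (fun e => by rw [e, orderOf_one] at ht; omega) (hgz ▸ z.2)
    exact ⟨Quotient.mk'' ⟨g, hgM⟩, Subtype.ext hg⟩

omit h2 hns in
/-- The two point stabiliser at the base point embeds in `M` modulo the kernel. -/
lemma base_inj {y : G ⧸ M} (hy : y ≠ ((1 : G) : G ⧸ M)) {d : G}
    (hd : d ∈ stabilizer G ((1 : G) : G ⧸ M) ⊓ stabilizer G y) (hdF : d ∈ F M) : d = 1 := by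
  obtain ⟨g, rfl⟩ := QuotientGroup.mk_surjective y
  by_contra hd1
  have hfix : d • (g : G ⧸ M) = (g : G ⧸ M) := hd.2
  rw [MulAction.Quotient.smul_coe, smul_eq_mul, QuotientGroup.eq, mul_inv_rev] at hfix
  have hdM : g⁻¹ * d * g ∈ M := by
    have := inv_mem hfix
    simpa [mul_assoc] using this
  refine hy ?_
  rw [QuotientGroup.eq, mul_one]
  exact inv_mem (mem_of_conj hF hM hne hdF hd1 (mem_of_conj_order hF hM hne hdF hdM))

omit h2 hns in
/-- The embedding of a two point stabiliser at the base point. -/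
lemma base_card_le {y : G ⧸ M} (hy : y ≠ ((1 : G) : G ⧸ M)) :
    ∃ π : ↥(stabilizer G ((1 : G) : G ⧸ M) ⊓ stabilizer G y : Subgroup G) → M ⧸ (F M).subgroupOf M,
      Function.Injective π ∧ ∀ d h, π d = QuotientGroup.mk (⟨(d : G), h⟩ : M) := by
  refine ⟨fun d => QuotientGroup.mk (⟨(d : G), H50.smul_one_coset_eq_iff.1 d.2.1⟩ : M), ?_,
    fun d h => rfl⟩
  intro d e h
  have h' : ((d : G))⁻¹ * e ∈ F M := (QuotientGroup.eq (s := (F M).subgroupOf M)).1 h
  have h1 := base_inj hF hM hne hy (mul_mem (inv_mem d.2) e.2) h'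
  exact Subtype.ext (inv_mul_eq_one.1 h1)

lemma pair_spec {x y : G ⧸ M} (hxy : x ≠ y) :
    (∃ u : G, orderOf u = 2 ∧ u • x = y) ∧
      Nat.card (stabilizer G x ⊓ stabilizer G y : Subgroup G) = (F M).relIndex M ∧
      ∀ u : G, orderOf u = 2 → u • x = y → ∀ d : G, d • x = x → d • y = y → u * d * u⁻¹ = d⁻¹ := by
  have hse := stronglyEmbedded hF hns hM hne h2
  have hswap : Nat.card {i : G // orderOf i = 2 ∧ i • x = y} = (F M).relIndex M := by
    rw [H50.se_card_swap hse hxy, card_invs hF hns hM hne h2]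
  have hc0 : 0 < (F M).relIndex M := Nat.pos_of_ne_zero Subgroup.FiniteIndex.index_ne_zero
  obtain ⟨⟨u₀, hu₀, hu₀x⟩⟩ : Nonempty {i : G // orderOf i = 2 ∧ i • x = y} :=
    (Nat.card_pos_iff.1 (hswap ▸ hc0)).1
  set D := stabilizer G x ⊓ stabilizer G y with hD
  -- the stabiliser is no larger than the index of the kernel
  have hle : Nat.card D ≤ (F M).relIndex M := by
    obtain ⟨g, rfl⟩ := MulAction.exists_smul_eq G ((1 : G) : G ⧸ M) x
    have hy' : g⁻¹ • y ≠ ((1 : G) : G ⧸ M) := fun e => hxy (by rw [← e, smul_inv_smul])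
    obtain ⟨π, hπ, -⟩ := base_card_le hF hM hne hy'
    refine le_trans (Nat.card_le_card_of_injective (fun d : D => (⟨g⁻¹ * d * g, ?_, ?_⟩ :
      ↥(stabilizer G ((1 : G) : G ⧸ M) ⊓ stabilizer G (g⁻¹ • y) : Subgroup G))) ?_)
      (Nat.card_le_card_of_injective π hπ)
    · show (g⁻¹ * d * g) • ((1 : G) : G ⧸ M) = _
      rw [mul_smul, mul_smul, show (d : G) • g • ((1 : G) : G ⧸ M) = g • _ from d.2.1, inv_smul_smul]
    · show (g⁻¹ * d * g) • (g⁻¹ • y) = _
      rw [mul_smul, mul_smul, smul_inv_smul, show (d : G) • y = y from d.2.2]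
    · intro d e h
      have h' : g⁻¹ * (d : G) * g = g⁻¹ * (e : G) * g := congrArg Subtype.val h
      exact Subtype.ext (mul_left_cancel (mul_right_cancel h'))
  have hmap : ∀ u : G, orderOf u = 2 → u • x = y → ∀ i : G, orderOf i = 2 ∧ i • x = y → u * i ∈ D := by
    intro u hu hux i hi
    refine ⟨?_, ?_⟩
    · show (u * i) • x = x
      rw [mul_smul, hi.2, H50.smul_swap hu hux]
    · show (u * i) • y = y
      rw [mul_smul, H50.smul_swap hi.1 hi.2, hux]
  have hinj : ∀ u : G, ∀ (hu : orderOf u = 2) (hux : u • x = y), Function.Injective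
      (fun i : {i : G // orderOf i = 2 ∧ i • x = y} => (⟨u * i, hmap u hu hux i i.2⟩ : D)) :=
    fun u hu hux i j h => Subtype.ext (mul_left_cancel (congrArg Subtype.val h))
  have hcard : Nat.card D = (F M).relIndex M :=
    le_antisymm hle (hswap ▸ Nat.card_le_card_of_injective _ (hinj u₀ hu₀ hu₀x))
  refine ⟨⟨u₀, hu₀, hu₀x⟩, hcard, fun u hu hux d hdx hdy => ?_⟩
  obtain ⟨i, hi⟩ := ((Nat.bijective_iff_injective_and_card _).2
    ⟨hinj u hu hux, hswap.trans hcard.symm⟩).2 ⟨d, hdx, hdy⟩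
  have hd : u * i = d := congrArg Subtype.val hi
  rw [← hd, mul_inv_rev, H50.inv_eq_self i.2.1, H50.inv_eq_self hu, ← mul_assoc u u, H50.inv_mul_self hu,
    one_mul]

lemma pair_comm {x y : G ⧸ M} (hxy : x ≠ y) {d e : G} (hdx : d • x = x) (hdy : d • y = y)
    (hex : e • x = x) (hey : e • y = y) : d * e = e * d := by
  obtain ⟨⟨u, hu, hux⟩, -, hinv⟩ := pair_spec hF hns hM hne h2 hxy
  have h1 := hinv u hu hux (d * e) (by rw [mul_smul, hex, hdx]) (by rw [mul_smul, hey, hdy])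
  rw [show u * (d * e) * u⁻¹ = (u * d * u⁻¹) * (u * e * u⁻¹) by group, hinv u hu hux d hdx hdy,
    hinv u hu hux e hex hey, ← mul_inv_rev, inv_inj] at h1
  exact h1.symm

lemma two_le_index : 2 ≤ (F M).relIndex M := by
  have h0 : (F M).relIndex M ≠ 0 := Subgroup.FiniteIndex.index_ne_zero
  have h1 : (F M).relIndex M ≠ 1 := fun e =>
    (lt_self hF hns hM hne).not_ge (Subgroup.relIndex_eq_one.1 e)
  omega

lemma exists_two_fixed {x y : G ⧸ M} (hxy : x ≠ y) : ∃ d : G, d ≠ 1 ∧ d • x = x ∧ d • y = y := by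
  have hc := (pair_spec hF hns hM hne h2 hxy).2.1
  have := two_le_index hF hns hM hne h2
  haveI : Nontrivial (stabilizer G x ⊓ stabilizer G y : Subgroup G) :=
    Finite.one_lt_card_iff_nontrivial.1 (by omega)
  obtain ⟨⟨d, hd⟩, hd1⟩ := exists_ne (1 : (stabilizer G x ⊓ stabilizer G y : Subgroup G))
  exact ⟨d, fun e => hd1 (Subtype.ext e), hd.1, hd.2⟩

/-- No element fixing `y` inverts the stabiliser of two points `y`, `x`. -/
lemma not_inverting {x y : G ⧸ M} (hxy : x ≠ y) {g : G} (hg : g • y = y)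
    (hinv : ∀ d : G, d • x = x → d • y = y → g * d * g⁻¹ = d⁻¹) : False := by
  obtain ⟨k, hk⟩ := MulAction.exists_smul_eq G y ((1 : G) : G ⧸ M)
  have hx' : k • x ≠ ((1 : G) : G ⧸ M) := fun e => hxy (smul_left_cancel k (e.trans hk.symm))
  obtain ⟨π, hπ, hπm⟩ := base_card_le hF hM hne hx'
  haveI : ((F M).subgroupOf M).Normal :=
    (Subgroup.normal_subgroupOf_iff (hF M hM).1).2 fun x g hx hg => conj_mem hF hM hne hg hx
  have hbij : Function.Bijective π := (Nat.bijective_iff_injective_and_card π).2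
    ⟨hπ, (pair_spec hF hns hM hne h2 hx'.symm).2.1⟩
  obtain ⟨d, hd1, hdy, hdx⟩ := exists_two_fixed hF hns hM hne h2 hxy.symm
  -- move to the base point
  set d' := k * d * k⁻¹ with hd'
  set g' := k * g * k⁻¹ with hg'
  have hmove : ∀ (w : G) (p : G ⧸ M), w • p = p → (k * w * k⁻¹) • (k • p) = k • p := fun w p hp => by
    rw [mul_smul, mul_smul, inv_smul_smul, hp]
  have hgM : g' ∈ M := H50.smul_one_coset_eq_iff.1 (by rw [← hk]; exact hmove g y hg)
  have hd'a : d' • ((1 : G) : G ⧸ M) = ((1 : G) : G ⧸ M) := by rw [← hk]; exact hmove d y hdy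
  have hd'b : d' • (k • x) = k • x := hmove d x hdx
  have hdM : d' ∈ M := H50.smul_one_coset_eq_iff.1 hd'a
  have hconj : g' * d' * g'⁻¹ = d'⁻¹ := by
    rw [hg', hd', show k * g * k⁻¹ * (k * d * k⁻¹) * (k * g * k⁻¹)⁻¹ = k * (g * d * g⁻¹) * k⁻¹ by group,
      hinv d hdx hdy]
    group
  obtain ⟨⟨e, he⟩, heq⟩ := hbij.2 (QuotientGroup.mk (⟨g', hgM⟩ : M))
  have heM : e ∈ M := H50.smul_one_coset_eq_iff.1 he.1
  rw [hπm ⟨e, he⟩ heM] at heq
  have hde : (⟨d', hdM⟩ : M) * ⟨e, heM⟩ = ⟨e, heM⟩ * ⟨d', hdM⟩ :=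
    Subtype.ext (pair_comm hF hns hM hne h2 hx'.symm hd'a hd'b he.1 he.2)
  have h := congrArg (QuotientGroup.mk' ((F M).subgroupOf M))
    (Subtype.ext hconj : (⟨g', hgM⟩ : M) * ⟨d', hdM⟩ * (⟨g', hgM⟩ : M)⁻¹ = (⟨d', hdM⟩ : M)⁻¹)
  rw [map_mul, map_mul, map_inv, map_inv, QuotientGroup.mk'_apply, QuotientGroup.mk'_apply, ← heq,
    ← QuotientGroup.mk_mul, ← hde, QuotientGroup.mk_mul, mul_inv_cancel_right] at h
  have h3 : d' * d' ∈ F M := by
    have h' : ((⟨d', hdM⟩ * ⟨d', hdM⟩ : M) : M ⧸ (F M).subgroupOf M) = 1 := by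
      rw [QuotientGroup.mk_mul]; exact eq_inv_iff_mul_eq_one.1 h
    exact (QuotientGroup.eq_one_iff (N := (F M).subgroupOf M) (⟨d', hdM⟩ * ⟨d', hdM⟩)).1 h'
  have h4 := base_inj hF hM hne hx' (d := d' * d')
    ⟨show (d' * d') • _ = _ by rw [mul_smul, hd'a, hd'a],
      show (d' * d') • _ = _ by rw [mul_smul, hd'b, hd'b]⟩ h3
  have hodd := H50.se_odd_of_two_fixed (stronglyEmbedded hF hns hM hne h2) hx'.symm hd'a hd'b
  have h5 : d' = 1 := orderOf_eq_one_iff.1 (Nat.eq_one_of_dvd_coprimes (Nat.coprime_two_right.2 hodd)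
    dvd_rfl (orderOf_dvd_of_pow_eq_one (by rw [pow_two]; exact h4)))
  rw [hd', conj_eq_one_iff] at h5
  exact hd1 h5

/-- The stabiliser of two points fixes no third point. -/
lemma no_third {x y z : G ⧸ M} (hxy : x ≠ y)
    (hall : ∀ d : G, d • x = x → d • y = y → d • z = z) : z = x ∨ z = y := by
  by_contra hcon
  push Not at hcon
  obtain ⟨hzx, hzy⟩ := hcon
  obtain ⟨⟨u₁, hu₁, hu₁x⟩, -, hinv₁⟩ := pair_spec hF hns hM hne h2 hxy
  obtain ⟨⟨u₂, hu₂, hu₂x⟩, -, hinv₂⟩ := pair_spec hF hns hM hne h2 hzx.symm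
  obtain ⟨⟨u₃, hu₃, hu₃y⟩, -, hinv₃⟩ := pair_spec hF hns hM hne h2 hzy.symm
  refine not_inverting hF hns hM hne h2 hxy (g := u₃ * (u₂ * u₁)) ?_ fun d hdx hdy => ?_
  · rw [mul_smul, mul_smul, H50.smul_swap hu₁ hu₁x, hu₂x, H50.smul_swap hu₃ hu₃y]
  · rw [show u₃ * (u₂ * u₁) * d * (u₃ * (u₂ * u₁))⁻¹ = u₃ * (u₂ * (u₁ * d * u₁⁻¹) * u₂⁻¹) * u₃⁻¹ by
      group, hinv₁ u₁ hu₁ hu₁x d hdx hdy,
      hinv₂ u₂ hu₂ hu₂x d⁻¹ (inv_smul_eq_iff.2 hdx.symm) (inv_smul_eq_iff.2 (hall d hdx hdy).symm), inv_inv,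
      hinv₃ u₃ hu₃ hu₃y d hdy (hall d hdx hdy)]

/-- A non-trivial element fixing two points fixes no third one. -/
lemma fix_two {d : G} (hd1 : d ≠ 1) {x y z : G ⧸ M} (hxy : x ≠ y) (hdx : d • x = x) (hdy : d • y = y)
    (hdz : d • z = z) : z = x ∨ z = y := by
  by_contra hcon
  push Not at hcon
  obtain ⟨hzx, hzy⟩ := hcon
  refine absurd (no_third hF hns hM hne h2 hxy (z := z) ?_) (by push Not; exact ⟨hzx, hzy⟩)
  obtain ⟨g, rfl⟩ := MulAction.exists_smul_eq G ((1 : G) : G ⧸ M) x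
  set y' := g⁻¹ • y with hy'
  set z' := g⁻¹ • z with hz'
  have hy1 : y' ≠ ((1 : G) : G ⧸ M) := fun e => hxy (by rw [← e, smul_inv_smul])
  have hz1 : z' ≠ ((1 : G) : G ⧸ M) := fun e => hzx (by rw [← e, smul_inv_smul])
  obtain ⟨π, hπ, hπm⟩ := base_card_le hF hM hne hy1
  have hbij : Function.Bijective π := (Nat.bijective_iff_injective_and_card π).2
    ⟨hπ, (pair_spec hF hns hM hne h2 hy1.symm).2.1⟩
  set d' := g⁻¹ * d * g with hd'
  have hmove : ∀ (w : G) (p : G ⧸ M), w • p = p → (g⁻¹ * w * g) • (g⁻¹ • p) = g⁻¹ • p := fun w p hp => by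
    rw [mul_smul, mul_smul, smul_inv_smul, hp]
  have hd'a : d' • ((1 : G) : G ⧸ M) = ((1 : G) : G ⧸ M) := by
    rw [hd', mul_smul, mul_smul, hdx, inv_smul_smul]
  have hd'y : d' • y' = y' := hmove d y hdy
  have hd'z : d' • z' = z' := hmove d z hdz
  have hd'1 : d' ≠ 1 := fun e => hd1 (by
    rw [show d = g * (g⁻¹ * d * g) * g⁻¹ by group, ← hd', e]; group)
  have hsub : stabilizer G ((1 : G) : G ⧸ M) ⊓ stabilizer G z' ≤
      stabilizer G ((1 : G) : G ⧸ M) ⊓ stabilizer G y' := by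
    intro e he
    have heM : e ∈ M := H50.smul_one_coset_eq_iff.1 he.1
    obtain ⟨⟨e', he'⟩, heq⟩ := hbij.2 (QuotientGroup.mk (⟨e, heM⟩ : M))
    have he'M : e' ∈ M := H50.smul_one_coset_eq_iff.1 he'.1
    rw [hπm ⟨e', he'⟩ he'M] at heq
    have hf : e'⁻¹ * e ∈ F M := (QuotientGroup.eq (s := (F M).subgroupOf M)).1 heq
    have c1 := pair_comm hF hns hM hne h2 hz1.symm he.1 he.2 hd'a hd'z
    have c2 := pair_comm hF hns hM hne h2 hy1.symm he'.1 he'.2 hd'a hd'y
    by_cases hf1 : e'⁻¹ * e = 1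
    · rwa [← inv_mul_eq_one.1 hf1]
    exfalso
    refine hd'1 (base_inj hF hM hne hy1 ⟨hd'a, hd'y⟩ (centralizer_le hF hM hne hf hf1 ?_))
    calc d' * (e'⁻¹ * e) = e'⁻¹ * (e' * d') * (e'⁻¹ * e) := by group
      _ = e'⁻¹ * (d' * e') * (e'⁻¹ * e) := by rw [c2]
      _ = e'⁻¹ * (d' * e) := by group
      _ = e'⁻¹ * (e * d') := by rw [c1]
      _ = e'⁻¹ * e * d' := by group
  have heq : stabilizer G ((1 : G) : G ⧸ M) ⊓ stabilizer G z' =
      stabilizer G ((1 : G) : G ⧸ M) ⊓ stabilizer G y' :=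
    Subgroup.eq_of_le_of_card_ge hsub (by
      rw [(pair_spec hF hns hM hne h2 hy1.symm).2.1, (pair_spec hF hns hM hne h2 hz1.symm).2.1])
  intro e hex hey
  have hmem : g⁻¹ * e * g ∈ stabilizer G ((1 : G) : G ⧸ M) ⊓ stabilizer G y' :=
    ⟨show (g⁻¹ * e * g) • _ = _ by rw [mul_smul, mul_smul, hex, inv_smul_smul], hmove e y hey⟩
  rw [← heq] at hmem
  have : (g⁻¹ * e * g) • z' = z' := hmem.2
  rw [hz', mul_smul, mul_smul, smul_inv_smul] at this
  exact smul_left_cancel g⁻¹ this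

/-- The stabiliser of a point is transitive on the other points. -/
lemma base_transitive {y z : G ⧸ M} (hy : y ≠ ((1 : G) : G ⧸ M)) (hz : z ≠ ((1 : G) : G ⧸ M)) :
    ∃ m ∈ M, m • z = y := by
  set c := (F M).relIndex M with hc
  have hcy := (pair_spec hF hns hM hne h2 hy.symm).2.1
  have hcz := (pair_spec hF hns hM hne h2 hz.symm).2.1
  obtain ⟨p, hp, hpc⟩ := Nat.exists_prime_and_dvd (n := c) (by
    have := two_le_index hF hns hM hne h2; omega)
  haveI := Fact.mk hp
  have hMcard : Nat.card (F M) * c = Nat.card M := by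
    rw [hc, Subgroup.relIndex, ← Nat.card_congr (Subgroup.subgroupOfEquivOfLe (hF M hM).1).toEquiv]
    exact Subgroup.card_mul_index _
  have hpf : ¬ p ∣ Nat.card (F M) := fun h =>
    hp.ne_one (Nat.eq_one_of_dvd_coprimes (coprime_index hF hM hne) h hpc)
  set Dy := stabilizer G ((1 : G) : G ⧸ M) ⊓ stabilizer G y with hDy
  have hle : Dy ≤ M := fun d hd => H50.smul_one_coset_eq_iff.1 hd.1
  obtain ⟨P⟩ : Nonempty (Sylow p Dy) := inferInstance
  let P' : Sylow p M := Sylow.ofCard ((P : Subgroup Dy).map (Subgroup.inclusion hle)) (by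
    rw [Subgroup.card_map_of_injective (Subgroup.inclusion_injective hle), P.card_eq_multiplicity,
      hcy, ← hMcard, Nat.factorization_mul Nat.card_pos.ne' (hc ▸ Subgroup.FiniteIndex.index_ne_zero),
      Finsupp.add_apply, Nat.factorization_eq_zero_of_not_dvd hpf, zero_add])
  obtain ⟨⟨d, hd⟩, hdo⟩ := exists_prime_orderOf_dvd_card'
    (G := ↥(stabilizer G ((1 : G) : G ⧸ M) ⊓ stabilizer G z : Subgroup G)) p (hcz ▸ hpc)
  rw [Subgroup.orderOf_mk] at hdo
  have hdM : d ∈ M := H50.smul_one_coset_eq_iff.1 hd.1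
  obtain ⟨Q, hQ⟩ := (IsPGroup.of_card (p := p) (G := Subgroup.zpowers (⟨d, hdM⟩ : M)) (n := 1)
    (by rw [Nat.card_zpowers, Subgroup.orderOf_mk, hdo, pow_one])).exists_le_sylow
  obtain ⟨m, hm⟩ := MulAction.exists_smul_eq M Q P'
  have hmem : m * ⟨d, hdM⟩ * m⁻¹ ∈ (P' : Subgroup M) := by
    rw [← hm, Sylow.coe_subgroup_smul]
    exact Subgroup.smul_mem_pointwise_smul _ _ _ (hQ (Subgroup.mem_zpowers _))
  rw [Sylow.coe_ofCard] at hmem
  obtain ⟨e, -, he⟩ := Subgroup.mem_map.1 hmem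
  have he' : (e : G) = (m : G) * d * (m : G)⁻¹ := congrArg Subtype.val he
  have h1 : (e : G) ≠ 1 := fun h => by
    rw [h, eq_comm, conj_eq_one_iff] at he'
    rw [he', orderOf_one] at hdo
    exact hp.ne_one hdo.symm
  have hfix : (e : G) • ((m : G) • z) = (m : G) • z := by
    rw [he', mul_smul, mul_smul, inv_smul_smul, show d • z = z from hd.2]
  have hm1 : (m : G) • ((1 : G) : G ⧸ M) = ((1 : G) : G ⧸ M) := H50.smul_one_coset_eq_iff.2 m.2
  rcases fix_two hF hns hM hne h2 h1 hy.symm e.2.1 e.2.2 hfix with h | h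
  · exact absurd (smul_left_cancel (m : G) (h.trans hm1.symm)) hz
  · exact ⟨m, m.2, h⟩

lemma card_odd [Fintype (G ⧸ M)] : Odd (Fintype.card (G ⧸ M)) := by
  haveI : Fact (Nat.Prime 2) := ⟨Nat.prime_two⟩
  obtain ⟨S, hS⟩ := H28.exists_sylow_le_of_isStronglyEmbedded (stronglyEmbedded hF hns hM hne h2)
  rw [← Nat.card_eq_fintype_card, ← Subgroup.index_eq_card, Nat.odd_iff, ← Nat.two_dvd_ne_zero]
  exact fun h => S.not_dvd_index (h.trans (Subgroup.index_dvd_of_le hS))

lemma three_points [Fintype (G ⧸ M)] :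
    ∃ x y z : G ⧸ M, x ≠ y ∧ y ≠ z ∧ x ≠ z := by
  have h1 : Fintype.card (G ⧸ M) ≠ 1 := fun e =>
    ne_top hns hM (Subgroup.index_eq_one.1 (by rw [Subgroup.index_eq_card, Nat.card_eq_fintype_card, e]))
  obtain ⟨k, hk⟩ := card_odd hF hns hM hne h2
  obtain ⟨x, y, z, hxy, hxz, hyz⟩ := Fintype.two_lt_card_iff.1 (show 2 < Fintype.card (G ⧸ M) by omega)
  exact ⟨x, y, z, hxy, hyz, hxz⟩

/-- The action on the cosets of `M` is a Zassenhaus group. -/
lemma zassenhaus [Fintype (G ⧸ M)] : Cfsg.IsZassenhausGroup G (G ⧸ M) := by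
  obtain ⟨x, y, z, hxy, hyz, hxz⟩ := three_points hF hns hM hne h2
  refine ⟨⟨fun {g h} hgh => ?_⟩, ?_, ?_, ?_, ?_⟩
  · by_contra hne'
    have hfix : ∀ p : G ⧸ M, (h⁻¹ * g) • p = p := fun p => by rw [mul_smul, hgh p, inv_smul_smul]
    rcases fix_two hF hns hM hne h2 (fun e => hne' (inv_mul_eq_one.1 e).symm) hxy (hfix x) (hfix y)
      (hfix z) with e | e
    · exact hxz e.symm
    · exact hyz e.symm
  · rw [MulAction.is_two_pretransitive_iff]
    intro a b c d hab hcd
    obtain ⟨g₁, hg₁⟩ := MulAction.exists_smul_eq G a ((1 : G) : G ⧸ M)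
    obtain ⟨g₂, hg₂⟩ := MulAction.exists_smul_eq G c ((1 : G) : G ⧸ M)
    obtain ⟨m, hm, hmb⟩ := base_transitive hF hns hM hne h2 (y := g₂ • d) (z := g₁ • b)
      (fun e => hcd (smul_left_cancel g₂ (e.trans hg₂.symm)).symm)
      (fun e => hab (smul_left_cancel g₁ (e.trans hg₁.symm)).symm)
    refine ⟨g₂⁻¹ * m * g₁, ?_, ?_⟩
    · rw [mul_smul, mul_smul, hg₁, H50.smul_one_coset_eq_iff.2 hm, inv_smul_eq_iff, hg₂]
    · rw [mul_smul, mul_smul, hmb, inv_smul_smul]
  · intro g p q r hpq hqr hpr hp hq hr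
    by_contra hg1
    rcases fix_two hF hns hM hne h2 hg1 hpq hp hq hr with e | e
    · exact hpr e.symm
    · exact hqr e.symm
  · obtain ⟨d, hd, hdx, hdy⟩ := exists_two_fixed hF hns hM hne h2 hxy
    exact ⟨d, hd, x, y, hxy, hdx, hdy⟩
  · intro N hN htr
    refine ⟨x, fun hst => ?_⟩
    have hbij : Function.Bijective fun n : N => n • x := by
      refine ⟨fun n n' h => ?_, fun p => htr.exists_smul_eq x p⟩
      have h : n • x = n' • x := h
      have h' : (n'⁻¹ * n) • x = x := by rw [mul_smul, h, inv_smul_smul]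
      exact (inv_mul_eq_one.1 ((Subgroup.eq_bot_iff_forall _).1 hst _ h')).symm
    have hodd : Odd (Nat.card N) := by
      rw [Nat.card_eq_of_bijective _ hbij, Nat.card_eq_fintype_card]
      exact card_odd hF hns hM hne h2
    haveI := hN
    obtain ⟨n, hn⟩ := hbij.2 y
    have hn1 : (n : G) ∈ (⊥ : Subgroup G) := odd_normal_eq_bot hF hns hM hne N hodd ▸ n.2
    rw [Subgroup.mem_bot] at hn1
    exact hxy (by rw [← hn, show n = 1 from Subtype.ext hn1]; exact (one_smul N x).symm)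

/-- The classification in the even case. -/
theorem classify :
    (∃ (K : Type) (_ : Field K) (_ : Fintype K), (∃ n : ℕ, 2 ≤ n ∧ Fintype.card K = 2 ^ n) ∧
        Nonempty (G ≃* Matrix.SpecialLinearGroup (Fin 2) K)) ∨
      Cfsg.Lie.IsoSuzuki G := by
  classical
  haveI : Fact (Nat.Prime 2) := ⟨Nat.prime_two⟩
  haveI : Fintype (G ⧸ M) := Fintype.ofFinite _
  have hZ := zassenhaus hF hns hM hne h2
  have hodd := card_odd hF hns hM hne h2
  haveI := Cfsg.Agent.S0338.result hZ hodd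
  rcases SzU.odd_degree_classify hZ hodd with ⟨K, iK, iKf, hchar, hcard, ⟨e⟩⟩ | h
  swap
  · exact Or.inr h
  left
  haveI : CharP K 2 := ringChar.of_eq hchar
  obtain ⟨n, -, hn⟩ := FiniteField.card K 2
  have hn' : Fintype.card K = 2 ^ (n : ℕ) := hn
  refine ⟨K, iK, iKf, ⟨n, ?_, hn'⟩, ?_⟩
  · -- the field has more than two elements
    by_contra hlt
    have hn1 : (n : ℕ) = 1 := by have := n.pos; omega
    rw [hn', hn1] at hcard
    obtain ⟨z, hz⟩ := exists_prime_orderOf_dvd_card' (G := F M) 2 h2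
    obtain ⟨p, q, r, hpq, hqr, hpr⟩ := three_points hF hns hM hne h2
    obtain ⟨y, hy⟩ : ∃ y : G ⧸ M, y ≠ ((1 : G) : G ⧸ M) := by
      by_cases hp : p = ((1 : G) : G ⧸ M)
      · exact ⟨q, fun e => hpq (hp.trans e.symm)⟩
      · exact ⟨p, hp⟩
    have hinj : Function.Injective fun f : F M =>
        (⟨(f : G) • y, fun e => hy (smul_left_cancel (f : G)
          (e.trans (H50.smul_one_coset_eq_iff.2 ((hF M hM).1 f.2)).symm))⟩ :
          {p : G ⧸ M // p ≠ ((1 : G) : G ⧸ M)}) := by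
      intro f f' h
      have h' : (f : G) • y = (f' : G) • y := congrArg Subtype.val h
      refine Subtype.ext (inv_mul_eq_one.1 (base_inj hF hM hne hy (d := (f : G)⁻¹ * f')
        ⟨H50.smul_one_coset_eq_iff.2 (mul_mem (inv_mem ((hF M hM).1 f.2)) ((hF M hM).1 f'.2)), ?_⟩
        (mul_mem (inv_mem f.2) f'.2)))
      show ((f : G)⁻¹ * f') • y = y
      rw [mul_smul, ← h', inv_smul_smul]
    letI : Fintype (F M) := Fintype.ofFinite _
    have hle := Fintype.card_le_of_injective _ hinj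
    rw [Fintype.card_subtype_compl, Fintype.card_subtype_eq, ← Nat.card_eq_fintype_card (α := F M)] at hle
    have hF2 : Nat.card (F M) = 2 := by
      have := Nat.le_of_dvd Nat.card_pos h2
      omega
    refine (lt_self hF hns hM hne).not_ge fun m hm => ?_
    refine centralizer_le hF hM hne z.2 (fun e => ?_) ?_
    · rw [← Subgroup.orderOf_coe, e, orderOf_one] at hz
      omega
    have hz1 : z ≠ 1 := fun e => by rw [e, orderOf_one] at hz; omega
    have hm1 : (⟨m * z * m⁻¹, conj_mem hF hM hne hm z.2⟩ : F M) ≠ 1 := fun e =>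
      hz1 (Subtype.ext (conj_eq_one_iff.1 (congrArg Subtype.val e)))
    obtain ⟨w, -, hw⟩ := (Nat.card_eq_two_iff' (1 : F M)).1 hF2
    exact mul_inv_eq_iff_eq_mul.1 (congrArg Subtype.val ((hw _ hm1).trans (hw _ hz1).symm))
  · have hcen : Subgroup.center (Matrix.SpecialLinearGroup (Fin 2) K) = ⊥ := by
      refine Subgroup.card_eq_one.1 ?_
      rw [H6.card_center_sl2 hn']
      refine Nat.prime_two.coprime_iff_not_dvd.2 fun hd => ?_
      have h1 : 2 ∣ 2 ^ (n : ℕ) := dvd_pow_self 2 n.ne_zero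
      have h3 : 1 ≤ 2 ^ (n : ℕ) := Nat.one_le_two_pow
      omega
    let π := QuotientGroup.mk' (Subgroup.center (Matrix.SpecialLinearGroup (Fin 2) K))
    have hπ : Function.Bijective π :=
      ⟨(MonoidHom.ker_eq_bot_iff _).1 (by rw [QuotientGroup.ker_mk', hcen]),
        QuotientGroup.mk'_surjective _⟩
    exact ⟨e.trans (MulEquiv.ofBijective π hπ).symm⟩

end Even

/-- Groups with a Frobenius system. -/
theorem main (hF : Sys F) :
    Group.IsSolvable G ∨
      (∃ (K : Type) (_ : Field K) (_ : Fintype K), (∃ n : ℕ, 2 ≤ n ∧ Fintype.card K = 2 ^ n) ∧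
        Nonempty (G ≃* Matrix.SpecialLinearGroup (Fin 2) K)) ∨
      Cfsg.Lie.IsoSuzuki G := by
  by_cases hs : Group.IsSolvable G
  · exact Or.inl hs
  obtain ⟨M, hM, hne, h2⟩ := exists_even hF hs
  exact Or.inr (classify hF hs hM hne h2)

end Cfsg.Agent.H7.FrobSys
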