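import Mathlib.Combinatorics.SimpleGraph.Diam
import Cfsg.Agent.H6.Exist
import Cfsg.Agent.H6.Applications

/-!
The odd-product graph on the involutions of `PSL₂(q)` has diameter two.
-/

set_option autoImplicit false
set_option linter.style.haveILetI false

namespace Cfsg.Agent.H7

open scoped MatrixGroups

section general

variable {G : Type*} [Group G]

theorem orderOf_mul_rev (a b : G) : orderOf (a * b) = orderOf (b * a) := by
  rw [show b * a = MulAut.conj b (a * b) by simp [mul_assoc], (MulAut.conj b).orderOf_eq]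

/-- A graph given by odd products in which any two vertices have a common neighbour or are equal. -/
theorem oddProduct_connected_diam_two {P : G → Prop}
    (hpath : ∀ x y, P x → P y → ∃ z, P z ∧ Odd (orderOf (x * z)) ∧ Odd (orderOf (y * z)))
    (hnon : ∃ x y, P x ∧ P y ∧ x ≠ y ∧ ¬ Odd (orderOf (x * y))) :
    (SimpleGraph.fromRel fun x y : {x : G // P x} => Odd (orderOf (x.1 * y.1))).Connected ∧
      (SimpleGraph.fromRel fun x y : {x : G // P x} => Odd (orderOf (x.1 * y.1))).diam = 2 := by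
  set Γ := SimpleGraph.fromRel fun x y : {x : G // P x} => Odd (orderOf (x.1 * y.1)) with hΓ
  obtain ⟨a, b, ha, hb, hab, hodd⟩ := hnon
  haveI : Nonempty {x : G // P x} := ⟨⟨a, ha⟩⟩
  have hadj : ∀ x y, Γ.Adj x y ↔ x ≠ y ∧ Odd (orderOf (x.1 * y.1)) := fun x y => by
    rw [hΓ, SimpleGraph.fromRel_adj, orderOf_mul_rev y.1, or_self]
  have h2 : ∀ x y, Γ.edist x y ≤ 2 := by
    intro x y
    by_cases hxy : x = y
    · simp [hxy]
    by_cases hA : Odd (orderOf (x.1 * y.1))
    · rw [SimpleGraph.edist_eq_one_iff_adj.2 ((hadj x y).2 ⟨hxy, hA⟩)]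
      exact one_le_two
    obtain ⟨z, hz, hxz, hyz⟩ := hpath x.1 y.1 x.2 y.2
    have hzx : x ≠ ⟨z, hz⟩ := by
      rintro rfl
      rw [orderOf_mul_rev] at hyz
      exact hA hyz
    have hzy : y ≠ ⟨z, hz⟩ := by
      rintro rfl
      exact hA hxz
    have h1 : Γ.Adj x ⟨z, hz⟩ := (hadj _ _).2 ⟨hzx, hxz⟩
    have h3 : Γ.Adj ⟨z, hz⟩ y := ((hadj _ _).2 ⟨hzy, hyz⟩).symm
    exact (SimpleGraph.edist_le (h1.toWalk.append h3.toWalk)).trans (le_of_eq (by simp))
  have hne : Γ.ediam ≠ ⊤ := ne_top_of_le_ne_top (by simp) (SimpleGraph.ediam_le_of_edist_le h2)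
  refine ⟨SimpleGraph.connected_of_ediam_ne_top hne, ?_⟩
  have hle : Γ.ediam ≤ 2 := SimpleGraph.ediam_le_of_edist_le h2
  have h0 : Γ.edist ⟨a, ha⟩ ⟨b, hb⟩ ≠ 0 := fun h =>
    hab (congrArg Subtype.val (SimpleGraph.edist_eq_zero_iff.1 h))
  have h1 : Γ.edist ⟨a, ha⟩ ⟨b, hb⟩ ≠ 1 := fun h =>
    hodd ((hadj _ _).1 (SimpleGraph.edist_eq_one_iff_adj.1 h)).2
  have hge : (2 : ℕ∞) ≤ Γ.edist ⟨a, ha⟩ ⟨b, hb⟩ := by
    revert h0 h1
    generalize Γ.edist ⟨a, ha⟩ ⟨b, hb⟩ = e
    intro h0 h1
    induction e using ENat.recTopCoe with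
    | top => exact le_top
    | coe n =>
      have : n ≠ 0 := fun e => h0 (by simp [e])
      have : n ≠ 1 := fun e => h1 (by simp [e])
      exact_mod_cast (show 2 ≤ n by omega)
  show Γ.ediam.toNat = 2
  rw [le_antisymm hle (hge.trans SimpleGraph.edist_le_ediam)]
  rfl

theorem not_odd_orderOf_commuting {x y : G} (hx : orderOf x = 2) (hy : orderOf y = 2) (hne : x ≠ y)
    (hc : x * y = y * x) : ¬ Odd (orderOf (x * y)) := by
  intro h
  have hxx : x * x = 1 := by rw [← pow_two, ← hx, pow_orderOf_eq_one]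
  have hyy : y * y = 1 := by rw [← pow_two, ← hy, pow_orderOf_eq_one]
  have h2 : (x * y) ^ 2 = 1 := by rw [(show Commute x y from hc).mul_pow, pow_two, pow_two, hxx, hyy, mul_one]
  have hd : orderOf (x * y) ∣ 2 := orderOf_dvd_of_pow_eq_one h2
  have h1 : orderOf (x * y) = 1 := by
    rcases (Nat.dvd_prime Nat.prime_two).1 hd with e | e
    · exact e
    · rw [e] at h; exact absurd h (by decide)
  rw [orderOf_eq_one_iff, mul_eq_one_iff_eq_inv] at h1
  exact hne (h1.trans (inv_eq_of_mul_eq_one_right hyy))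

end general

section counting

variable {F : Type*} [Field F] [Fintype F]

/-- More than half of all field elements are of the form `(v + v⁻¹) / 2`. -/
theorem card_half_sums (h2 : (2 : F) ≠ 0) :
    Fintype.card F + 1 ≤ 2 * Nat.card {x : F // ∃ v : F, v ≠ 0 ∧ 2 * x = v + v⁻¹} := by
  classical
  set S : Finset F := Finset.univ.filter fun x => ∃ v : F, v ≠ 0 ∧ 2 * x = v + v⁻¹ with hS
  rw [Nat.card_eq_fintype_card, Fintype.card_subtype, ← hS]
  set f : F → F := fun v => (v + v⁻¹) / 2 with hf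
  have hfi : ∀ v, v ∈ (Finset.univ : Finset F).erase 0 → f v ∈ S := fun v hv => by
    rw [hS, Finset.mem_filter]
    exact ⟨Finset.mem_univ _, v, (Finset.mem_erase.1 hv).1, by rw [hf]; field_simp⟩
  set U : Finset F := (((Finset.univ : Finset F).erase 0).erase 1).erase (-1) with hU
  have hne : (1 : F) ≠ -1 := fun e => h2 (by linear_combination e)
  have hUc : U.card + 3 = Fintype.card F := by
    rw [hU]
    have h1 : (1 : F) ∈ (Finset.univ : Finset F).erase 0 := Finset.mem_erase.2 ⟨one_ne_zero, Finset.mem_univ _⟩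
    have hm : (-1 : F) ∈ ((Finset.univ : Finset F).erase 0).erase 1 :=
      Finset.mem_erase.2 ⟨hne.symm, Finset.mem_erase.2 ⟨neg_ne_zero.2 one_ne_zero, Finset.mem_univ _⟩⟩
    have e1 := Finset.card_erase_add_one hm
    have e2 := Finset.card_erase_add_one h1
    have e3 := Finset.card_erase_add_one (Finset.mem_univ (0 : F))
    rw [← Finset.card_univ]
    omega
  set T : Finset F := (S.erase 1).erase (-1) with hT
  have h1S : (1 : F) ∈ S := by
    rw [hS, Finset.mem_filter]; exact ⟨Finset.mem_univ _, 1, one_ne_zero, by ring⟩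
  have hmS : (-1 : F) ∈ S.erase 1 := by
    refine Finset.mem_erase.2 ⟨hne.symm, ?_⟩
    rw [hS, Finset.mem_filter]
    exact ⟨Finset.mem_univ _, -1, neg_ne_zero.2 one_ne_zero, by rw [inv_neg, inv_one]; ring⟩
  have hTc : T.card + 2 = S.card := by
    have e1 := Finset.card_erase_add_one hmS
    have e2 := Finset.card_erase_add_one h1S
    rw [hT]; omega
  have hmap : ∀ v ∈ U, f v ∈ T := by
    intro v hv
    rw [hU, Finset.mem_erase, Finset.mem_erase] at hv
    have hv0 : v ≠ 0 := (Finset.mem_erase.1 hv.2.2).1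
    rw [hT, Finset.mem_erase, Finset.mem_erase]
    refine ⟨fun e => hv.1 ?_, fun e => hv.2.1 ?_, hfi v hv.2.2⟩
    · have h : (v + 1) * (v + 1) = 0 := by
        rw [hf] at e; field_simp at e; linear_combination e
      linear_combination mul_self_eq_zero.1 h
    · have h : (v - 1) * (v - 1) = 0 := by
        rw [hf] at e; field_simp at e; linear_combination e
      linear_combination mul_self_eq_zero.1 h
  have hle : U.card ≤ 2 * T.card := by
    refine Finset.card_le_mul_card_image_of_maps_to hmap 2 fun b _ => ?_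
    rcases Finset.eq_empty_or_nonempty (U.filter fun v => f v = b) with e | ⟨v, hv⟩
    · rw [e]; simp
    refine le_trans (Finset.card_le_card (t := {v, v⁻¹}) ?_) Finset.card_le_two
    intro w hw
    rw [Finset.mem_filter] at hv hw
    have hv0 : v ≠ 0 := (Finset.mem_erase.1 (Finset.mem_erase.1 (Finset.mem_erase.1 hv.1).2).2).1
    have hw0 : w ≠ 0 := (Finset.mem_erase.1 (Finset.mem_erase.1 (Finset.mem_erase.1 hw.1).2).2).1
    have e : (v + v⁻¹) / 2 = (w + w⁻¹) / 2 := hv.2.trans hw.2.symm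
    have h : (w - v) * (w * v - 1) = 0 := by
      field_simp at e; linear_combination (-1 : F) * e
    rw [Finset.mem_insert, Finset.mem_singleton]
    rcases mul_eq_zero.1 h with h | h
    · exact Or.inl (sub_eq_zero.1 h)
    · exact Or.inr (eq_inv_of_mul_eq_one_left (sub_eq_zero.1 h))
  omega

/-- If `-1` is no square, `K - x²` is a square for more than half of all `x`. -/
theorem card_sub_sq_isSquare (hm : ¬ IsSquare (-1 : F)) {K : F} (hK : K ≠ 0) :
    Fintype.card F + 1 ≤ 2 * Nat.card {x : F // IsSquare (K - x ^ 2)} := by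
  classical
  have h2 : (2 : F) ≠ 0 := fun h => hm ⟨1, by linear_combination (-1 : F) * h⟩
  set E : Finset F := Finset.univ.filter fun x => IsSquare (K - x ^ 2) with hE
  rw [Nat.card_eq_fintype_card, Fintype.card_subtype, ← hE]
  set B : Finset F := Finset.univ.filter fun x => ¬ IsSquare (K - x ^ 2) with hB
  have hsum : E.card + B.card = Fintype.card F := by
    rw [hE, hB, Finset.card_filter_add_card_filter_not, Finset.card_univ]
  set U : Finset F := (Finset.univ : Finset F).erase 0 with hU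
  set f : F → F := fun u => (u + K / u) / 2 with hf
  have hUc : U.card + 1 = Fintype.card F := by
    rw [hU, Finset.card_erase_add_one (Finset.mem_univ _), Finset.card_univ]
  have hle : B.card * 2 ≤ U.card := by
    have key : ∀ b ∈ B, 2 ≤ (U.filter fun u => f u = b).card := by
      intro b hb
      rw [hB, Finset.mem_filter] at hb
      have h := hb.2
      have hsq : IsSquare (b ^ 2 - K) := by
        have hn : quadraticChar F (K - b ^ 2) = -1 := quadraticChar_neg_one_iff_not_isSquare.2 h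
        have hn1 : quadraticChar F (-1 : F) = -1 := quadraticChar_neg_one_iff_not_isSquare.2 hm
        have h0 : b ^ 2 - K ≠ 0 := fun e => h ⟨0, by linear_combination (-1 : F) * e⟩
        refine (quadraticChar_one_iff_isSquare h0).1 ?_
        rw [show b ^ 2 - K = (-1) * (K - b ^ 2) by ring, map_mul, hn, hn1]; norm_num
      obtain ⟨t, ht⟩ := hsq
      have ht0 : t ≠ 0 := fun e => h ⟨0, by rw [e] at ht; linear_combination (-1 : F) * ht⟩
      refine Finset.one_lt_card.2 ⟨b - t, ?_, b + t, ?_, fun e => ht0 ?_⟩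
      · have hbt : b - t ≠ 0 := fun e => hK (by linear_combination (-1 : F) * ht + (b + t) * e)
        rw [Finset.mem_filter, hU]
        refine ⟨Finset.mem_erase.2 ⟨hbt, Finset.mem_univ _⟩, ?_⟩
        rw [hf]; field_simp; linear_combination (-1 : F) * ht
      · have hbt : b + t ≠ 0 := fun e => hK (by linear_combination (-1 : F) * ht + (b - t) * e)
        rw [Finset.mem_filter, hU]
        refine ⟨Finset.mem_erase.2 ⟨hbt, Finset.mem_univ _⟩, ?_⟩
        rw [hf]; field_simp; linear_combination (-1 : F) * ht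
      · exact (mul_eq_zero.1 (show (2 : F) * t = 0 by linear_combination (-1 : F) * e)).resolve_left h2
    calc B.card * 2 = ∑ _b ∈ B, 2 := by rw [Finset.sum_const, smul_eq_mul]
      _ ≤ ∑ b ∈ B, (U.filter fun u => f u = b).card := Finset.sum_le_sum key
      _ = (B.biUnion fun b => U.filter fun u => f u = b).card := by
        rw [Finset.card_biUnion]
        intro i _ j _ hij
        exact Finset.disjoint_left.2 fun u h1 h2 =>
          hij ((Finset.mem_filter.1 h1).2.symm.trans (Finset.mem_filter.1 h2).2)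
      _ ≤ U.card := Finset.card_le_card fun u hu => by
        obtain ⟨b, -, hb⟩ := Finset.mem_biUnion.1 hu
        exact (Finset.mem_filter.1 hb).1
  omega

/-- Two subsets of a finite type with more than half of the elements each meet. -/
theorem exists_both {α : Type*} [Finite α] {P Q : α → Prop}
    (hP : Nat.card α + 1 ≤ 2 * Nat.card {x // P x}) (hQ : Nat.card α + 1 ≤ 2 * Nat.card {x // Q x}) :
    ∃ x, P x ∧ Q x := by
  by_contra h
  push Not at h
  have hinj : Function.Injective (Sum.elim (Subtype.val : {x // P x} → α) (Subtype.val : {x // Q x} → α)) :=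
    Subtype.val_injective.sumElim Subtype.val_injective fun a b e => h a.1 a.2 (e ▸ b.2)
  have := Nat.card_le_card_of_injective _ hinj
  rw [Nat.card_sum] at this
  omega

end counting

variable {F : Type*} [Field F] [Fintype F]

/-- The involutions of `PSL₂(q)` are conjugate. -/
theorem psl2_isConj_involutions {x y : PSL(2, F)} (hx : orderOf x = 2) (hy : orderOf y = 2) :
    IsConj x y := by
  by_cases h2 : (2 : F) = 0
  swap
  · exact H6.isConj_involutions h2 hx hy
  have key : ∀ x : PSL(2, F), orderOf x = 2 → ∃ g : SL(2, F), H6.π g = x ∧ H6.tr g = 0 ∧ ¬ H6.IsScal g := by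
    intro x hx
    obtain ⟨g, rfl⟩ := H6.π_surjective x
    refine ⟨g, rfl, ?_, fun hs => ?_⟩
    · refine (H6.mul_self_eq_one_iff_two h2).1 (H6.π_injective_of_two h2 ?_)
      have h := pow_orderOf_eq_one (H6.π g)
      rw [hx, pow_two] at h
      rwa [map_mul, map_one]
    · rw [H6.π_eq_one_iff_isScal.2 hs, orderOf_one] at hx
      omega
  obtain ⟨g, rfl, hg, hgs⟩ := key x hx
  obtain ⟨h, rfl, hh, hhs⟩ := key y hy
  exact H6.π.map_isConj (H6.isConj_of_tr_eq hgs hhs (Or.inr h2) (hg.trans hh.symm))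

/-- In even characteristic, involutions with a product of even order commute. -/
theorem odd_or_commute_of_two (h2 : (2 : F) = 0) (g h : SL(2, F)) (hg : g * g = 1) (hh : h * h = 1) :
    Odd (orderOf (g * h)) ∨ g * h = h * g := by
  by_cases ht : H6.tr (g * h) ^ 2 = 4
  · right
    have ht0 : H6.tr (g * h) = 0 := by
      have : H6.tr (g * h) ^ 2 = 0 := by rw [ht, show (4 : F) = 2 * 2 by norm_num, h2, mul_zero]
      exact pow_eq_zero_iff two_ne_zero |>.1 this
    have e := (H6.mul_self_eq_one_iff_two h2).2 ht0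
    calc g * h = (g * h)⁻¹ := (inv_eq_of_mul_eq_one_right e).symm
      _ = h * g := by rw [_root_.mul_inv_rev, inv_eq_of_mul_eq_one_right hg, inv_eq_of_mul_eq_one_right hh]
  · left
    have hd := Subgroup.orderOf_dvd_natCard _ (H6.self_mem_cent (g * h))
    refine Nat.Coprime.odd_of_left ?_
    refine Nat.Coprime.coprime_dvd_right hd ?_
    have hev : Even (Fintype.card F) := by
      rw [Nat.even_iff]
      refine FiniteField.even_card_of_char_two ?_
      obtain ⟨p, hpc⟩ := CharP.exists F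
      haveI : Fact p.Prime := ⟨CharP.char_is_prime F p⟩
      obtain rfl : p = 2 := (Nat.prime_dvd_prime_iff_eq Fact.out Nat.prime_two).1
        ((CharP.cast_eq_zero_iff F p 2).1 (by exact_mod_cast h2))
      exact ringChar.eq F 2
    have hq1 : 1 < Fintype.card F := Fintype.one_lt_card
    rcases H6.card_cent_ss ht with ⟨-, e⟩ | ⟨-, e⟩ <;> rw [e, Nat.coprime_two_left, Nat.odd_iff] <;>
      rw [Nat.even_iff] at hev <;> omega

/-- A common neighbour in even characteristic. -/
theorem exists_neighbour_two (h2 : (2 : F) = 0) (x y : PSL(2, F)) (hx : orderOf x = 2)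
    (hy : orderOf y = 2) :
    ∃ z, orderOf z = 2 ∧ Odd (orderOf (x * z)) ∧ Odd (orderOf (y * z)) := by
  have hmem : ∀ a : PSL(2, F), orderOf a = 2 → a * a = 1 := fun a ha => by
    have h := pow_orderOf_eq_one a
    rwa [ha, pow_two] at h
  have hdich : ∀ a b : PSL(2, F), a * a = 1 → b * b = 1 → Odd (orderOf (a * b)) ∨ a * b = b * a := by
    intro a b ha hb
    obtain ⟨g, rfl⟩ := H6.π_surjective a
    obtain ⟨h, rfl⟩ := H6.π_surjective b
    have inj := H6.π_injective_of_two (F := F) h2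
    rcases odd_or_commute_of_two h2 g h (inj (by rw [map_mul, map_one, ha]))
      (inj (by rw [map_mul, map_one, hb])) with e | e
    · exact Or.inl (by rw [← map_mul, orderOf_injective _ inj]; exact e)
    · exact Or.inr (by rw [← map_mul, ← map_mul, e])
  by_cases hxy : Odd (orderOf (x * y))
  · refine ⟨x, hx, ?_, ?_⟩
    · rw [hmem x hx, orderOf_one]; exact odd_one
    · rwa [orderOf_mul_rev]
  have hc := (hdich x y (hmem x hx) (hmem y hy)).resolve_left hxy
  -- an involution not commuting with `x`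
  have hsl : (H6.comp (0 : F)) * H6.comp 0 = 1 := (H6.mul_self_eq_one_iff_two h2).2 (H6.tr_comp 0)
  have hup : (H6.up (1 : F)) * H6.up 1 = 1 := (H6.mul_self_eq_one_iff_two h2).2 (by rw [H6.tr_up, h2])
  have ord : ∀ g : SL(2, F), g * g = 1 → ¬ H6.IsScal g → orderOf (H6.π g) = 2 := fun g hg hs =>
    orderOf_eq_prime (by rw [pow_two, ← map_mul, hg, map_one])
      fun e => hs (H6.π_eq_one_iff_isScal.1 e)
  have hne : H6.π (H6.comp (0 : F)) * H6.π (H6.up 1) ≠ H6.π (H6.up 1) * H6.π (H6.comp 0) := by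
    intro e
    rw [← map_mul, ← map_mul] at e
    have := congrArg (fun g : SL(2, F) => g 0 0) (H6.π_injective_of_two h2 e)
    simp only [H6.sl2_mul] at this
    simp [H6.comp, H6.up, H6.sl2] at this
  obtain ⟨c, hcx⟩ := isConj_iff.1 (psl2_isConj_involutions
    (ord _ hsl (H6.not_isScal_comp 0)) hx)
  set z := c * H6.π (H6.up (1 : F)) * c⁻¹ with hz
  have hzo : orderOf z = 2 := by
    rw [hz, show c * H6.π (H6.up (1 : F)) * c⁻¹ = MulAut.conj c (H6.π (H6.up 1)) from rfl,
      (MulAut.conj c).orderOf_eq]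
    exact ord _ hup (H6.not_isScal_up one_ne_zero)
  have hxz : x * z ≠ z * x := by
    intro e
    apply hne
    rw [hz, ← hcx] at e
    refine mul_left_cancel (a := c) (mul_right_cancel (b := c⁻¹) ?_)
    calc c * (H6.π (H6.comp (0 : F)) * H6.π (H6.up 1)) * c⁻¹
        = c * H6.π (H6.comp 0) * c⁻¹ * (c * H6.π (H6.up 1) * c⁻¹) := by group
      _ = c * H6.π (H6.up 1) * c⁻¹ * (c * H6.π (H6.comp 0) * c⁻¹) := e
      _ = c * (H6.π (H6.up (1 : F)) * H6.π (H6.comp 0)) * c⁻¹ := by group
  refine ⟨z, hzo, (hdich x z (hmem x hx) (hmem z hzo)).resolve_right hxz,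
    (hdich y z (hmem y hy) (hmem z hzo)).resolve_right fun hyz => hxz ?_⟩
  obtain ⟨a, rfl⟩ := H6.π_surjective x
  obtain ⟨b, rfl⟩ := H6.π_surjective y
  obtain ⟨w, hw⟩ := H6.π_surjective z
  rw [← hw] at hyz ⊢
  have inj := H6.π_injective_of_two (F := F) h2
  have hbs : ¬ H6.IsScal b := fun e => by
    rw [H6.π_eq_one_iff_isScal.2 e, orderOf_one] at hy; omega
  rw [← map_mul, ← map_mul, H6.cent_commute hbs
    (H6.mem_cent.2 (inj (by rw [map_mul, map_mul]; exact hc.symm)))
    (H6.mem_cent.2 (inj (by rw [map_mul, map_mul]; exact hyz)))]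

/-- Split elements have odd order when `q ≡ 3 (mod 4)`; elements with trace `±2` always. -/
theorem odd_of_trace (h2 : (2 : F) ≠ 0) {g : SL(2, F)} {v : F} (hv : v ≠ 0)
    (htr : H6.tr g = v + v⁻¹) (h : Fintype.card F % 4 = 3 ∨ H6.tr g ^ 2 = 4) :
    Odd (orderOf (H6.π g)) := by
  by_cases h1 : H6.π g = 1
  · rw [h1, orderOf_one]; exact odd_one
  obtain ⟨p, hpc⟩ := CharP.exists F
  haveI : Fact p.Prime := ⟨CharP.char_is_prime F p⟩
  by_cases ht : H6.tr g ^ 2 = 4
  · rw [H6.orderOf_eq_of_not_isSS p h1 (fun hs => H6.isSS_π.1 hs ht)]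
    refine (Fact.out : p.Prime).odd_of_ne_two fun e => h2 ?_
    subst e
    exact_mod_cast CharP.cast_eq_zero F 2
  have h4 := h.resolve_right ht
  have hd := Subgroup.orderOf_dvd_natCard _ (H6.self_mem_tor g)
  have hm := H6.card_tor_mul (F := F) rfl g
  rw [Nat.gcd_eq_left (show 2 ∣ Fintype.card F - 1 by omega)] at hm
  refine Odd.of_dvd_nat ?_ hd
  rcases H6.card_cent_ss ht with ⟨-, e⟩ | ⟨hns, -⟩
  · rw [e] at hm
    rw [Nat.odd_iff]
    omega
  · exact absurd ⟨v, by rw [htr]; field_simp; ring⟩ hns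

/-- The key step: a common neighbour of the standard involution and any other one. -/
theorem exists_neighbour_base (h2 : (2 : F) ≠ 0) (h5 : 4 ≤ Fintype.card F) {h : SL(2, F)}
    (ht : H6.tr h = 0) :
    ∃ k : SL(2, F), H6.tr k = 0 ∧ Odd (orderOf (H6.π (H6.comp 0 * k))) ∧
      Odd (orderOf (H6.π (h * k))) := by
  have hq := H6.odd_of_two_ne (q := Fintype.card F) rfl h2
  by_cases hpm : H6.π h = H6.π (H6.comp 0)
  · refine ⟨H6.comp 0, H6.tr_comp 0, ?_, ?_⟩ <;>
    · simp only [map_mul, hpm]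
      rw [← map_mul, (H6.sq_neg_one_iff h2).2 (H6.tr_comp 0), H6.π_neg, map_one, orderOf_one]
      exact odd_one
  have hd : h 0 0 ≠ 0 ∨ h 0 1 + h 1 0 ≠ 0 := by
    by_contra hh
    push Not at hh
    obtain ⟨h0, h1⟩ := hh
    have hdet := H6.sl2_det h
    have h11 : h 1 1 = 0 := by
      have : H6.tr h = h 0 0 + h 1 1 := rfl
      rw [ht, h0, zero_add] at this
      exact this.symm
    have h10 : h 1 0 = - h 0 1 := by linear_combination h1
    rw [h0, h10] at hdet
    rcases mul_self_eq_one_iff.1 (show h 0 1 * h 0 1 = 1 by linear_combination hdet) with e | e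
    · refine hpm ((H6.π_neg _).symm.trans (congrArg H6.π ?_))
      apply H6.sl2_ext <;> simp [H6.sl2_neg, H6.comp, H6.sl2, h0, h11, h10, e]
    · refine hpm (congrArg H6.π ?_)
      apply H6.sl2_ext <;> simp [H6.comp, H6.sl2, h0, h11, h10, e]
  have h11 : h 1 1 = - h 0 0 := by
    have : H6.tr h = h 0 0 + h 1 1 := rfl
    rw [ht] at this
    linear_combination (-1 : F) * this
  have trk : ∀ (u v w : F) (hdet : u * (-u) - v * w = 1),
      H6.tr (H6.sl2 u v w (-u) hdet) = 0 ∧
      H6.tr (H6.comp 0 * H6.sl2 u v w (-u) hdet) = v - w ∧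
      H6.tr (h * H6.sl2 u v w (-u) hdet) = 2 * h 0 0 * u + h 0 1 * w + h 1 0 * v := by
    intro u v w hdet
    refine ⟨by simp [H6.tr, H6.sl2], ?_, ?_⟩
    · simp only [H6.tr, H6.sl2_mul]; simp [H6.comp, H6.sl2]; ring
    · simp only [H6.tr, H6.sl2_mul]; simp [H6.sl2, h11]; ring
  by_cases h4 : Fintype.card F % 4 = 3
  swap
  · -- unipotent products
    obtain ⟨i, hi⟩ := FiniteField.isSquare_neg_one_iff.2 h4
    obtain ⟨j, hj, hco⟩ : ∃ j : F, j * j = -1 ∧ 2 * j * h 0 0 + h 0 1 + h 1 0 ≠ 0 := by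
      by_cases hco : 2 * i * h 0 0 + h 0 1 + h 1 0 = 0
      · refine ⟨-i, by rw [neg_mul_neg]; exact hi.symm, fun e => ?_⟩
        rcases hd with hd | hd
        · have hi0 : i ≠ 0 := fun e => by rw [e, mul_zero] at hi; exact neg_ne_zero.2 one_ne_zero hi
          exact mul_ne_zero (mul_ne_zero (mul_ne_zero h2 h2) hi0) hd (by linear_combination hco - e)
        · exact mul_ne_zero h2 hd (by linear_combination hco + e)
      · exact ⟨i, hi.symm, hco⟩
    set t : F := (2 - (h 1 0 - h 0 1)) / (2 * j * h 0 0 + h 0 1 + h 1 0) with htdef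
    have htc : t * (2 * j * h 0 0 + h 0 1 + h 1 0) = 2 - (h 1 0 - h 0 1) := by
      rw [htdef]; field_simp
    have hdet : (j * t) * (-(j * t)) - (t + 1) * (t - 1) = 1 := by linear_combination (-(t * t)) * hj
    obtain ⟨k0, k1, k2⟩ := trk (j * t) (t + 1) (t - 1) hdet
    have e1 : H6.tr (H6.comp 0 * H6.sl2 (j * t) (t + 1) (t - 1) (-(j * t)) hdet) = 2 := by
      rw [k1]; ring
    have e2 : H6.tr (h * H6.sl2 (j * t) (t + 1) (t - 1) (-(j * t)) hdet) = 2 := by
      rw [k2]; linear_combination htc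
    refine ⟨_, k0, odd_of_trace h2 one_ne_zero (by rw [e1, inv_one]; norm_num) (Or.inr ?_),
      odd_of_trace h2 one_ne_zero (by rw [e2, inv_one]; norm_num) (Or.inr ?_)⟩
    · rw [e1]; norm_num
    · rw [e2]; norm_num
  -- split products
  have hm : ¬ IsSquare (-1 : F) := fun hs => FiniteField.isSquare_neg_one_iff.1 hs h4
  obtain ⟨v₀, hv0, hv1, hvm⟩ : ∃ v : F, v ≠ 0 ∧ v ≠ 1 ∧ v ≠ -1 := by
    classical
    obtain ⟨v, hv⟩ := Finset.exists_mem_notMem_of_card_lt_card
      (show ({0, 1, -1} : Finset F).card < (Finset.univ : Finset F).card from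
        lt_of_le_of_lt Finset.card_le_three (by rw [Finset.card_univ]; omega))
    simp only [Finset.mem_insert, Finset.mem_singleton, not_or] at hv
    exact ⟨v, hv.2.1, hv.2.2.1, hv.2.2.2⟩
  set s : F := v₀ + v₀⁻¹ with hs
  set ρ : F := (v₀ - v₀⁻¹) / 2 with hρ
  have h4n : (4 : F) ≠ 0 := by rw [show (4 : F) = 2 * 2 by norm_num]; exact mul_ne_zero h2 h2
  have hρs : ρ * ρ = s * s / 4 - 1 := by rw [hρ, hs]; field_simp; ring
  have hρ0 : ρ ≠ 0 := by
    intro e
    rw [hρ, div_eq_zero_iff] at e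
    have e := e.resolve_right h2
    field_simp at e
    rcases mul_self_eq_one_iff.1 (show v₀ * v₀ = 1 by linear_combination e) with e | e
    · exact hv1 e
    · exact hvm e
  set A : F := 2 * h 0 0 with hA
  set B : F := h 0 1 + h 1 0 with hB
  have hAB : A ≠ 0 ∨ B ≠ 0 := hd.imp (fun e => mul_ne_zero h2 e) id
  set D : F := A * A + B * B with hD
  have hD0 : D ≠ 0 := by
    intro e
    rw [hD] at e
    rcases hAB with ha | hb
    · exact hm ⟨B / A, by field_simp; linear_combination (-1 : F) * e⟩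
    · exact hm ⟨A / B, by field_simp; linear_combination (-1 : F) * e⟩
  set δ : F := s * (h 1 0 - h 0 1) / 2 with hδ
  have hE := card_sub_sq_isSquare hm (mul_ne_zero hD0 (mul_ne_zero hρ0 hρ0))
  have hgood := card_half_sums (F := F) h2
  rw [← Nat.card_eq_fintype_card (α := F)] at hE hgood
  have hgood' : Nat.card F + 1 ≤
      2 * Nat.card {e : F // ∃ v : F, v ≠ 0 ∧ e + δ = v + v⁻¹} := by
    refine hgood.trans (le_of_eq ?_)
    rw [Nat.card_congr (Equiv.subtypeEquiv
      ((Equiv.mulLeft₀ (2 : F) h2).trans (Equiv.addRight (-δ))) (p := fun x => ∃ v : F, v ≠ 0 ∧ 2 * x = v + v⁻¹)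
      (q := fun e => ∃ v : F, v ≠ 0 ∧ e + δ = v + v⁻¹) fun x => by simp)]
  obtain ⟨e, ⟨τ, hτ⟩, v, hv, hev⟩ := exists_both hE hgood'
  have hτ' : τ * τ = D * (ρ * ρ) - e ^ 2 := hτ.symm
  set u : F := (e * A + τ * B) / D with hu
  set w' : F := (e * B - τ * A) / D with hw'
  have hcirc : u * u + w' * w' = s * s / 4 - 1 := by
    rw [← hρs, hu, hw']
    field_simp
    rw [hD]
    linear_combination (A * A + B * B) * hτ' + (ρ * ρ) * (A * A + B * B) * hD
  have hlin : A * u + B * w' = e := by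
    rw [hu, hw']; field_simp; rw [hD]; ring
  set w : F := w' - s / 2 with hw
  have hdet : u * (-u) - (w + s) * w = 1 := by
    clear_value u w' s
    have e4 : s * s / 4 = s / 2 * (s / 2) := by field_simp; ring
    have e5 : w' - s / 2 + s = w' + s / 2 := by field_simp; ring
    rw [hw, e5]
    linear_combination (-1 : F) * hcirc - e4
  obtain ⟨k0, k1, k2⟩ := trk u (w + s) w hdet
  refine ⟨_, k0, odd_of_trace h2 hv0 (by rw [k1, ← hs]; ring) (Or.inl h4),
    odd_of_trace h2 hv (?_ ) (Or.inl h4)⟩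
  rw [k2, ← hev, ← hlin, hw, hA, hB, hδ]
  field_simp
  ring

/-- A common neighbour in odd characteristic. -/
theorem exists_neighbour_odd (h2 : (2 : F) ≠ 0) (h5 : 4 ≤ Fintype.card F) (x y : PSL(2, F))
    (hx : orderOf x = 2) (hy : orderOf y = 2) :
    ∃ z, orderOf z = 2 ∧ Odd (orderOf (x * z)) ∧ Odd (orderOf (y * z)) := by
  have h0 : orderOf (H6.π (H6.comp (0 : F))) = 2 := (H6.orderOf_π_eq_two_iff h2).2 (H6.tr_comp 0)
  obtain ⟨c, hc⟩ := isConj_iff.1 (psl2_isConj_involutions h0 hx)
  obtain ⟨h, hh⟩ := H6.π_surjective (c⁻¹ * y * c)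
  have hco : ∀ a : PSL(2, F), orderOf (c * a * c⁻¹) = orderOf a := fun a => (MulAut.conj c).orderOf_eq a
  have ht : H6.tr h = 0 := (H6.orderOf_π_eq_two_iff h2).1 (by
    rw [hh, ← hco, show c * (c⁻¹ * y * c) * c⁻¹ = y by group, hy])
  obtain ⟨k, hk, e1, e2⟩ := exists_neighbour_base h2 h5 ht
  refine ⟨c * H6.π k * c⁻¹, (hco _).trans ((H6.orderOf_π_eq_two_iff h2).2 hk), ?_, ?_⟩
  · rw [← hc, show c * H6.π (H6.comp (0 : F)) * c⁻¹ * (c * H6.π k * c⁻¹)
      = c * (H6.π (H6.comp 0) * H6.π k) * c⁻¹ by group, hco, ← map_mul]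
    exact e1
  · rw [show y * (c * H6.π k * c⁻¹) = c * ((c⁻¹ * y * c) * H6.π k) * c⁻¹ by group, hco, ← hh, ← map_mul]
    exact e2

/-- The odd-product graph of the involutions of `PSL₂(q)`, `q ≥ 4`, is connected of diameter two. -/
theorem psl2_oddProduct_graph (hF : 4 ≤ Fintype.card F) (t : PSL(2, F)) (ht : orderOf t = 2) :
    (SimpleGraph.fromRel fun x y : {x : PSL(2, F) // IsConj t x} =>
        Odd (orderOf (x.1 * y.1))).Connected ∧
      (SimpleGraph.fromRel fun x y : {x : PSL(2, F) // IsConj t x} =>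
        Odd (orderOf (x.1 * y.1))).diam = 2 := by
  have ho : ∀ x, IsConj t x → orderOf x = 2 := fun x hx => by
    obtain ⟨c, rfl⟩ := isConj_iff.1 hx
    rw [show c * t * c⁻¹ = MulAut.conj c t from rfl, (MulAut.conj c).orderOf_eq, ht]
  refine oddProduct_connected_diam_two (fun x y hx hy => ?_) ?_
  · obtain ⟨z, hz, h⟩ := (by
      by_cases h2 : (2 : F) = 0
      · exact exists_neighbour_two h2 x y (ho x hx) (ho y hy)
      · exact exists_neighbour_odd h2 hF x y (ho x hx) (ho y hy) :
      ∃ z, orderOf z = 2 ∧ Odd (orderOf (x * z)) ∧ Odd (orderOf (y * z)))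
    exact ⟨z, psl2_isConj_involutions ht hz, h⟩
  obtain ⟨a, b, ha, hb, hab, hc⟩ : ∃ a b : PSL(2, F), orderOf a = 2 ∧ orderOf b = 2 ∧ a ≠ b ∧
      a * b = b * a := by
    by_cases h2 : (2 : F) = 0
    · classical
      obtain ⟨v, hv⟩ := Finset.exists_mem_notMem_of_card_lt_card
        (show ({0, 1} : Finset F).card < (Finset.univ : Finset F).card from
          lt_of_le_of_lt Finset.card_le_two (by rw [Finset.card_univ]; omega))
      simp only [Finset.mem_insert, Finset.mem_singleton, not_or] at hv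
      have ord : ∀ a : F, a ≠ 0 → orderOf (H6.π (H6.up a)) = 2 := fun a ha =>
        orderOf_eq_prime (by rw [pow_two, ← map_mul, (H6.mul_self_eq_one_iff_two h2).2
          (by rw [H6.tr_up, h2]), map_one]) fun e => ha (H6.π_up_eq_one_iff.1 e)
      refine ⟨_, _, ord 1 one_ne_zero, ord v hv.2.1, fun e => hv.2.2 (H6.π_up_eq_iff.1 e).symm, ?_⟩
      rw [← map_mul, ← map_mul, ← H6.up_add, ← H6.up_add, add_comm]
    · obtain ⟨V, hV⟩ := H6.exists_four (F := F) h2
      obtain ⟨a, ha, ha1⟩ := H29.exists_ne_one_of_one_lt_card (A := V) (by rw [hV.card_four]; norm_num)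
      obtain ⟨b, hb, hb1, hba⟩ := H29.exists_mem_ne_ne (A := V) (by rw [hV.card_four]; norm_num) a
      refine ⟨a, b, orderOf_eq_prime (H29.sq_eq_one_of_mem_kleinFour ha) ha1,
        orderOf_eq_prime (H29.sq_eq_one_of_mem_kleinFour hb) hb1, hba.symm, ?_⟩
      have hi : ∀ u ∈ V, u⁻¹ = u := fun u hu =>
        inv_eq_of_mul_eq_one_right (by rw [← pow_two]; exact H29.sq_eq_one_of_mem_kleinFour hu)
      calc a * b = (a * b)⁻¹ := (hi _ (mul_mem ha hb)).symm
        _ = b * a := by rw [_root_.mul_inv_rev, hi a ha, hi b hb]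
  exact ⟨a, b, psl2_isConj_involutions ht ha, psl2_isConj_involutions ht hb, hab,
    not_odd_orderOf_commuting ha hb hab hc⟩

end Cfsg.Agent.H7
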