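import Cfsg.Agent.H7.ZassBasic
import Cfsg.Agent.H21.UniqueSubgroup
import Cfsg.Agent.H50.InvolutionCAField

/-!
A doubly transitive group in which only the identity fixes three points, with nontrivial two-point stabilisers and a
regular normal subgroup, has degree `2 ^ p` with `p` prime.
-/

set_option autoImplicit false

namespace Cfsg.Agent.H7

open MulAction

universe u v

/-- An automorphism of a field with `2^k` elements whose nontrivial powers only fix the prime field forces `k` prime. -/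
theorem prime_of_aut_fixed_points {F : Type*} [Field F] [Finite F] {k : ℕ} (hk : 2 ≤ k) (hcard : Nat.card F = 2 ^ k)
    (σ : F ≃+* F) (hσ : σ ≠ 1) (hfix : ∀ j : ℕ, σ ^ j = 1 ∨ ∀ c, (σ ^ j) c = c → c = 0 ∨ c = 1) : k.Prime := by
  classical
  haveI := Fintype.ofFinite F
  haveI : Fact (Nat.Prime 2) := ⟨Nat.prime_two⟩
  haveI : CharP F 2 := charP_of_card_eq_prime_pow (by rw [← Nat.card_eq_fintype_card, hcard])
  letI : Algebra (ZMod 2) F := ZMod.algebra F 2
  have hd : Module.finrank (ZMod 2) F = k := by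
    have h := Module.card_eq_pow_finrank (K := ZMod 2) (V := F)
    rw [← Nat.card_eq_fintype_card, hcard, ZMod.card] at h
    exact (Nat.pow_right_injective le_rfl h).symm
  let τ : Gal(F/ZMod 2) := AlgEquiv.ofRingEquiv (f := σ) fun x =>
    DFunLike.congr_fun (Subsingleton.elim ((σ : F →+* F).comp (algebraMap (ZMod 2) F)) (algebraMap (ZMod 2) F)) x
  obtain ⟨⟨i, hi⟩, hτ⟩ := (FiniteField.bijective_frobeniusAlgEquivOfAlgebraic_pow (ZMod 2) F).2 τ
  rw [hd] at hi
  have hσx : ∀ c, σ c = c ^ (2 ^ i) := fun c => by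
    have h1 := congrArg (fun f : Gal(F/ZMod 2) => f c) hτ
    simp only [AlgEquiv.coe_pow, FiniteField.coe_frobeniusAlgEquivOfAlgebraic_iterate, ZMod.card] at h1
    exact h1.symm
  have hσj : ∀ (j : ℕ) c, (σ ^ j) c = c ^ (2 ^ (i * j)) := by
    intro j
    induction j with
    | zero => intro c; simp
    | succ j ih =>
      intro c
      rw [pow_succ', RingAut.mul_apply, ih, hσx, ← pow_mul, ← pow_add, ← mul_add_one]
  have hi0 : i ≠ 0 := by
    rintro rfl
    exact hσ (RingEquiv.ext fun c => by simp [hσx])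
  have sub : ∀ d, d ∣ k → 2 ≤ d → ∃ c : F, c ^ (2 ^ d) = c ∧ c ≠ 0 ∧ c ≠ 1 := by
    intro d hdk hd2
    have hdvd : 2 ^ d - 1 ∣ 2 ^ k - 1 := by
      obtain ⟨e, rfl⟩ := hdk
      exact Nat.pow_sub_one_dvd_pow_sub_one 2 (dvd_mul_right d e)
    obtain ⟨g, hg⟩ := IsCyclic.exists_ofOrder_eq_natCard (α := Fˣ)
    rw [Nat.card_units, hcard] at hg
    obtain ⟨e, he⟩ := hdvd
    have h4 : 4 ≤ 2 ^ d := by
      calc 4 = 2 ^ 2 := by norm_num
        _ ≤ _ := Nat.pow_le_pow_right (by norm_num) hd2
    have hpos : 0 < 2 ^ k - 1 := by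
      have : 4 ≤ 2 ^ k := by
        calc 4 = 2 ^ 2 := by norm_num
          _ ≤ _ := Nat.pow_le_pow_right (by norm_num) hk
      omega
    have he0 : 0 < e := by
      rcases Nat.eq_zero_or_pos e with rfl | h
      · simp at he; omega
      · exact h
    refine ⟨((g ^ e : Fˣ) : F), ?_, (g ^ e).ne_zero, fun h => ?_⟩
    · rw [show 2 ^ d = (2 ^ d - 1) + 1 by omega, pow_succ, ← Units.val_pow_eq_pow_val, ← pow_mul, mul_comm e,
        ← he, ← hg, pow_orderOf_eq_one, Units.val_one, one_mul]
    · rw [Units.val_eq_one] at h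
      have := Nat.le_of_dvd he0 (orderOf_dvd_of_pow_eq_one h)
      rw [hg, he] at this
      have h2 : 3 * e ≤ (2 ^ d - 1) * e := Nat.mul_le_mul_right e (by omega)
      omega
  rw [Nat.prime_def]
  refine ⟨hk, fun d hd' => ?_⟩
  by_contra hc
  rw [not_or] at hc
  have hd2 : 2 ≤ d := by
    rcases Nat.eq_zero_or_pos d with rfl | h
    · rw [zero_dvd_iff] at hd'; omega
    · omega
  obtain ⟨c, hc1, hc0, hcne⟩ := sub d hd' hd2
  have hcpow : ∀ j, c ^ (2 ^ (d * j)) = c := by
    intro j
    induction j with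
    | zero => simp
    | succ j ih => rw [mul_add_one, pow_add, pow_mul, ih, hc1]
  rcases hfix d with h | h
  · -- then `k ∣ i * d`, so a smaller power of `σ` fixes a larger subfield
    have hid : k ∣ i * d := by
      obtain ⟨g, hg⟩ := IsCyclic.exists_ofOrder_eq_natCard (α := Fˣ)
      rw [Nat.card_units, hcard] at hg
      have e1 : (g : F) ^ (2 ^ (i * d)) = (g : F) := by rw [← hσj, h]; rfl
      have h1 : 1 ≤ 2 ^ (i * d) := Nat.one_le_two_pow
      rw [← Nat.sub_add_cancel h1, pow_succ, mul_eq_right₀ g.ne_zero, ← Units.val_pow_eq_pow_val,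
        Units.val_eq_one] at e1
      have := orderOf_dvd_of_pow_eq_one e1
      rw [hg] at this
      have h2 := Nat.gcd_eq_left this
      rw [Nat.pow_sub_one_gcd_pow_sub_one] at h2
      have h3 := Nat.two_pow_pos (k.gcd (i * d))
      have h4 := Nat.two_pow_pos k
      have h5 : 2 ^ k.gcd (i * d) = 2 ^ k := by omega
      exact Nat.gcd_eq_left_iff_dvd.1 (Nat.pow_right_injective le_rfl h5)
    obtain ⟨e, he⟩ := hd'
    have he2 : e ∣ i := by
      rw [he, mul_comm i d] at hid
      exact Nat.dvd_of_mul_dvd_mul_left (by omega) hid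
    have hek : e ∣ k := ⟨d, by rw [he, mul_comm]⟩
    have he1 : 2 ≤ e := by
      have h1 : e ≠ 0 := fun h0 => by rw [h0, mul_zero] at he; omega
      have h2 : e ≠ 1 := fun h0 => by rw [h0, mul_one] at he; exact hc.2 he.symm
      omega
    obtain ⟨c', hc'1, hc'0, hc'ne⟩ := sub e hek he1
    have : (σ ^ 1) c' = c' := by
      obtain ⟨j, hj⟩ := he2
      have hpow : ∀ j, c' ^ (2 ^ (e * j)) = c' := by
        intro j
        induction j with
        | zero => simp
        | succ j ih => rw [mul_add_one, pow_add, pow_mul, ih, hc'1]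
      rw [hσj, mul_one, hj, hpow]
    rcases hfix 1 with h1 | h1
    · exact hσ (by simpa using h1)
    · rcases h1 c' this with h2 | h2
      · exact hc'0 h2
      · exact hc'ne h2
  · rcases h c (by rw [hσj, mul_comm, hcpow]) with h' | h'
    · exact hc0 h'
    · exact hcne h'

/-- Degree of a Zassenhaus-type group with a regular normal subgroup. -/
theorem degree_of_regular_normal {G : Type u} {Ω : Type v} [Group G] [MulAction G Ω] [Fintype Ω]
    (Z : ZHyp G Ω) (N : Subgroup G) [N.Normal] [IsPretransitive N Ω] (hNr : ∀ a : Ω, stabilizer N a = ⊥) :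
    ∃ p : ℕ, p.Prime ∧ Fintype.card Ω = 2 ^ p := by
  classical
  haveI := Z.finite
  obtain ⟨g, hg, a, b, hab, hga, hgb⟩ := Z.fix
  obtain ⟨c, hca, hcb⟩ := Z.exists_move hab
  have habel := regular_normal_comm (fun h1 h2 => Z.two h1 h2) N a hNr
  have reg : ∀ n ∈ N, ∀ x : Ω, n • x = x → n = 1 := fun n hn x e => by
    have hm : (⟨n, hn⟩ : N) ∈ stabilizer N x := e
    rw [hNr, Subgroup.mem_bot] at hm
    exact congrArg Subtype.val hm
  have surj : ∀ x : Ω, ∃ n ∈ N, n • a = x := fun x => by
    obtain ⟨n, hn⟩ := exists_smul_eq N a x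
    exact ⟨n.1, n.2, hn⟩
  have uniq : ∀ n ∈ N, ∀ m ∈ N, n • a = m • a → n = m := fun n hn m hm e =>
    (inv_mul_eq_one.1 (reg _ (mul_mem (inv_mem hm) hn) a (by rw [mul_smul, e, inv_smul_smul]))).symm
  have hcardN : Nat.card N = Fintype.card Ω := by
    rw [← Nat.card_eq_fintype_card]
    exact Nat.card_eq_of_bijective (fun n : N => n.1 • a)
      ⟨fun n m e => Subtype.ext (uniq _ n.2 _ m.2 e), fun x => by
        obtain ⟨n, hn, e⟩ := surj x
        exact ⟨⟨n, hn⟩, e⟩⟩
  obtain ⟨nb, hnb, hnba⟩ := surj b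
  have conj_smul : ∀ h : G, h • a = a → ∀ n : G, (h * n * h⁻¹) • a = h • (n • a) := fun h hh n => by
    rw [mul_smul, mul_smul, inv_smul_eq_iff.2 hh.symm]
  have fixpts : ∀ h : G, h ≠ 1 → h • a = a → h • b = b → ∀ x : Ω, h • x = x → x = a ∨ x = b := by
    intro h h1 ha hb x hx
    by_contra hc'
    rw [not_or] at hc'
    exact h1 (Z.three h a b x hab (Ne.symm hc'.2) (Ne.symm hc'.1) ha hb hx)
  have cent : ∀ h : G, h ≠ 1 → h • a = a → h • b = b → ∀ n ∈ N, h * n * h⁻¹ = n → n = 1 ∨ n = nb := by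
    intro h h1 ha hb n hn e
    rcases fixpts h h1 ha hb (n • a) (by rw [← conj_smul h ha, e]) with h' | h'
    · exact Or.inl (reg n hn a h')
    · exact Or.inr (uniq n hn nb hnb (h'.trans hnba.symm))
  have centb : ∀ h : G, h • a = a → h • b = b → h * nb * h⁻¹ = nb := fun h ha hb =>
    uniq _ (Subgroup.Normal.conj_mem ‹_› nb hnb h) nb hnb (by rw [conj_smul h ha, hnba, hb])
  have hnb1 : nb ≠ 1 := fun e => hab (by rw [e, one_smul] at hnba; exact hnba)
  have sq : ∀ n ∈ N, n * n = 1 := by
    have sb : nb * nb = 1 := by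
      have h1 : g * (nb * nb) * g⁻¹ = nb * nb := by
        calc g * (nb * nb) * g⁻¹ = (g * nb * g⁻¹) * (g * nb * g⁻¹) := by group
          _ = _ := by rw [centb g hga hgb]
      rcases cent g hg hga hgb _ (mul_mem hnb hnb) h1 with h | h
      · exact h
      · exact absurd (mul_eq_left.1 h) hnb1
    intro n hn
    rcases eq_or_ne n 1 with rfl | hn1
    · exact one_mul 1
    obtain ⟨k, ka, kb⟩ := Z.two hab (show a ≠ n • a from fun e => hn1 (reg n hn a e.symm))
    have : k * nb * k⁻¹ = n := uniq _ (Subgroup.Normal.conj_mem ‹_› nb hnb k) n hn (by rw [conj_smul k ka, hnba, kb])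
    rw [← this, show k * nb * k⁻¹ * (k * nb * k⁻¹) = k * (nb * nb) * k⁻¹ by group, sb]
    group
  haveI : Fact (Nat.Prime 2) := ⟨Nat.prime_two⟩
  have h2N : IsPGroup 2 N := fun n => ⟨1, Subtype.ext (by rw [pow_one, pow_two]; exact sq n.1 n.2)⟩
  obtain ⟨k, hk⟩ := IsPGroup.iff_card.1 h2N
  have hcard : Fintype.card Ω = 2 ^ k := by rw [← hcardN, hk]
  have h3 : 3 ≤ Fintype.card Ω := by
    have : ({a, b, c} : Finset Ω).card = 3 := by
      rw [Finset.card_insert_of_notMem (by simp [hab, hca.symm]), Finset.card_pair hcb.symm]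
    rw [← this]; exact Finset.card_le_univ _
  have hk2 : 2 ≤ k := by
    by_contra hc'
    rw [hcard] at h3
    interval_cases k <;> norm_num at h3
  set H := stabilizer G a ⊓ stabilizer G b
  by_cases heven : 2 ∣ Nat.card H
  · refine ⟨2, Nat.prime_two, ?_⟩
    obtain ⟨⟨t, ht⟩, ht2⟩ := exists_prime_orderOf_dvd_card' 2 heven
    rw [Subgroup.orderOf_mk] at ht2
    have t1 : t ≠ 1 := fun e => by simp [e] at ht2
    have ti : t * t = 1 := by rw [← pow_two, ← ht2, pow_orderOf_eq_one]
    let f : N →* N := MonoidHom.mk'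
      (fun n => ⟨n.1 * (t * n.1 * t⁻¹), mul_mem n.2 (Subgroup.Normal.conj_mem ‹_› n.1 n.2 t)⟩)
      (fun n m => Subtype.ext (by
        show n.1 * m.1 * (t * (n.1 * m.1) * t⁻¹) = n.1 * (t * n.1 * t⁻¹) * (m.1 * (t * m.1 * t⁻¹))
        calc n.1 * m.1 * (t * (n.1 * m.1) * t⁻¹) = n.1 * (m.1 * (t * n.1 * t⁻¹)) * (t * m.1 * t⁻¹) := by group
          _ = n.1 * ((t * n.1 * t⁻¹) * m.1) * (t * m.1 * t⁻¹) := by
            rw [habel _ m.2 _ (Subgroup.Normal.conj_mem ‹N.Normal› _ n.2 t)]
          _ = _ := by group))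
    have hker : Nat.card f.ker ≤ 2 := by
      have hsub : ∀ n : f.ker, n.1.1 = 1 ∨ n.1.1 = nb := fun n => by
        refine cent t t1 ht.1 ht.2 _ n.1.2 ?_
        have h : n.1.1 * (t * n.1.1 * t⁻¹) = 1 := congrArg Subtype.val n.2
        exact (eq_inv_of_mul_eq_one_right h).trans (inv_eq_of_mul_eq_one_right (sq _ n.1.2))
      refine le_trans (Nat.card_le_card_of_injective (fun n : f.ker => decide (n.1.1 = 1)) ?_)
        (le_of_eq (Nat.card_eq_fintype_card.trans Fintype.card_bool))
      intro x y e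
      simp only [decide_eq_decide] at e
      rcases hsub x with hx | hx
      · exact Subtype.ext (Subtype.ext (hx.trans (e.1 hx).symm))
      · rcases hsub y with hy | hy
        · exact Subtype.ext (Subtype.ext ((e.2 hy).trans hy.symm))
        · exact Subtype.ext (Subtype.ext (hx.trans hy.symm))
    have hrange : f.range ≤ f.ker := by
      rintro _ ⟨n, rfl⟩
      refine Subtype.ext ?_
      show n.1 * (t * n.1 * t⁻¹) * (t * (n.1 * (t * n.1 * t⁻¹)) * t⁻¹) = 1
      rw [show t * (n.1 * (t * n.1 * t⁻¹)) * t⁻¹ = (t * n.1 * t⁻¹) * ((t * t) * n.1 * (t * t)⁻¹) by group, ti,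
        inv_one, mul_one, one_mul, habel _ (Subgroup.Normal.conj_mem ‹N.Normal› _ n.2 t) _ n.2,
        sq _ (mul_mem n.2 (Subgroup.Normal.conj_mem ‹N.Normal› _ n.2 t))]
    have h4 : 2 ^ k ≤ 4 := by
      rw [← hcard, ← hcardN, ← f.ker.card_mul_index, Subgroup.index_ker]
      have := Nat.card_le_card_of_injective _ (Subgroup.inclusion_injective hrange)
      calc Nat.card f.ker * Nat.card f.range ≤ 2 * 2 := Nat.mul_le_mul hker (this.trans hker)
        _ = 4 := by norm_num
    have : k ≤ 2 := by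
      by_contra hc'
      have : 2 ^ 3 ≤ 2 ^ k := Nat.pow_le_pow_right (by norm_num) (by omega)
      omega
    rw [hcard, show k = 2 by omega]
  · refine ⟨k, ?_, hcard⟩
    obtain ⟨U, hUle, hUn, hUnil, hUreg, -⟩ := Z.exists_kernel a
    have hfree : ∀ u ∈ U, u ≠ 1 → ∀ y : Ω, y ≠ a → u • y ≠ y := fun u hu u1 y hy e =>
      u1 (congrArg Subtype.val ((hUreg y y hy hy).unique (y₁ := ⟨u, hu⟩) (y₂ := 1) e (one_smul _ _)))
    have hUodd : Odd (Nat.card U) := by
      have e : Nat.card U = Fintype.card Ω - 1 := by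
        rw [← Nat.card_eq_fintype_card (α := Ω)]
        have : Nat.card U = Nat.card {x : Ω // x ≠ a} := by
          refine Nat.card_eq_of_bijective (fun u => ⟨u.1 • b, fun e => hab (smul_left_cancel u.1
            ((show u.1 • a = a from hUle u.2).trans e.symm))⟩) ⟨?_, ?_⟩
          · intro u v e
            exact (hUreg b _ hab.symm (fun e' => hab (smul_left_cancel v.1
              ((show v.1 • a = a from hUle v.2).trans e'.symm)))).unique (congrArg Subtype.val e) rfl
          · rintro ⟨x, hx⟩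
            obtain ⟨u, hu, -⟩ := hUreg b x hab.symm hx
            exact ⟨u, Subtype.ext hu⟩
        rw [this, Nat.card_eq_fintype_card, Nat.card_eq_fintype_card, Fintype.card_subtype_compl,
          Fintype.card_subtype_eq]
      rw [e, hcard]
      exact Nat.Even.sub_odd Nat.one_le_two_pow (Nat.even_pow.2 ⟨even_two, by omega⟩) odd_one
    haveI : Nontrivial N := Finite.one_lt_card_iff_nontrivial.1 (by rw [hcardN]; omega)
    let ψ : U →* MulAut N := (MulAut.conjNormal (H := N)).comp U.subtype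
    have hψ : ∀ u : U, u ≠ 1 → ∀ n : N, ψ u n = n → n = 1 := by
      intro u hu n e
      have e' : u.1 * n.1 * u.1⁻¹ = n.1 := congrArg Subtype.val e
      by_contra hn
      refine hfree u.1 u.2 (fun h => hu (Subtype.ext h)) (n.1 • a)
        (fun h => hn (Subtype.ext (reg n.1 n.2 a h))) ?_
      rw [← conj_smul u.1 (hUle u.2), e']
    haveI : IsZGroup U := ⟨fun p hp P => by
      haveI : Fact p.Prime := ⟨hp⟩
      have huniq := fun A B => H21.unique_subgroup_of_fpf (K := N) P.2 (ψ.comp (P : Subgroup U).subtype)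
        (fun e he n hn => hψ e.1 (fun h => he (Subtype.ext h)) n hn) A B
      rcases H21.cyclic_or_quaternion p P.2 huniq with h | ⟨rfl, j, ⟨e⟩⟩
      · exact h
      · exfalso
        have hP1 := Subgroup.card_subgroup_dvd_card (P : Subgroup U)
        rw [Nat.card_congr e.toEquiv, Nat.card_eq_fintype_card, QuaternionGroup.card] at hP1
        exact (Nat.not_even_iff_odd.2 hUodd) (even_iff_two_dvd.2 (((dvd_mul_of_dvd_left (by norm_num) _) :
          2 ∣ 4 * 2 ^ j).trans hP1))⟩
    haveI := hUnil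
    haveI : IsCyclic U := inferInstance
    letI := IsCyclic.commGroup (α := U)
    letI : CommGroup N :=
      { (inferInstance : Group N) with mul_comm := fun x y => Subtype.ext (habel _ x.2 _ y.2) }
    let φ : U → AddMonoid.End (Additive N) := fun u => (MonoidHom.toAdditive (ψ u).toMonoidHom)
    obtain ⟨F, instF, e, he1, hmul, hsurjF⟩ := H50.exists_field_of_transitive (A := Additive N)
      (Additive.ofMul ⟨nb, hnb⟩) (fun h => hnb1 (congrArg Subtype.val (Additive.ofMul.injective h)))
      φ ⟨1, AddMonoidHom.ext fun x => by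
          show Additive.ofMul (ψ 1 x.toMul) = x
          rw [map_one]
          rfl⟩
      (fun i j => AddMonoidHom.ext fun x => by
        show Additive.ofMul (ψ i (ψ j x.toMul)) = Additive.ofMul (ψ j (ψ i x.toMul))
        rw [← MulAut.mul_apply, ← map_mul, mul_comm, map_mul, MulAut.mul_apply])
      (fun i x h => (ψ i).injective (h.trans (map_one (ψ i)).symm))
      (fun x hx => by
        have hx1 : x.toMul.1 • a ≠ a := fun h => hx (Subtype.ext (reg _ x.toMul.2 a h))
        obtain ⟨u, hu, -⟩ := hUreg b _ hab.symm hx1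
        refine ⟨u, congrArg Additive.ofMul (Subtype.ext (uniq _ (Subgroup.Normal.conj_mem ‹_› nb hnb u.1) _ x.toMul.2 ?_))⟩
        show (u.1 * nb * u.1⁻¹) • a = _
        rw [conj_smul u.1 (hUle u.2), hnba]
        exact hu)
    haveI : Finite F := Finite.of_equiv _ e.symm.toEquiv
    have hcardF : Nat.card F = 2 ^ k := by rw [Nat.card_congr e.toEquiv, ← hk]; rfl
    -- semilinear action of `H`
    have autG : ∀ h : H, ∃ σ : F ≃+* F, ∀ x : F,
        e (σ x) = Additive.ofMul (MulAut.conjNormal h.1 (e x).toMul) := by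
      intro h
      let s : F ≃+ F := (e.trans (MulEquiv.toAdditive (MulAut.conjNormal (H := N) h.1))).trans e.symm
      have hs : ∀ x : F, e (s x) = Additive.ofMul (MulAut.conjNormal h.1 (e x).toMul) := fun x => e.apply_symm_apply _
      refine ⟨{ s with map_mul' := ?_ }, hs⟩
      intro x y
      show s (x * y) = s x * s y
      rcases eq_or_ne x 0 with rfl | hx
      · rw [zero_mul, map_zero, zero_mul]
      obtain ⟨i, hi⟩ := hsurjF x hx
      have hiU : h.1 * i.1 * h.1⁻¹ ∈ U := hUn h.1 h.2.1 i.1 i.2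
      obtain ⟨c', -, hc'⟩ := hmul ⟨_, hiU⟩
      have key : ∀ z : F, s (x * z) = c' * s z := by
        intro z
        refine e.injective ?_
        rw [hs, ← hi z, ← hc' (s z), hs]
        refine congrArg Additive.ofMul (Subtype.ext ?_)
        show h.1 * (i.1 * (e z).toMul.1 * i.1⁻¹) * h.1⁻¹ =
          (h.1 * i.1 * h.1⁻¹) * (h.1 * (e z).toMul.1 * h.1⁻¹) * (h.1 * i.1 * h.1⁻¹)⁻¹
        group
      have hs1 : s 1 = 1 := e.injective (by
        rw [hs, he1]
        exact congrArg Additive.ofMul (Subtype.ext (centb h.1 h.2.1 h.2.2)))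
      have := key 1
      rw [mul_one, hs1, mul_one] at this
      rw [key y, this]
    choose σ hσ using autG
    let σh : H →* (F ≃+* F) := MonoidHom.mk' σ fun h h' => RingEquiv.ext fun x => e.injective (by
      rw [RingAut.mul_apply, hσ, hσ, hσ]
      refine congrArg Additive.ofMul (Subtype.ext ?_)
      show h.1 * h'.1 * (e x).toMul.1 * (h.1 * h'.1)⁻¹ = h.1 * (h'.1 * (e x).toMul.1 * h'.1⁻¹) * h.1⁻¹
      group)
    have hfixF : ∀ h : H, h ≠ 1 → ∀ x : F, σ h x = x → x = 0 ∨ x = 1 := by
      intro h h1 x hx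
      have h2 : h.1 * (e x).toMul.1 * h.1⁻¹ = (e x).toMul.1 := by
        have := congrArg (fun z : Additive N => z.toMul.1) (hσ h x)
        simp only [hx] at this
        exact this.symm
      rcases cent h.1 (fun h' => h1 (Subtype.ext h')) h.2.1 h.2.2 _ (e x).toMul.2 h2 with h' | h'
      · exact Or.inl (e.injective ((Additive.toMul.injective (Subtype.ext h')).trans (map_zero e).symm))
      · refine Or.inr (e.injective ?_)
        rw [he1]
        exact Additive.toMul.injective (Subtype.ext h')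
    let h₀ : H := ⟨g, hga, hgb⟩
    have h₀ne : h₀ ≠ 1 := fun h => hg (congrArg Subtype.val h)
    refine prime_of_aut_fixed_points hk2 hcardF (σ h₀) (fun h1 => ?_) fun j => ?_
    · have hall : ∀ x : F, x = 0 ∨ x = 1 := fun x => hfixF h₀ h₀ne x (by rw [h1]; rfl)
      have : Nat.card F ≤ 2 := by
        refine (Nat.card_le_card_of_injective (fun x : F => decide (x = 0)) fun x y hxy => ?_).trans
          (le_of_eq (Nat.card_eq_fintype_card.trans Fintype.card_bool))
        simp only [decide_eq_decide] at hxy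
        rcases hall x with rfl | rfl
        · exact (hxy.1 rfl).symm
        · rcases hall y with rfl | rfl
          · exact hxy.2 rfl
          · rfl
      rw [hcardF] at this
      have := Nat.pow_le_pow_right (show 1 ≤ 2 by norm_num) hk2
      omega
    · rw [show σ h₀ = σh h₀ from rfl, ← map_pow]
      rcases eq_or_ne (h₀ ^ j) 1 with h | h
      · exact Or.inl (by rw [h, map_one])
      · exact Or.inr (hfixF _ h)

end Cfsg.Agent.H7
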