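import Cfsg.Prelude.Def_Perm
import Cfsg.Agent.H7.ZassKernel
import Cfsg.Agent.H7.ZassAffine
import Cfsg.Agent.H21.FrobeniusTheorem

/-!
Transitive groups of degree `p + 1` and order `(p + 1) p d` with `d < p`: the point stabiliser has a normal subgroup
of order `p`, regular on the other points; with a regular normal subgroup the group is semi-affine over the field with
`p + 1 = 2 ^ q` elements.
-/

set_option autoImplicit false
set_option linter.style.haveILetI false

namespace Cfsg.Agent.H7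

open MulAction
open scoped Pointwise

universe u v

variable {G : Type u} {Ω : Type v} [Group G] [MulAction G Ω]

/-- The structure of a transitive group of degree `p + 1` and order `(p + 1) p d`, `d < p`. -/
structure PDeg (G : Type u) {Ω : Type v} [Group G] [MulAction G Ω] (p d : ℕ) (a b : Ω) (U : Subgroup G) :
    Prop where
  ne : a ≠ b
  le : U ≤ stabilizer G a
  cardU : Nat.card U = p
  conj : ∀ g : G, g • a = a → ∀ u ∈ U, g * u * g⁻¹ ∈ U
  comm : ∀ u ∈ U, ∀ v ∈ U, u * v = v * u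
  free : ∀ u ∈ U, ∀ y : Ω, y ≠ a → u • y = y → u = 1
  reach : ∀ y : Ω, y ≠ a → ∃ u ∈ U, u • b = y
  reg : ∀ y z : Ω, y ≠ a → z ≠ a → ∃! u : U, (u : G) • y = z
  two : ∀ {w x y z : Ω}, w ≠ x → y ≠ z → ∃ g : G, g • w = y ∧ g • x = z
  three : ∀ g : G, ∀ w x y : Ω, w ≠ x → x ≠ y → w ≠ y → g • w = w → g • x = x → g • y = y → g = 1
  cardH : Nat.card ↥(stabilizer G a ⊓ stabilizer G b) = d

theorem exists_pdeg [Finite G] [Fintype Ω] [FaithfulSMul G Ω] [IsPretransitive G Ω] {p d : ℕ} (hp : p.Prime)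
    (hΩ : Fintype.card Ω = p + 1) (hG : Nat.card G = (p + 1) * p * d) (hd : d < p) (a : Ω) :
    ∃ (b : Ω) (U : Subgroup G), PDeg G p d a b U := by
  classical
  haveI : Fact p.Prime := ⟨hp⟩
  have hd0 : 0 < d := Nat.pos_of_ne_zero fun e => by
    rw [e, mul_zero] at hG
    exact Nat.card_pos.ne' hG
  have hA : Nat.card (stabilizer G a) = p * d := by
    have h := (stabilizer G a).card_mul_index
    rw [index_stabilizer_of_transitive, Nat.card_eq_fintype_card (α := Ω), hΩ, hG] at h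
    refine Nat.eq_of_mul_eq_mul_right (Nat.succ_pos p) ?_
    rw [h, Nat.succ_eq_add_one]; ring
  obtain ⟨x, hx⟩ := exists_prime_orderOf_dvd_card' p (show p ∣ Nat.card (stabilizer G a) from ⟨d, hA⟩)
  have hxo : orderOf x.1 = p := by rwa [Subgroup.orderOf_coe]
  set U := Subgroup.zpowers x.1 with hU
  have hUle : U ≤ stabilizer G a := Subgroup.zpowers_le.2 x.2
  have hUa : ∀ u ∈ U, u • a = a := fun u hu => hUle hu
  have hUc : Nat.card U = p := by rw [Nat.card_zpowers, hxo]
  have hUcomm : ∀ u ∈ U, ∀ v ∈ U, u * v = v * u := by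
    rintro _ ⟨i, rfl⟩ _ ⟨j, rfl⟩
    exact (Commute.zpow_zpow_self x.1 i j).eq
  have hgen : ∀ u ∈ U, u ≠ 1 → Subgroup.zpowers u = U := by
    intro u hu u1
    refine Subgroup.eq_of_le_of_card_ge (Subgroup.zpowers_le.2 hu) ?_
    rw [hUc, Nat.card_zpowers]
    rcases hp.eq_one_or_self_of_dvd _ (hUc ▸ Subgroup.orderOf_dvd_natCard U hu) with h | h
    · exact absurd (orderOf_eq_one_iff.1 h) u1
    · exact h.ge
  have huniq : ∀ y ∈ stabilizer G a, orderOf y = p → y ∈ U := by
    intro y hy hyo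
    by_contra hyU
    have hint : ∀ z ∈ Subgroup.zpowers y, z ∈ U → z = 1 := by
      intro z hz hzU
      by_contra z1
      refine hyU (hgen z hzU z1 ▸ ?_)
      have hz' : Subgroup.zpowers z = Subgroup.zpowers y := by
        refine Subgroup.eq_of_le_of_card_ge (Subgroup.zpowers_le.2 hz) ?_
        rw [Nat.card_zpowers, Nat.card_zpowers, hyo]
        rcases hp.eq_one_or_self_of_dvd _ (hUc ▸ Subgroup.orderOf_dvd_natCard U hzU) with h | h
        · exact absurd (orderOf_eq_one_iff.1 h) z1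
        · exact h.ge
      exact hz' ▸ Subgroup.mem_zpowers y
    let f : U × Subgroup.zpowers y → stabilizer G a :=
      fun q => ⟨q.1.1 * q.2.1, mul_mem (hUle q.1.2) (Subgroup.zpowers_le.2 hy q.2.2)⟩
    have hf : Function.Injective f := by
      rintro ⟨⟨u, hu⟩, ⟨z, hz⟩⟩ ⟨⟨v, hv⟩, ⟨w, hw⟩⟩ e
      have e' : u * z = v * w := congrArg Subtype.val e
      have h1 : v⁻¹ * u = w * z⁻¹ := by
        rw [inv_mul_eq_iff_eq_mul, eq_comm, ← mul_assoc, ← e', mul_inv_cancel_right]
      have h2 : w * z⁻¹ = 1 := hint _ (mul_mem hw (inv_mem hz)) (h1 ▸ mul_mem (inv_mem hv) hu)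
      obtain rfl := mul_inv_eq_one.1 h2
      exact Prod.ext (Subtype.ext (mul_right_cancel e')) rfl
    have := Nat.card_le_card_of_injective f hf
    rw [Nat.card_prod, hUc, Nat.card_zpowers, hyo, hA] at this
    exact absurd (Nat.le_of_mul_le_mul_left this hp.pos) (not_le.2 hd)
  have hconj : ∀ g : G, g • a = a → ∀ u ∈ U, g * u * g⁻¹ ∈ U := by
    intro g hg u hu
    rcases eq_or_ne u 1 with rfl | u1
    · simp
    refine huniq _ (mul_mem (mul_mem hg (hUle hu)) (inv_mem hg)) ?_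
    rw [show g * u * g⁻¹ = MulAut.conj g u from rfl, (MulAut.conj g).orderOf_eq]
    have h := Nat.card_zpowers u
    rw [hgen u hu u1, hUc] at h
    exact h.symm
  have hx1 : x.1 ≠ 1 := fun e => hp.ne_one (by rw [← hxo, e, orderOf_one])
  obtain ⟨b, hb⟩ : ∃ b : Ω, x.1 • b ≠ b := by
    by_contra hc
    push Not at hc
    exact hx1 (FaithfulSMul.eq_of_smul_eq_smul (α := Ω) fun y => by rw [hc y, one_smul])
  have hab : a ≠ b := fun e => hb (e ▸ x.2)
  have hbfree : ∀ u ∈ U, u • b = b → u = 1 := fun u hu e => by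
    by_contra u1
    refine hb ?_
    have h : Subgroup.zpowers u ≤ stabilizer G b := Subgroup.zpowers_le.2 e
    rw [hgen u hu u1] at h
    exact h (Subgroup.mem_zpowers x.1)
  have hne : ∀ u ∈ U, ∀ y : Ω, y ≠ a → u • y ≠ a :=
    fun u hu y hy e => hy (smul_left_cancel u (e.trans (hUa u hu).symm))
  have hreach : ∀ y : Ω, y ≠ a → ∃ u ∈ U, u • b = y := by
    let f : U → {y : Ω // y ≠ a} := fun u => ⟨u.1 • b, hne u.1 u.2 b hab.symm⟩
    have hf : Function.Injective f := by
      intro u v e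
      have e' : u.1 • b = v.1 • b := congrArg Subtype.val e
      exact Subtype.ext (inv_mul_eq_one.1 (hbfree _ (mul_mem (inv_mem v.2) u.2)
        (by rw [mul_smul, e', inv_smul_smul]))).symm
    haveI : Fintype U := Fintype.ofFinite U
    have hc : Fintype.card U = Fintype.card {y : Ω // y ≠ a} := by
      rw [← Nat.card_eq_fintype_card, hUc, Fintype.card_subtype_compl, Fintype.card_subtype_eq, hΩ, Nat.add_sub_cancel]
    have hsurj := ((Fintype.bijective_iff_injective_and_card f).2 ⟨hf, hc⟩).2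
    intro y hy
    obtain ⟨u, hu⟩ := hsurj ⟨y, hy⟩
    exact ⟨u, u.2, congrArg Subtype.val hu⟩
  have hfree : ∀ u ∈ U, ∀ y : Ω, y ≠ a → u • y = y → u = 1 := by
    intro u hu y hy e
    obtain ⟨w, hw, rfl⟩ := hreach y hy
    refine hbfree u hu (smul_left_cancel w ?_)
    rw [← mul_smul, ← hUcomm u hu w hw, mul_smul, e]
  have hreg : ∀ y z : Ω, y ≠ a → z ≠ a → ∃! u : U, (u : G) • y = z := by
    intro y z hy hz
    obtain ⟨v, hv, rfl⟩ := hreach y hy
    obtain ⟨w, hw, rfl⟩ := hreach z hz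
    refine ⟨⟨w * v⁻¹, mul_mem hw (inv_mem hv)⟩, ?_, fun u hu => Subtype.ext ?_⟩
    · show (w * v⁻¹) • v • b = w • b
      rw [mul_smul, inv_smul_smul]
    · refine eq_mul_inv_iff_mul_eq.2 (inv_mul_eq_one.1 (hbfree _ (mul_mem (inv_mem hw) (mul_mem u.2 hv)) ?_)).symm
      rw [mul_smul, mul_smul, hu, inv_smul_smul]
  have hone : ∀ x' y z : Ω, y ≠ x' → z ≠ x' → ∃ g : G, g • x' = x' ∧ g • y = z := by
    intro x' y z hy hz
    obtain ⟨g, hg⟩ := exists_smul_eq G x' a
    obtain ⟨u, hu, -⟩ := hreg (g • y) (g • z) (fun e => hy (smul_left_cancel g (e.trans hg.symm)))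
      (fun e => hz (smul_left_cancel g (e.trans hg.symm)))
    refine ⟨g⁻¹ * u.1 * g, ?_, ?_⟩
    · rw [mul_smul, mul_smul, hg, hUa _ u.2, inv_smul_eq_iff, hg]
    · rw [mul_smul, mul_smul, hu, inv_smul_smul]
  have htwo : ∀ {w x y z : Ω}, w ≠ x → y ≠ z → ∃ g : G, g • w = y ∧ g • x = z := by
    intro w x y z hwx hyz
    obtain ⟨g, hg⟩ := exists_smul_eq G w y
    obtain ⟨k, hk1, hk2⟩ := hone y (g • x) z (fun e => hwx (smul_left_cancel g (hg.trans e.symm))) hyz.symm
    exact ⟨k * g, by rw [mul_smul, hg, hk1], by rw [mul_smul, hk2]⟩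
  have hthree : ∀ g : G, ∀ w x y : Ω, w ≠ x → x ≠ y → w ≠ y → g • w = w → g • x = x → g • y = y → g = 1 := by
    intro g w x y hwx hxy hwy gw gx gy
    obtain ⟨k, kw, kx⟩ := htwo hwx hab
    set h := k * g * k⁻¹ with hh
    have hfixk : ∀ z : Ω, g • z = z → h • k • z = k • z := fun z hz => by
      rw [hh, mul_smul, inv_smul_smul, mul_smul, hz]
    have ha' : h • a = a := kw ▸ hfixk w gw
    have hb' : h • b = b := kx ▸ hfixk x gx
    obtain ⟨u, hu, hub⟩ := hreach (k • y) (fun e => hwy (smul_left_cancel k (kw.trans e.symm)))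
    have u1 : u ≠ 1 := fun e => hxy (smul_left_cancel k (by rw [kx, ← hub, e, one_smul]))
    have hcu : h * u = u * h := by
      rw [← mul_inv_eq_iff_eq_mul]
      refine (inv_mul_eq_one.1 (hbfree _ (mul_mem (inv_mem hu) (hconj h ha' u hu)) ?_)).symm
      rw [mul_smul, mul_smul, mul_smul, inv_smul_eq_iff.2 hb'.symm, hub, hfixk y gy, ← hub, inv_smul_smul]
    have hall : ∀ z : Ω, h • z = z := by
      intro z
      rcases eq_or_ne z a with rfl | hz
      · exact ha'
      obtain ⟨v, hv, rfl⟩ := hreach z hz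
      rw [← hgen u hu u1] at hv
      obtain ⟨i, rfl⟩ := hv
      rw [← mul_smul, ((show Commute h u from hcu).zpow_right i).eq, mul_smul, hb']
    have h1 : h = 1 := FaithfulSMul.eq_of_smul_eq_smul (α := Ω) fun z => by rw [hall z, one_smul]
    exact conj_eq_one_iff.1 h1
  have hcardH : Nat.card ↥(stabilizer G a ⊓ stabilizer G b) = d := by
    let f : U × ↥(stabilizer G a ⊓ stabilizer G b) → stabilizer G a :=
      fun q => ⟨q.1.1 * q.2.1, mul_mem (hUle q.1.2) q.2.2.1⟩
    have hf : Function.Bijective f := by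
      constructor
      · rintro ⟨⟨u, hu⟩, ⟨h, hh⟩⟩ ⟨⟨v, hv⟩, ⟨k, hk⟩⟩ e
        have e' : u * h = v * k := congrArg Subtype.val e
        have e2 : u • b = v • b := by
          have := congrArg (· • b) e'
          simpa [mul_smul, show h • b = b from hh.2, show k • b = b from hk.2] using this
        obtain rfl : u = v := (inv_mul_eq_one.1 (hbfree _ (mul_mem (inv_mem hv) hu)
          (by rw [mul_smul, e2, inv_smul_smul]))).symm
        exact Prod.ext rfl (Subtype.ext (mul_left_cancel e'))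
      · rintro ⟨g, hg⟩
        have hga : g • a = a := hg
        obtain ⟨u, hu, e⟩ := hreach (g • b) (fun e => hab (smul_left_cancel g (hga.trans e.symm)))
        refine ⟨(⟨u, hu⟩, ⟨u⁻¹ * g, (show u⁻¹ * g ∈ stabilizer G a from mul_mem (inv_mem (hUle hu)) hg), ?_⟩),
          Subtype.ext (mul_inv_cancel_left u g)⟩
        show (u⁻¹ * g) • b = b
        rw [mul_smul, inv_smul_eq_iff, e]
    have h := Nat.card_eq_of_bijective f hf
    rw [Nat.card_prod, hUc, hA] at h
    exact Nat.eq_of_mul_eq_mul_left hp.pos h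
  exact ⟨b, U, hab, hUle, hUc, hconj, hUcomm, hfree, hreach, hreg, htwo, hthree, hcardH⟩

namespace PDeg

variable {p d : ℕ} {a b : Ω} {U : Subgroup G}

theorem zhyp [Finite G] (P : PDeg G p d a b U) [FaithfulSMul G Ω] (hd : 1 < d) : ZHyp G Ω := by
  refine ⟨‹_›, P.two, P.three, ?_⟩
  have hne : stabilizer G a ⊓ stabilizer G b ≠ ⊥ := fun e => by
    have := P.cardH
    rw [e, Subgroup.card_bot] at this
    omega
  obtain ⟨h, hh, h1⟩ := (stabilizer G a ⊓ stabilizer G b).bot_or_exists_ne_one.resolve_left hne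
  exact ⟨h, h1, a, b, P.ne, hh.1, hh.2⟩

theorem zassenhaus [Finite G] (P : PDeg G p d a b U) [FaithfulSMul G Ω] (hd : 1 < d)
    (hno : ∀ N : Subgroup G, N.Normal → IsPretransitive N Ω → ∃ x : Ω, stabilizer N x ≠ ⊥) :
    Cfsg.IsZassenhausGroup G Ω ∧ ZK G a b U :=
  ⟨⟨‹_›, is_two_pretransitive_iff.2 fun hwx hyz => P.two hwx hyz, P.three, (P.zhyp hd).fix, hno⟩,
    P.zhyp hd, P.ne, P.le, fun g hg => P.conj g hg, P.reg⟩

/-- With a trivial two-point stabiliser the point stabiliser is a Frobenius complement, whose kernel is regular. -/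
theorem exists_regular [Finite G] [Fintype Ω] [FaithfulSMul G Ω] [IsPretransitive G Ω] (P : PDeg G p 1 a b U)
    (hp : p.Prime) :
    ∃ N : Subgroup G, N.Normal ∧ IsPretransitive N Ω ∧ ∀ x : Ω, stabilizer N x = ⊥ := by
  classical
  set A := stabilizer G a with hA
  have hA1 : ∀ h : G, ∀ y : Ω, y ≠ a → h • a = a → h • y = y → h = 1 := by
    intro h y hy ha hyy
    obtain ⟨k, ka, kb⟩ := P.two hy.symm P.ne
    have hm : k * h * k⁻¹ ∈ stabilizer G a ⊓ stabilizer G b := ⟨by
        show (k * h * k⁻¹) • a = a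
        rw [← ka, mul_smul, inv_smul_smul, mul_smul, ha], by
        show (k * h * k⁻¹) • b = b
        rw [← kb, mul_smul, inv_smul_smul, mul_smul, hyy]⟩
    rw [Subgroup.eq_bot_of_card_eq _ P.cardH, Subgroup.mem_bot] at hm
    exact conj_eq_one_iff.1 hm
  have hfc : Cfsg.IsFrobeniusComplement A := by
    refine ⟨fun e => ?_, fun e => ?_, fun g hg => ?_⟩
    · have := Subgroup.card_le_of_le P.le
      rw [← hA, e, Subgroup.card_bot, P.cardU] at this
      exact absurd hp.two_le (by omega)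
    · obtain ⟨g, hg⟩ := exists_smul_eq G a b
      have : g ∈ A := e ▸ Subgroup.mem_top g
      exact P.ne ((show g • a = a from this).symm.trans hg)
    · rw [Subgroup.eq_bot_iff_forall]
      rintro h ⟨ha, hc⟩
      obtain ⟨k, hk, rfl⟩ := Subgroup.mem_smul_pointwise_iff_exists _ _ _ |>.1 hc
      refine hA1 _ (g • a) hg ha ?_
      show (g * k * g⁻¹) • g • a = g • a
      rw [mul_smul, inv_smul_smul, mul_smul, show k • a = a from hk]
  obtain ⟨N, -, hNn, hcompl⟩ := H21.exists_kernel hfc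
  haveI := hNn
  have hsemi : ∀ n ∈ N, ∀ x : Ω, n • x = x → n = 1 := by
    intro n hn x hx
    obtain ⟨g, hg⟩ := exists_smul_eq G x a
    have hm : g * n * g⁻¹ ∈ A := by
      show (g * n * g⁻¹) • a = a
      rw [mul_smul, inv_smul_eq_iff.2 hg.symm, mul_smul, hx, hg]
    have hN : g * n * g⁻¹ ∈ N := hNn.conj_mem n hn g
    have := Subgroup.disjoint_def.1 hcompl.disjoint hN hm
    exact conj_eq_one_iff.1 this
  have hcard : Nat.card N = Fintype.card Ω := by
    have h1 := hcompl.card_mul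
    have h2 := A.card_mul_index
    rw [index_stabilizer_of_transitive, Nat.card_eq_fintype_card (α := Ω)] at h2
    refine Nat.eq_of_mul_eq_mul_right (Nat.card_pos (α := A)) ?_
    rw [h1, ← h2, mul_comm]
  have hsurj : Function.Surjective (fun n : N => n.1 • a) := by
    haveI := Fintype.ofFinite N
    refine ((Fintype.bijective_iff_injective_and_card _).2 ⟨fun n m e => ?_, ?_⟩).2
    · exact Subtype.ext (inv_mul_eq_one.1 (hsemi _ (mul_mem (inv_mem m.2) n.2) a
        (by rw [mul_smul, e, inv_smul_smul]))).symm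
    · rw [← Nat.card_eq_fintype_card, hcard]
  refine ⟨N, hNn, ⟨fun x y => ?_⟩, fun x => ?_⟩
  · obtain ⟨n, hn⟩ := hsurj x
    obtain ⟨m, hm⟩ := hsurj y
    refine ⟨m * n⁻¹, ?_⟩
    show (m.1 * n.1⁻¹) • x = y
    rw [← hn, mul_smul, inv_smul_smul]
    exact hm
  · rw [Subgroup.eq_bot_iff_forall]
    exact fun n hn => Subtype.ext (hsemi n.1 n.2 x hn)

/-- A regular normal subgroup: `p + 1 = 2 ^ q` and the group is semi-affine. -/
theorem semiaffine [Finite G] [Fintype Ω] [FaithfulSMul G Ω] (P : PDeg G p d a b U) (hp : p.Prime) (hp2 : p ≠ 2)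
    (hΩ : Fintype.card Ω = p + 1)
    (R : Subgroup G) (hR : R.Normal) [IsPretransitive R Ω] (hRr : ∀ x : Ω, stabilizer R x = ⊥) :
    ∃ q : ℕ, ∃ _ : Fact (Nat.Prime 2), q.Prime ∧ p + 1 = 2 ^ q ∧ (d = 1 ∨ d = q) ∧ ∃ e : Ω ≃ GaloisField 2 q, ∀ g : G,
      (e.symm.trans ((MulAction.toPerm g).trans e)) ∈ Cfsg.semiaffineGroup (GaloisField 2 q) := by
  classical
  haveI : Fact (Nat.Prime 2) := ⟨Nat.prime_two⟩
  have habel := regular_normal_comm (fun h1 h2 => P.two h1 h2) R a hRr
  have reg : ∀ n ∈ R, ∀ x : Ω, n • x = x → n = 1 := fun n hn x e => by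
    have hm : (⟨n, hn⟩ : R) ∈ stabilizer R x := e
    rw [hRr, Subgroup.mem_bot] at hm
    exact congrArg Subtype.val hm
  have surj : ∀ x : Ω, ∃ n ∈ R, n • a = x := fun x => by
    obtain ⟨n, hn⟩ := exists_smul_eq R a x
    exact ⟨n.1, n.2, hn⟩
  have uniq : ∀ n ∈ R, ∀ m ∈ R, n • a = m • a → n = m := fun n hn m hm e =>
    (inv_mul_eq_one.1 (reg _ (mul_mem (inv_mem hm) hn) a (by rw [mul_smul, e, inv_smul_smul]))).symm
  have hcardR : Nat.card R = p + 1 := by
    rw [← hΩ, ← Nat.card_eq_fintype_card]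
    exact Nat.card_eq_of_bijective (fun n : R => n.1 • a)
      ⟨fun n m e => Subtype.ext (uniq _ n.2 _ m.2 e), fun x => by
        obtain ⟨n, hn, e⟩ := surj x
        exact ⟨⟨n, hn⟩, e⟩⟩
  have conj_smul : ∀ h : G, h • a = a → ∀ n : G, (h * n * h⁻¹) • a = h • (n • a) := fun h hh n => by
    rw [mul_smul, mul_smul, inv_smul_eq_iff.2 hh.symm]
  have ptrans : ∀ n ∈ R, n ≠ 1 → ∀ m ∈ R, m ≠ 1 → ∃ u ∈ U, u * n * u⁻¹ = m := by
    intro n hn n1 m hm m1
    obtain ⟨u, hu, -⟩ := P.reg (n • a) (m • a) (fun e => n1 (reg n hn a e)) (fun e => m1 (reg m hm a e))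
    exact ⟨u.1, u.2, uniq _ (hR.conj_mem n hn u.1) m hm (by rw [conj_smul _ (P.le u.2), hu])⟩
  have heven : 2 ∣ Nat.card R := by
    rw [hcardR, ← even_iff_two_dvd]
    exact (hp.odd_of_ne_two hp2).add_one
  obtain ⟨t, ht⟩ := exists_prime_orderOf_dvd_card' 2 heven
  have t1 : t.1 ≠ 1 := fun e => by
    rw [OneMemClass.coe_eq_one] at e
    rw [e, orderOf_one] at ht
    omega
  have tt : t.1 * t.1 = 1 := by
    have := pow_orderOf_eq_one t
    rw [ht, pow_two] at this
    exact congrArg Subtype.val this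
  have sq : ∀ n ∈ R, n * n = 1 := fun n hn => by
    rcases eq_or_ne n 1 with rfl | n1
    · exact one_mul 1
    obtain ⟨u, -, rfl⟩ := ptrans t.1 t.2 t1 n hn n1
    rw [show u * t.1 * u⁻¹ * (u * t.1 * u⁻¹) = u * (t.1 * t.1) * u⁻¹ by group, tt]
    group
  have h2R : IsPGroup 2 R := fun n => ⟨1, Subtype.ext (by rw [pow_one, pow_two]; exact sq n.1 n.2)⟩
  obtain ⟨q, hq⟩ := IsPGroup.iff_card.1 h2R
  have hpq : p + 1 = 2 ^ q := hcardR.symm.trans hq
  have hqp : q.Prime := by
    have hP : (2 ^ q - 1).Prime := by rw [← hpq, Nat.add_sub_cancel]; exact hp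
    refine (Nat.prime_of_pow_sub_one_prime (fun e => ?_) hP).2
    rw [e] at hP
    exact Nat.not_prime_one hP
  obtain ⟨nb, hnb, hnba⟩ := surj b
  have hnb1 : nb ≠ 1 := fun e => P.ne (by rw [e, one_smul] at hnba; exact hnba)
  haveI := hR
  letI : CommGroup R :=
    { (inferInstance : Group R) with mul_comm := fun x y => Subtype.ext (habel _ x.2 _ y.2) }
  let ψ : U →* MulAut R := (MulAut.conjNormal (H := R)).comp U.subtype
  let φ : U → AddMonoid.End (Additive R) := fun u => (MonoidHom.toAdditive (ψ u).toMonoidHom)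
  obtain ⟨F, instF, e, he1, hmul, hsurjF⟩ := H50.exists_field_of_transitive (A := Additive R)
    (Additive.ofMul ⟨nb, hnb⟩) (fun h => hnb1 (congrArg Subtype.val (Additive.ofMul.injective h)))
    φ ⟨1, AddMonoidHom.ext fun x => by
        show Additive.ofMul (ψ 1 x.toMul) = x
        rw [map_one]
        rfl⟩
    (fun i j => AddMonoidHom.ext fun x => by
      show Additive.ofMul (ψ i (ψ j x.toMul)) = Additive.ofMul (ψ j (ψ i x.toMul))
      rw [← MulAut.mul_apply, ← map_mul, show i * j = j * i from Subtype.ext (P.comm _ i.2 _ j.2), map_mul,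
        MulAut.mul_apply])
    (fun i x h => (ψ i).injective (h.trans (map_one (ψ i)).symm))
    (fun x hx => by
      have hx1 : x.toMul.1 • a ≠ a := fun h => hx (Subtype.ext (reg _ x.toMul.2 a h))
      obtain ⟨u, hu, he⟩ := P.reach _ hx1
      refine ⟨⟨u, hu⟩, congrArg Additive.ofMul (Subtype.ext
        (uniq _ (hR.conj_mem nb hnb u) _ x.toMul.2 ?_))⟩
      show (u * nb * u⁻¹) • a = _
      rw [conj_smul u (P.le hu), hnba]
      exact he)
  haveI : Finite F := Finite.of_equiv _ e.symm.toEquiv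
  have hcardF : Nat.card F = 2 ^ q := by rw [Nat.card_congr e.toEquiv, ← hq]; rfl
  set H := stabilizer G a ⊓ stabilizer G b with hH
  have centb : ∀ h : H, h.1 * nb * h.1⁻¹ = nb := fun h =>
    uniq _ (hR.conj_mem nb hnb h.1) nb hnb (by rw [conj_smul h.1 h.2.1, hnba, show h.1 • b = b from h.2.2])
  have autG : ∀ h : H, ∃ σ : F ≃+* F, ∀ x : F,
      e (σ x) = Additive.ofMul (MulAut.conjNormal h.1 (e x).toMul) := by
    intro h
    let s : F ≃+ F := (e.trans (MulEquiv.toAdditive (MulAut.conjNormal (H := R) h.1))).trans e.symm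
    have hs : ∀ x : F, e (s x) = Additive.ofMul (MulAut.conjNormal h.1 (e x).toMul) :=
      fun x => e.apply_symm_apply _
    refine ⟨{ s with map_mul' := ?_ }, hs⟩
    intro x y
    show s (x * y) = s x * s y
    rcases eq_or_ne x 0 with rfl | hx
    · rw [zero_mul, map_zero, zero_mul]
    obtain ⟨i, hi⟩ := hsurjF x hx
    obtain ⟨c', -, hc'⟩ := hmul ⟨_, P.conj h.1 h.2.1 i.1 i.2⟩
    have key : ∀ z : F, s (x * z) = c' * s z := by
      intro z
      refine e.injective ?_
      rw [hs, ← hi z, ← hc' (s z), hs]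
      refine congrArg Additive.ofMul (Subtype.ext ?_)
      show h.1 * (i.1 * (e z).toMul.1 * i.1⁻¹) * h.1⁻¹ =
        (h.1 * i.1 * h.1⁻¹) * (h.1 * (e z).toMul.1 * h.1⁻¹) * (h.1 * i.1 * h.1⁻¹)⁻¹
      group
    have hs1 : s 1 = 1 := e.injective (by
      rw [hs, he1]
      exact congrArg Additive.ofMul (Subtype.ext (centb h)))
    have := key 1
    rw [mul_one, hs1, mul_one] at this
    rw [key y, this]
  choose σ hσ using autG
  let pt : F → Ω := fun x => (e x).toMul.1 • a
  have hpt : Function.Bijective pt := by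
    refine ⟨fun x y h => e.injective (Additive.toMul.injective (Subtype.ext
      (uniq _ (e x).toMul.2 _ (e y).toMul.2 h))), fun z => ?_⟩
    obtain ⟨n, hn, hz⟩ := surj z
    exact ⟨e.symm (Additive.ofMul ⟨n, hn⟩), by simp only [pt, AddEquiv.apply_symm_apply]; exact hz⟩
  have hH' : ∀ (h : H) (x : F), h.1 • pt x = pt (σ h x) := by
    intro h x
    simp only [pt, hσ]
    exact (conj_smul h.1 h.2.1 _).symm
  -- the automorphisms embed `H`
  letI : Algebra (ZMod 2) F :=
    haveI := Fintype.ofFinite F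
    haveI : CharP F 2 := charP_of_card_eq_prime_pow (f := q) (by rw [← Nat.card_eq_fintype_card]; exact hcardF)
    ZMod.algebra F 2
  let toAlg : (F ≃+* F) → (F ≃ₐ[ZMod 2] F) := fun s => AlgEquiv.ofRingEquiv (f := s) fun x =>
    congrFun (congrArg DFunLike.coe
      (Subsingleton.elim (s.toRingHom.comp (algebraMap (ZMod 2) F)) (algebraMap (ZMod 2) F))) x
  let σh : H →* (F ≃ₐ[ZMod 2] F) := MonoidHom.mk' (fun h => toAlg (σ h)) fun h h' => AlgEquiv.ext fun x => by
    refine e.injective ?_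
    show e (σ (h * h') x) = e (σ h (σ h' x))
    rw [hσ, hσ, hσ]
    refine congrArg Additive.ofMul (Subtype.ext ?_)
    show h.1 * h'.1 * (e x).toMul.1 * (h.1 * h'.1)⁻¹ = h.1 * (h'.1 * (e x).toMul.1 * h'.1⁻¹) * h.1⁻¹
    group
  have hσinj : Function.Injective σh := by
    rw [injective_iff_map_eq_one]
    intro h h1
    refine Subtype.ext (FaithfulSMul.eq_of_smul_eq_smul (α := Ω) fun z => ?_)
    obtain ⟨x, rfl⟩ := hpt.2 z
    rw [hH', OneMemClass.coe_one, one_smul, show σ h x = σh h x from rfl, h1]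
    rfl
  have hdq : d ∣ q := by
    have h := Subgroup.card_dvd_of_injective σh hσinj
    rw [hH, P.cardH, IsGalois.card_aut_eq_finrank] at h
    have h2 := Module.natCard_eq_pow_finrank (K := ZMod 2) (V := F)
    rw [hcardF, Nat.card_zmod] at h2
    rwa [← Nat.pow_right_injective le_rfl h2] at h
  haveI := Fintype.ofFinite F
  haveI := Fintype.ofFinite (GaloisField 2 q)
  obtain ⟨ρ⟩ : Nonempty (F ≃+* GaloisField 2 q) := ⟨FiniteField.ringEquivOfCardEq (by
    rw [← Nat.card_eq_fintype_card, ← Nat.card_eq_fintype_card, hcardF, GaloisField.card 2 q hqp.ne_zero])⟩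
  refine ⟨q, inferInstance, hqp, hpq, hqp.eq_one_or_self_of_dvd d hdq,
    (Equiv.ofBijective pt hpt).symm.trans ρ.toEquiv, fun g => ?_⟩
  obtain ⟨r, hr, hra⟩ := surj (g • a)
  have hsa : (r⁻¹ * g) • a = a := by rw [mul_smul, ← hra, inv_smul_smul]
  obtain ⟨u, hu, hub⟩ := P.reach ((r⁻¹ * g) • b)
    (fun e' => P.ne (smul_left_cancel _ (hsa.trans e'.symm)))
  have hm : u⁻¹ * (r⁻¹ * g) ∈ H := ⟨by
    show (u⁻¹ * (r⁻¹ * g)) • a = a
    rw [mul_smul, hsa, inv_smul_eq_iff]; exact (P.le hu).symm, by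
    show (u⁻¹ * (r⁻¹ * g)) • b = b
    rw [mul_smul, ← hub, inv_smul_smul]⟩
  obtain ⟨c, hc, hcu⟩ := hmul ⟨u, hu⟩
  set y : F := e.symm (Additive.ofMul ⟨r, hr⟩) with hy
  have key : ∀ x : F, g • pt x = pt (c * σ ⟨_, hm⟩ x + y) := by
    intro x
    have hg : g • pt x = r • u • (u⁻¹ * (r⁻¹ * g)) • pt x := by
      rw [mul_smul u⁻¹, smul_inv_smul, mul_smul r⁻¹, smul_inv_smul]
    rw [hg, hH' ⟨_, hm⟩ x]
    set z := σ ⟨_, hm⟩ x
    have h1 : u • pt z = pt (c * z) := by
      simp only [pt]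
      rw [← hcu z, ← conj_smul u (P.le hu)]
      rfl
    rw [h1]
    simp only [pt, hy, map_add, AddEquiv.apply_symm_apply]
    rw [add_comm (e (c * z)), toMul_add, toMul_ofMul, Subgroup.coe_mul, mul_smul]
  refine ⟨Units.mk0 (ρ c) ((map_ne_zero ρ).2 hc), ρ y, (ρ.symm.trans (σ ⟨_, hm⟩)).trans ρ, fun x => ?_⟩
  show ρ ((Equiv.ofBijective pt hpt).symm (g • pt (ρ.symm x))) = _
  rw [key, Equiv.ofBijective_symm_apply_apply, map_add, map_mul]
  rfl

end PDeg

end Cfsg.Agent.H7
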