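import Cfsg.Agent.H7.DegreeEighteen

/-!
Groups with trivial centre whose numbers of Sylow subgroups are 18, 136 and 153.
-/

set_option autoImplicit false
set_option linter.style.haveILetI false

namespace Cfsg.Agent.H7

open MulAction
open scoped Pointwise MatrixGroups

section psl

variable {F : Type*} [Field F] [Fintype F]

/-- Subgroups of order nine of `PSL₂(17)` are cyclic. -/
theorem psl_cyclic_nine (hF : Fintype.card F = 17) (Q : Subgroup PSL(2, F)) (hQ : Nat.card Q = 9) : IsCyclic Q := by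
  haveI : Fact (Nat.Prime 17) := ⟨by norm_num⟩
  haveI : Fact (Nat.Prime 3) := ⟨Nat.prime_three⟩
  haveI : CharP F 17 := charP_of_card_eq_prime_pow (f := 1) (by rw [pow_one]; exact hF)
  obtain ⟨x, hx⟩ := exists_prime_orderOf_dvd_card' 3 (show 3 ∣ Nat.card Q by rw [hQ]; norm_num)
  obtain ⟨g₀, hg₀⟩ := H6.π_surjective x.1
  have hxo : orderOf (x : PSL(2, F)) = 3 := by rwa [Subgroup.orderOf_coe]
  have hgo : orderOf g₀ ∣ 6 := by
    have h3 : H6.π (g₀ ^ 3) = 1 := by rw [map_pow, hg₀, ← hxo, pow_orderOf_eq_one]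
    refine orderOf_dvd_of_pow_eq_one ?_
    rw [show 6 = 3 * 2 from rfl, pow_mul]
    rcases H6.π_eq_one_iff.1 h3 with h | h <;> rw [h] <;> simp
  have hns : ¬ H6.IsScal g₀ := fun h => by
    rw [← H6.π_eq_one_iff_isScal, hg₀] at h
    rw [h, orderOf_one] at hxo
    norm_num at hxo
  have ht : H6.tr g₀ ^ 2 ≠ 4 :=
    H6.ss_of_coprime_order 17 (Nat.Coprime.coprime_dvd_left hgo (by norm_num)) hns
  haveI := H6.tor_cyclic ht
  have hcomm : ∀ y ∈ Q, y * x.1 = x.1 * y := fun y hy => by
    have := (IsPGroup.isMulCommutative_of_card_eq_prime_sq (p := 3) (G := Q) (by rw [hQ]; norm_num)).is_comm.comm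
      ⟨y, hy⟩ x
    exact congrArg Subtype.val this
  have hle : Q ≤ H6.tor g₀ := by
    intro y hy
    obtain ⟨k, rfl⟩ := H6.π_surjective y
    have h := hcomm _ hy
    rw [← hg₀, ← map_mul, ← map_mul, H6.π_eq_iff] at h
    rw [H6.mem_tor, H6.mem_cent]
    rcases h with h | h
    · exact h.symm
    · exfalso
      have h1 : H6.tr g₀ = -H6.tr g₀ := by
        have := congrArg H6.tr (show k * g₀ * k⁻¹ = -g₀ by rw [h, neg_mul, mul_inv_cancel_right])
        rwa [H6.tr_conj, H6.tr_neg] at this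
      have h2 : (2 : F) ≠ 0 := H6.two_ne_of_odd hF (by decide)
      have h0 : H6.tr g₀ = 0 := (mul_eq_zero.1 (show 2 * H6.tr g₀ = 0 by rw [two_mul]; nth_rewrite 2 [h1]; exact add_neg_cancel _)).resolve_left h2
      have := (H6.orderOf_π_eq_two_iff h2).2 h0
      rw [hg₀, hxo] at this
      norm_num at this
  exact isCyclic_of_injective (Subgroup.inclusion hle) (Subgroup.inclusion_injective hle)

/-- The same in a group having `PSL₂(17)` as a subgroup of index at most two. -/
theorem cyclic_nine_of_psl {X : Type*} [Group X] [Finite X] (hF : Fintype.card F = 17) (f : PSL(2, F) →* X)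
    (hf : Function.Injective f) (hi : f.range.index ∣ 2) (Q : Subgroup X) (hQ : Nat.card Q = 9) : IsCyclic Q := by
  have hle : Q ≤ f.range := by
    intro y hy
    rcases (Nat.dvd_prime Nat.prime_two).1 hi with h | h
    · rw [Subgroup.index_eq_one.1 h]; trivial
    · have h9 : y ^ 9 = 1 := by
        rw [← hQ, ← orderOf_dvd_iff_pow_eq_one]
        exact Subgroup.orderOf_dvd_natCard Q hy
      rw [show y = (y ^ 5) ^ 2 by rw [← pow_mul, show 5 * 2 = 9 + 1 from rfl, pow_succ, h9, one_mul]]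
      exact Subgroup.sq_mem_of_index_two h _
  have hmap : (Q.comap f).map f = Q := by rw [Subgroup.map_comap_eq, inf_eq_right.2 hle]
  let e := (Q.comap f).equivMapOfInjective f hf
  haveI := psl_cyclic_nine hF (Q.comap f) (by rw [Nat.card_congr e.toEquiv, hmap, hQ])
  rw [← hmap]
  exact isCyclic_of_surjective e.toMonoidHom e.surjective

end psl

section normalises

variable {G X : Type*} [Group G] [Finite G] [Group X]

theorem card_sylow_le_of_surjective {p : ℕ} [Fact p.Prime] (φ : G →* X) (hφ : Function.Surjective φ) :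
    Nat.card (Sylow p X) ≤ Nat.card (Sylow p G) :=
  Nat.card_le_card_of_surjective _ (Sylow.mapSurjective_surjective hφ p)

/-- If the number of Sylow subgroups does not drop in a quotient, the kernel normalises all of them. -/
theorem ker_le_normalizer {p : ℕ} [Fact p.Prime] (φ : G →* X) (hφ : Function.Surjective φ)
    (h : Nat.card (Sylow p G) ≤ Nat.card (Sylow p X)) (P : Sylow p G) :
    φ.ker ≤ Subgroup.normalizer ((P : Subgroup G) : Set G) := by
  haveI : Finite X := Finite.of_surjective φ hφ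
  have hsurj := Sylow.mapSurjective_surjective hφ p
  have hinj : Function.Injective (Sylow.mapSurjective hφ : Sylow p G → Sylow p X) :=
    (Nat.bijective_iff_surjective_and_card _).2 ⟨hsurj, le_antisymm h (card_sylow_le_of_surjective φ hφ)⟩ |>.1
  intro k hk
  rw [Sylow.coe_coe, ← Sylow.smul_eq_iff_mem_normalizer]
  refine hinj (Sylow.ext ?_)
  rw [Sylow.coe_mapSurjective, Sylow.coe_mapSurjective, Sylow.coe_subgroup_smul]
  ext y
  simp only [Subgroup.mem_map]
  constructor
  · rintro ⟨t, ht, rfl⟩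
    obtain ⟨u, hu, rfl⟩ := (Subgroup.mem_smul_pointwise_iff_exists _ _ _).1 ht
    refine ⟨u, hu, ?_⟩
    show φ u = φ (k * u * k⁻¹)
    rw [map_mul, map_mul, map_inv, MonoidHom.mem_ker.1 hk]
    simp
  · rintro ⟨u, hu, rfl⟩
    refine ⟨_, Subgroup.smul_mem_pointwise_smul _ _ _ hu, ?_⟩
    show φ (k * u * k⁻¹) = φ u
    rw [map_mul, map_mul, map_inv, MonoidHom.mem_ker.1 hk]
    simp

variable (K : Subgroup G) {p : ℕ} [Fact p.Prime]

/-- A `p`-subgroup of a group normalising a Sylow `p`-subgroup lies in it. -/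
theorem le_sylow_of_normalizes (P : Sylow p G) (hK : K ≤ Subgroup.normalizer ((P : Subgroup G) : Set G))
    {Q : Subgroup G} (hQ : IsPGroup p Q) (hQK : Q ≤ K) : Q ≤ (P : Subgroup G) := by
  have h := hQ.inf_normalizer_sylow P
  rw [inf_eq_left.2 (hQK.trans (by rw [← Sylow.coe_coe]; exact hK))] at h
  exact inf_eq_left.1 h.symm

theorem inf_sylow_normal [K.Normal] (hK : ∀ P : Sylow p G, K ≤ Subgroup.normalizer ((P : Subgroup G) : Set G))
    (P : Sylow p G) : (K ⊓ (P : Subgroup G)).Normal := by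
  refine ⟨fun x hx g => ⟨Subgroup.Normal.conj_mem ‹K.Normal› x hx.1 g, ?_⟩⟩
  refine le_sylow_of_normalizes K P (hK P) (Q := Subgroup.zpowers (g * x * g⁻¹)) ?_
    (Subgroup.zpowers_le.2 (Subgroup.Normal.conj_mem ‹K.Normal› x hx.1 g)) (Subgroup.mem_zpowers _)
  obtain ⟨k, hk⟩ := IsPGroup.iff_orderOf.1 P.2 ⟨x, hx.2⟩
  refine IsPGroup.of_card (n := k) ?_
  rw [Nat.card_zpowers, show g * x * g⁻¹ = MulAut.conj g x from rfl, (MulAut.conj g).orderOf_eq,
    ← hk, Subgroup.orderOf_mk]

theorem card_inf_sylow (hK : ∀ P : Sylow p G, K ≤ Subgroup.normalizer ((P : Subgroup G) : Set G))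
    (P : Sylow p G) {L : Subgroup G} (hL : L ≤ K) :
    Nat.card (L ⊓ (P : Subgroup G) : Subgroup G) = p ^ (Nat.card L).factorization p := by
  have hp : p.Prime := Fact.out
  obtain ⟨S⟩ := Sylow.nonempty (p := p) (G := L)
  set S' := (S : Subgroup L).map L.subtype with hS'
  have hS'c : Nat.card S' = p ^ (Nat.card L).factorization p := by
    rw [hS', Subgroup.card_map_of_injective L.subtype_injective, S.card_eq_multiplicity]
  have hle : S' ≤ L ⊓ (P : Subgroup G) :=
    le_inf (Subgroup.map_subtype_le _)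
      (le_sylow_of_normalizes K P (hK P) (S.2.map _) ((Subgroup.map_subtype_le _).trans hL))
  obtain ⟨k, hk⟩ := IsPGroup.iff_card.1 ((P.2).to_le (inf_le_right : L ⊓ (P : Subgroup G) ≤ P))
  refine le_antisymm ?_ (hS'c ▸ Subgroup.card_le_of_le hle)
  have h1 : p ^ k ∣ Nat.card L := hk ▸ Subgroup.card_dvd_of_le inf_le_left
  rw [hk]
  exact Nat.pow_le_pow_right hp.pos ((hp.pow_dvd_iff_le_factorization Nat.card_pos.ne').1 h1)

/-- Elements of coprime order in the two parts commute. -/
theorem inf_sylow_commutes [K.Normal] (hK : ∀ P : Sylow p G, K ≤ Subgroup.normalizer ((P : Subgroup G) : Set G))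
    {q : ℕ} [Fact q.Prime] (hpq : p ≠ q) (P : Sylow p G) (Q : Sylow q G)
    {z : G} (hz : z ∈ K ⊓ (P : Subgroup G)) (hzQ : z ∈ Subgroup.normalizer ((Q : Subgroup G) : Set G))
    {y : G} (hy : y ∈ (Q : Subgroup G)) : z * y = y * z := by
  haveI := inf_sylow_normal K hK P
  have hQ : z * y * z⁻¹ * y⁻¹ ∈ (Q : Subgroup G) :=
    mul_mem ((Subgroup.mem_normalizer_iff.1 hzQ y).1 hy) (inv_mem hy)
  have hT : z * y * z⁻¹ * y⁻¹ ∈ K ⊓ (P : Subgroup G) := by
    rw [show z * y * z⁻¹ * y⁻¹ = z * (y * z⁻¹ * y⁻¹) by group]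
    exact mul_mem hz (Subgroup.Normal.conj_mem inferInstance _ (inv_mem hz) y)
  have h := Subgroup.disjoint_def.1 (IsPGroup.disjoint_of_ne p q hpq _ _ P.2 Q.2) hT.2 hQ
  exact (commutatorElement_eq_one_iff_mul_comm.1 h)

end normalises

/-- The groups with trivial centre and Sylow numbers 18, 136 and 153. -/
theorem psl_seventeen_of_sylow_numbers {G : Type*} [Group G] [Finite G] (hZ : Subgroup.center G = ⊥)
    (hNS : {c : ℕ | ∃ r : ℕ, r.Prime ∧ r ∣ Nat.card G ∧ c = Nat.card (Sylow r G)} = ({18, 136, 153} : Set ℕ))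
    {F : Type*} [Field F] [Fintype F] (hF : Fintype.card F = 17) :
    Nonempty (G ≃* PSL(2, F)) ∨ Nonempty (G ≃* Matrix.ProjGenLinGroup (Fin 2) F) := by
  classical
  haveI h17 : Fact (Nat.Prime 17) := ⟨by norm_num⟩
  haveI h2 : Fact (Nat.Prime 2) := ⟨Nat.prime_two⟩
  haveI h3 : Fact (Nat.Prime 3) := ⟨Nat.prime_three⟩
  have hget : ∀ c ∈ ({18, 136, 153} : Set ℕ), ∃ r : ℕ, r.Prime ∧ r ∣ Nat.card G ∧ c = Nat.card (Sylow r G) :=
    fun c hc => by rw [← hNS] at hc; exact hc
  have hval : ∀ r : ℕ, r.Prime → r ∣ Nat.card G →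
      Nat.card (Sylow r G) = 18 ∨ Nat.card (Sylow r G) = 136 ∨ Nat.card (Sylow r G) = 153 := by
    intro r hr hrd
    have : Nat.card (Sylow r G) ∈ ({18, 136, 153} : Set ℕ) := by rw [← hNS]; exact ⟨r, hr, hrd, rfl⟩
    simpa using this
  have hdvd : ∀ (r : ℕ) [Fact r.Prime], Nat.card (Sylow r G) ∣ Nat.card G := fun r _ => by
    obtain ⟨P⟩ := Sylow.nonempty (p := r) (G := G)
    exact P.card_dvd_index.trans (Subgroup.index_dvd_card _)
  have hmod : ∀ r : ℕ, r.Prime → Nat.card (Sylow r G) % r = 1 := fun r hr => by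
    haveI := Fact.mk hr
    have := card_sylow_modEq_one r G
    rwa [Nat.ModEq, Nat.one_mod_eq_one.2 hr.one_lt.ne'] at this
  have hprime : ∀ r : ℕ, r.Prime → r ∣ Nat.card G →
      (Nat.card (Sylow r G) = 18 ∧ r = 17) ∨ (Nat.card (Sylow r G) = 136 ∧ (r = 3 ∨ r = 5)) ∨
        (Nat.card (Sylow r G) = 153 ∧ (r = 2 ∨ r = 19)) := by
    intro r hr hrd
    have hm := hmod r hr
    have h1 := hr.two_le
    rcases hval r hr hrd with h | h | h <;> rw [h] at hm
    · refine Or.inl ⟨h, ?_⟩
      have hd : r ∣ 17 := (show (17 : ℕ) = 18 - 1 by norm_num) ▸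
        (Nat.modEq_iff_dvd' (by omega)).1 (show 1 ≡ 18 [MOD r] by rw [Nat.ModEq, hm, Nat.one_mod_eq_one.2 hr.one_lt.ne'])
      exact (Nat.prime_dvd_prime_iff_eq hr (by norm_num)).1 hd
    · refine Or.inr (Or.inl ⟨h, ?_⟩)
      have hd : r ∣ 3 ^ 3 * 5 := (show (3 ^ 3 * 5 : ℕ) = 136 - 1 by norm_num) ▸
        (Nat.modEq_iff_dvd' (by omega)).1 (show 1 ≡ 136 [MOD r] by rw [Nat.ModEq, hm, Nat.one_mod_eq_one.2 hr.one_lt.ne'])
      rcases hr.dvd_mul.1 hd with h | h
      · exact Or.inl ((Nat.prime_dvd_prime_iff_eq hr Nat.prime_three).1 (hr.dvd_of_dvd_pow h))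
      · exact Or.inr ((Nat.prime_dvd_prime_iff_eq hr (by norm_num)).1 h)
    · refine Or.inr (Or.inr ⟨h, ?_⟩)
      have hd : r ∣ 2 ^ 3 * 19 := (show (2 ^ 3 * 19 : ℕ) = 153 - 1 by norm_num) ▸
        (Nat.modEq_iff_dvd' (by omega)).1 (show 1 ≡ 153 [MOD r] by rw [Nat.ModEq, hm, Nat.one_mod_eq_one.2 hr.one_lt.ne'])
      rcases hr.dvd_mul.1 hd with h | h
      · exact Or.inl ((Nat.prime_dvd_prime_iff_eq hr Nat.prime_two).1 (hr.dvd_of_dvd_pow h))
      · exact Or.inr ((Nat.prime_dvd_prime_iff_eq hr (by norm_num)).1 h)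
  obtain ⟨hd17, hn17⟩ : 17 ∣ Nat.card G ∧ Nat.card (Sylow 17 G) = 18 := by
    obtain ⟨r, hr, hrd, hc⟩ := hget 18 (by simp)
    rcases hprime r hr hrd with ⟨h, rfl⟩ | ⟨h, -⟩ | ⟨h, -⟩
    · exact ⟨hrd, h⟩
    · omega
    · omega
  have h18 : 18 ∣ Nat.card G := hn17 ▸ hdvd 17
  have hn2 : Nat.card (Sylow 2 G) = 153 := by
    rcases hprime 2 Nat.prime_two ((show 2 ∣ 18 by norm_num).trans h18) with ⟨-, h⟩ | ⟨-, h⟩ | ⟨h, -⟩
    · omega
    · omega
    · exact h
  have hn3 : Nat.card (Sylow 3 G) = 136 := by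
    rcases hprime 3 Nat.prime_three ((show 3 ∣ 18 by norm_num).trans h18) with ⟨-, h⟩ | ⟨h, -⟩ | ⟨-, h⟩
    · omega
    · exact h
    · omega
  -- the action on the Sylow 17-subgroups
  haveI : Fintype (Sylow 17 G) := Fintype.ofFinite _
  set φ₀ := MulAction.toPermHom G (Sylow 17 G) with hφ₀
  set X := φ₀.range with hX
  set φ : G →* X := φ₀.rangeRestrict with hφ
  have hφs : Function.Surjective φ := φ₀.rangeRestrict_surjective
  haveI : IsPretransitive X (Sylow 17 G) := ⟨fun x y => by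
    obtain ⟨g, hg⟩ := exists_smul_eq G x y
    exact ⟨φ g, hg⟩⟩
  have hΩ : Fintype.card (Sylow 17 G) = 18 := by rw [← Nat.card_eq_fintype_card]; exact hn17
  obtain ⟨P⟩ := Sylow.nonempty (p := 17) (G := G)
  obtain ⟨Q, hQ⟩ := Fintype.exists_ne_of_one_lt_card (show 1 < Fintype.card (Sylow 17 G) by omega) P
  obtain ⟨y, hy, hyQ⟩ : ∃ y ∈ (P : Subgroup G), y • Q ≠ Q := by
    by_contra hc
    push Not at hc
    refine hQ.symm (Sylow.ext ?_)
    refine le_antisymm ?_ ?_
    · exact le_sylow_of_normalizes (P : Subgroup G) Q (fun y hy => by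
        rw [Sylow.coe_coe]; exact Sylow.smul_eq_iff_mem_normalizer.1 (hc y hy)) P.2 le_rfl
    · refine le_of_eq ?_
      have h : (P : Subgroup G) ≤ (Q : Subgroup G) := le_sylow_of_normalizes (P : Subgroup G) Q (fun y hy => by
        rw [Sylow.coe_coe]; exact Sylow.smul_eq_iff_mem_normalizer.1 (hc y hy)) P.2 le_rfl
      exact (P.3 Q.2 h)
  have hxne : φ y ≠ 1 := fun e => hyQ (by
    have := congrArg (fun x : X => (x : Equiv.Perm (Sylow 17 G)) Q) e
    exact this)
  have hxo : orderOf (φ y) = 17 := by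
    obtain ⟨k, hk⟩ := IsPGroup.iff_orderOf.1 P.2 ⟨y, hy⟩
    rw [Subgroup.orderOf_mk] at hk
    obtain ⟨i, -, hi⟩ := (Nat.dvd_prime_pow h17.out).1 (hk ▸ orderOf_map_dvd φ y)
    have hdiv : orderOf (φ y) ∣ Nat.factorial 18 := by
      refine (orderOf_dvd_natCard (φ y)).trans ((Subgroup.card_subgroup_dvd_card X).trans ?_)
      rw [Nat.card_eq_fintype_card, Fintype.card_perm, hΩ]
    rw [hi] at hdiv ⊢
    rcases i with _ | _ | i
    · exact absurd (orderOf_eq_one_iff.1 (hi.trans (pow_zero 17))) hxne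
    · norm_num
    · exfalso
      have h2' : 17 ^ 2 ∣ Nat.factorial 18 := (pow_dvd_pow 17 (by omega)).trans hdiv
      norm_num [Nat.factorial] at h2'
  have hxa : φ y • P = P := by
    show y • P = P
    exact Sylow.smul_eq_iff_mem_normalizer.2 (by rw [← Sylow.coe_coe]; exact Subgroup.le_normalizer hy)
  -- the image of `P` is generated by `φ y`
  have himg : ((P : Subgroup G).map φ) = Subgroup.zpowers (φ y) := by
    symm
    refine Subgroup.eq_of_le_of_card_ge (Subgroup.zpowers_le.2 ⟨y, hy, rfl⟩) ?_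
    rw [Nat.card_zpowers, hxo]
    obtain ⟨k, hk⟩ := IsPGroup.iff_card.1 (P.2.map φ)
    rw [hk]
    have hdiv : 17 ^ k ∣ Nat.factorial 18 := by
      rw [← hk]
      refine (Subgroup.card_subgroup_dvd_card _).trans ((Subgroup.card_subgroup_dvd_card X).trans ?_)
      rw [Nat.card_eq_fintype_card, Fintype.card_perm, hΩ]
    rcases k with _ | _ | k
    · norm_num
    · norm_num
    · exfalso
      have h2' : 17 ^ 2 ∣ Nat.factorial 18 := (pow_dvd_pow 17 (by omega)).trans hdiv
      norm_num [Nat.factorial] at h2'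
  obtain ⟨d, hd16, hXc⟩ := card_of_normal_prime h17.out hΩ X hxo hxa (fun g hg => by
    obtain ⟨w, rfl⟩ := hφs g
    have hw : w • P = P := hg
    rw [← himg]
    refine ⟨w * y * w⁻¹, ?_, by rw [map_mul, map_mul, map_inv]⟩
    have := Sylow.smul_eq_iff_mem_normalizer.1 hw
    rw [← Sylow.coe_coe] at this
    exact (Subgroup.mem_normalizer_iff.1 this y).1 hy)
  have hd17' : d < 17 := by have := Nat.le_of_dvd (by norm_num) hd16; omega
  obtain ⟨b, U, PD⟩ := exists_pdeg h17.out hΩ hXc hd17' P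
  have hd0 : 0 < d := PD.cardH ▸ Nat.card_pos
  have hd1 : d ≠ 1 := by
    rintro rfl
    obtain ⟨R, hR1, hR2, hR3⟩ := PD.exists_regular h17.out
    obtain ⟨q, _, -, hq, -⟩ := PD.semiaffine h17.out (by norm_num) hΩ R hR1 hR3
    have : q ≤ 4 ∨ 5 ≤ q := le_or_gt q 4
    rcases this with h | h
    · interval_cases q <;> norm_num at hq
    · have := Nat.pow_le_pow_right two_pos h
      omega
  have Z : ZHyp X (Sylow 17 G) := PD.zhyp (by omega)
  have hev : Even (Nat.card ↥(stabilizer X P ⊓ stabilizer X b)) := by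
    rw [PD.cardH]
    obtain ⟨i, -, rfl⟩ := (Nat.dvd_prime_pow Nat.prime_two).1 (show d ∣ 2 ^ 4 by norm_num; exact hd16)
    exact Nat.even_pow.2 ⟨even_two, fun e => hd1 (by rw [e, pow_zero])⟩
  have hcases : d = 8 ∨ d = 16 := by
    rcases Z.even_cases PD.ne hev with h | h <;> rw [PD.cardH, hΩ] at h <;> omega
  -- identification of the image
  have hident : (∀ T : Sylow 3 X, IsCyclic T) ∧ (Nonempty (X ≃* PSL(2, F)) ∨
      Nonempty (X ≃* Matrix.ProjGenLinGroup (Fin 2) F)) := by
    have hQ9 : ∀ T : Sylow 3 X, Nat.card (T : Subgroup X) = 9 := fun T => by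
      show Nat.card T = 9
      rw [T.card_eq_multiplicity, hXc]
      rcases hcases with rfl | rfl
      · rw [factorization_aux 2 272 Nat.prime_three (by norm_num) (by norm_num)]; norm_num
      · rw [factorization_aux 2 544 Nat.prime_three (by norm_num) (by norm_num)]; norm_num
    have hpsl : Nat.card PSL(2, F) = 2448 := by
      rw [H6.card_psl2 hF]; norm_num
    rcases hcases with rfl | rfl
    · obtain ⟨K, i1, i2, -, hK, ⟨e⟩⟩ := Z.psl_of_even_half PD.ne hev (by rw [PD.cardH, hΩ])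
      let e' := e.trans (H6.pslEquiv (FiniteField.ringEquivOfCardEq
        (show Fintype.card K = Fintype.card F by omega)))
      refine ⟨fun T => ?_, Or.inl ⟨e'⟩⟩
      refine cyclic_nine_of_psl hF e'.symm.toMonoidHom e'.symm.injective ?_ _ (hQ9 T)
      rw [MonoidHom.range_eq_top.2 e'.symm.surjective, Subgroup.index_top]
      exact one_dvd _
    · obtain ⟨h3', hs⟩ := Z.sharply PD.ne (by rw [PD.cardH, hΩ])
      obtain ⟨K, i1, i2, hK, ⟨e⟩⟩ := Cfsg.Agent.S0730.result (f := 1) h17.out (by norm_num) odd_one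
        (by rw [hΩ]; norm_num) X h3' hs
      rw [pow_one] at hK
      let e' := e.trans (H6.pglEquiv (FiniteField.ringEquivOfCardEq
        (show Fintype.card K = Fintype.card F by omega)))
      refine ⟨fun T => ?_, Or.inr ⟨e'⟩⟩
      let f := e'.symm.toMonoidHom.comp (Matrix.ProjectiveSpecialLinearGroup.toPGL (n := Fin 2) (R := F))
      have hf : Function.Injective f :=
        e'.symm.injective.comp Matrix.ProjectiveSpecialLinearGroup.toPGL_injective
      refine cyclic_nine_of_psl hF f hf ?_ _ (hQ9 T)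
      have h1 := f.range.card_mul_index
      rw [← Nat.card_congr (MonoidHom.ofInjective hf).toEquiv, hpsl, hXc] at h1
      exact ⟨1, by omega⟩
  obtain ⟨hn2X, hn3X⟩ := sylow_numbers_eighteen hΩ PD hcases hXc hident.1
  -- the kernel
  set K := φ.ker with hKdef
  have hK2 : ∀ S : Sylow 2 G, K ≤ Subgroup.normalizer ((S : Subgroup G) : Set G) :=
    ker_le_normalizer φ hφs (hn2 ▸ hn2X)
  have hK3 : ∀ S : Sylow 3 G, K ≤ Subgroup.normalizer ((S : Subgroup G) : Set G) :=
    ker_le_normalizer φ hφs (hn3 ▸ hn3X)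
  have hK17 : ∀ S : Sylow 17 G, K ≤ Subgroup.normalizer ((S : Subgroup G) : Set G) := fun S k hk => by
    rw [Sylow.coe_coe, ← Sylow.smul_eq_iff_mem_normalizer]
    exact congrArg (fun x : X => (x : Equiv.Perm (Sylow 17 G)) S) (MonoidHom.mem_ker.1 hk)
  -- no further primes
  have hnobig : ∀ r : ℕ, r.Prime → r ∣ Nat.card G → r = 2 ∨ r = 3 ∨ r = 17 := by
    intro r hr hrd
    by_contra hc
    rw [not_or, not_or] at hc
    haveI := Fact.mk hr
    obtain ⟨m, hnm, hm17, hr5⟩ : ∃ m, Nat.card (Sylow r G) = 17 * m ∧ ¬ 17 ∣ m ∧ (r = 5 ∨ r = 19) := by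
      rcases hprime r hr hrd with ⟨-, h⟩ | ⟨h, h'⟩ | ⟨h, h'⟩
      · omega
      · exact ⟨8, h, by norm_num, by omega⟩
      · exact ⟨9, h, by norm_num, by omega⟩
    have hrX : ¬ r ∣ Nat.card X := by
      rw [hXc]
      rcases hcases with rfl | rfl <;> rcases hr5 with rfl | rfl <;> norm_num
    obtain ⟨R⟩ := Sylow.nonempty (p := r) (G := G)
    have hRK : (R : Subgroup G) ≤ K := by
      intro x hx
      rw [hKdef, MonoidHom.mem_ker, ← orderOf_eq_one_iff]
      obtain ⟨k, hk⟩ := IsPGroup.iff_orderOf.1 R.2 ⟨x, hx⟩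
      rw [Subgroup.orderOf_mk] at hk
      exact Nat.eq_one_of_dvd_coprimes (Nat.Coprime.pow_left k (hr.coprime_iff_not_dvd.2 hrX))
        ((orderOf_map_dvd φ x).trans hk.dvd) (orderOf_dvd_natCard _)
    set N := Subgroup.normalizer ((R : Subgroup G) : Set G) with hN
    have hsup : N ⊔ K = ⊤ := by rw [hN, Sylow.coe_coe]; exact Sylow.normalizer_sup_eq_top' R hRK
    set T := K ⊓ (P : Subgroup G) with hT
    haveI hTn : T.Normal := inf_sylow_normal K hK17 P
    set C := N ⊓ K ⊓ (P : Subgroup G) with hC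
    have hTc := card_inf_sylow K hK17 P (le_refl K)
    have hCc := card_inf_sylow K hK17 P (inf_le_right : N ⊓ K ≤ K)
    have hKN : Nat.card K = Nat.card (Sylow r G) * Nat.card (N ⊓ K : Subgroup G) := by
      have h1 := N.card_mul_index
      have h2 : N.index = Nat.card (Sylow r G) := by
        rw [hN, Sylow.coe_coe]; exact R.card_eq_index_normalizer.symm
      let ψ : N →* X := φ.comp N.subtype
      have hψs : Function.Surjective ψ := fun x => by
        obtain ⟨g, rfl⟩ := hφs x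
        obtain ⟨n, hn, k, hk, rfl⟩ := Subgroup.mem_sup_of_normal_right.1 (hsup ▸ Subgroup.mem_top g)
        exact ⟨⟨n, hn⟩, by show φ n = φ (n * k); rw [map_mul, MonoidHom.mem_ker.1 hk, mul_one]⟩
      have h3 : Nat.card (N ⊓ K : Subgroup G) * Nat.card X = Nat.card N := by
        rw [← ψ.ker.card_mul_index, Subgroup.index_ker, MonoidHom.range_eq_top.2 hψs, Subgroup.card_top]
        congr 1
        exact Nat.card_congr
          { toFun := fun g => ⟨⟨g.1, g.2.1⟩, g.2.2⟩
            invFun := fun g => ⟨g.1.1, g.1.2, g.2⟩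
            left_inv := fun _ => rfl
            right_inv := fun _ => rfl }
      have h4 : Nat.card K * Nat.card X = Nat.card G := by
        rw [← φ.ker.card_mul_index, Subgroup.index_ker, MonoidHom.range_eq_top.2 hφs, Subgroup.card_top]
      refine Nat.eq_of_mul_eq_mul_right (Nat.card_pos (α := X)) ?_
      rw [h4, ← h1, ← h3, h2]; ring
    have hTC : Nat.card T = 17 * Nat.card C := by
      rw [hT, hTc, hC, hCc, hKN, hnm, Nat.factorization_mul (by omega) Nat.card_pos.ne', Finsupp.add_apply,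
        factorization_aux 1 m h17.out (by ring) hm17, pow_add, pow_one]
    -- `R` acts on `T` with fixed points `C`
    let act : MulAction (R : Subgroup G) T :=
      MulAction.compHom T ((MulAut.conjNormal (H := T)).comp (R : Subgroup G).subtype)
    have hfix : Nat.card (@fixedPoints (R : Subgroup G) T _ act) = Nat.card C := by
      refine Nat.card_congr
        { toFun := fun t => ⟨t.1.1, ⟨?_, t.1.2.1⟩, t.1.2.2⟩
          invFun := fun c => ⟨⟨c.1, c.2.1.2, c.2.2⟩, fun u => Subtype.ext ?_⟩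
          left_inv := fun _ => rfl
          right_inv := fun _ => rfl }
      · refine Subgroup.centralizer_le_normalizer _ (Subgroup.mem_centralizer_iff.2 fun u hu => ?_)
        have h1 : u * t.1.1 * u⁻¹ = t.1.1 := congrArg Subtype.val (t.2 ⟨u, hu⟩)
        exact mul_inv_eq_iff_eq_mul.1 h1
      · show u.1 * c.1 * u.1⁻¹ = c.1
        rw [mul_inv_eq_iff_eq_mul]
        exact (inf_sylow_commutes K hK17 (Ne.symm hc.2.2) P R ⟨c.2.1.2, c.2.2⟩ c.2.1.1 u.2).symm
    have hmeq := @IsPGroup.card_modEq_card_fixedPoints r (R : Subgroup G) _ R.2 _ T act _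
    rw [hfix, hTC] at hmeq
    obtain ⟨c, hcc⟩ := IsPGroup.iff_card.1 ((P.2).to_le (inf_le_right : C ≤ P))
    have hcop : Nat.gcd r (Nat.card C) = 1 := by
      rw [hcc]
      exact Nat.Coprime.pow_right c ((Nat.coprime_primes hr h17.out).2 hc.2.2)
    have h17r : 17 ≡ 1 [MOD r] := by
      refine Nat.ModEq.cancel_right_of_coprime hcop ?_
      rw [one_mul]
      exact hmeq
    unfold Nat.ModEq at h17r
    rcases hr5 with rfl | rfl <;> omega
  -- the kernel is trivial
  have hK : K = ⊥ := by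
    by_contra hne
    obtain ⟨r, hr, hrK⟩ := Nat.exists_prime_and_dvd (n := Nat.card K)
      (fun e => hne (Subgroup.eq_bot_of_card_eq _ e))
    haveI := Fact.mk hr
    have hr' := hnobig r hr (hrK.trans (Subgroup.card_subgroup_dvd_card K))
    have hKall : ∀ q : ℕ, q = 2 ∨ q = 3 ∨ q = 17 → ∀ S : Sylow q G,
        K ≤ Subgroup.normalizer ((S : Subgroup G) : Set G) := by
      rintro q (rfl | rfl | rfl)
      · exact hK2
      · exact hK3
      · exact hK17
    have hKr := hKall r hr'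
    obtain ⟨R⟩ := Sylow.nonempty (p := r) (G := G)
    set T := K ⊓ (R : Subgroup G) with hT
    haveI hTn : T.Normal := inf_sylow_normal K hKr R
    have hrT : r ∣ Nat.card T := by
      rw [hT, card_inf_sylow K hKr R (le_refl K)]
      exact dvd_pow_self r (hr.factorization_pos_of_dvd Nat.card_pos.ne' hrK).ne'
    let act : MulAction (R : Subgroup G) T :=
      MulAction.compHom T ((MulAut.conjNormal (H := T)).comp (R : Subgroup G).subtype)
    obtain ⟨z, hzfix, hz1⟩ := @IsPGroup.exists_fixed_point_of_prime_dvd_card_of_fixed_point r (R : Subgroup G) _ R.2 _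
      T act _ hrT 1 (fun u => Subtype.ext (by show u.1 * 1 * u.1⁻¹ = 1; group))
    refine hz1 (Subtype.ext ?_)
    show (1 : G) = z.1
    symm
    suffices z.1 ∈ Subgroup.center G by rwa [hZ, Subgroup.mem_bot] at this
    set C := Subgroup.centralizer ({z.1} : Set G) with hC
    have hall : ∀ q : ℕ, q.Prime → q ^ (Nat.card G).factorization q ∣ Nat.card C := by
      intro q hq
      haveI := Fact.mk hq
      by_cases hqd : q ∣ Nat.card G
      swap
      · rw [Nat.factorization_eq_zero_of_not_dvd hqd, pow_zero]; exact one_dvd _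
      obtain ⟨S⟩ := Sylow.nonempty (p := q) (G := G)
      rcases eq_or_ne r q with rfl | hne'
      · rw [← R.card_eq_multiplicity]
        refine Subgroup.card_dvd_of_le fun u hu => Subgroup.mem_centralizer_singleton_iff.2 ?_
        exact mul_inv_eq_iff_eq_mul.1 (congrArg Subtype.val (hzfix ⟨u, hu⟩))
      · rw [← S.card_eq_multiplicity]
        refine Subgroup.card_dvd_of_le fun u hu => Subgroup.mem_centralizer_singleton_iff.2 ?_
        exact (inf_sylow_commutes K hKr hne' R S z.2 (hKall q (hnobig q hq hqd) S z.2.1) hu).symm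
    have htop : C = ⊤ := by
      refine Subgroup.eq_top_of_card_eq C (Nat.dvd_antisymm (Subgroup.card_subgroup_dvd_card C) ?_)
      rw [← Nat.factorization_le_iff_dvd Nat.card_pos.ne' Nat.card_pos.ne', Finsupp.le_def]
      intro q
      by_cases hq : q.Prime
      · exact (hq.pow_dvd_iff_le_factorization Nat.card_pos.ne').1 (hall q hq)
      · rw [Nat.factorization_eq_zero_of_not_prime _ hq]; exact Nat.zero_le _
    rw [Subgroup.mem_center_iff]
    intro g
    exact Subgroup.mem_centralizer_singleton_iff.1 (show g ∈ C from htop ▸ Subgroup.mem_top g)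
  have e : G ≃* X := MulEquiv.ofBijective φ ⟨(MonoidHom.ker_eq_bot_iff φ).1 hK, hφs⟩
  exact hident.2.imp (fun h => h.map e.trans) (fun h => h.map e.trans)

end Cfsg.Agent.H7
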